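import Cfsg.Agent.H1.L2F
import Mathlib.LinearAlgebra.Projectivization.PSL.PSL2

/-! The subgroup structure of `PSL₂(q)`, `q ≡ 3 (mod 8)`, in ambient form. -/

set_option autoImplicit false
set_option linter.unusedSectionVars false

namespace CfH1

open Cfsg Subgroup CfH9 CfH7 CfH8 Matrix
open scoped Pointwise commutatorElement MatrixGroups

structure L2S {G : Type*} [Group G] (p : ℕ) (K U H R : Subgroup G) (u v : G) (h m : ℕ) : Prop where
  UK : U ≤ K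
  HK : H ≤ K
  RK : R ≤ K
  uK : u ∈ K
  vK : v ∈ K
  hm : h + 1 = 2 * m
  om : Odd m
  cU : Nat.card U = 2 * h + 1
  cH : Nat.card H = h
  cR : Nat.card R = m
  cK : Nat.card K = (2 * h + 1) * h * (4 * m)
  Up : ∀ x ∈ U, x ^ p = 1
  Uc : IsMulCommutative U
  Hc : IsCyclic H
  Rc : IsMulCommutative R
  HU : H ≤ Nm(U)
  u2 : u * u = 1
  u1 : u ≠ 1
  v2 : v * v = 1
  v1 : v ≠ 1
  vu : v ≠ u
  uv : u * v = v * u
  uH : ∀ y ∈ H, u * y * u⁻¹ = y⁻¹
  uR : ∀ z ∈ R, u * z = z * u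
  vR : ∀ z ∈ R, v * z * v⁻¹ = z⁻¹
  TU : ∀ x ∈ U, x ≠ 1 → ∀ k ∈ K, k * x * k⁻¹ ∈ U ⊔ H → k ∈ U ⊔ H
  CU : ∀ x ∈ U, ∀ y ∈ H, y * x = x * y → x = 1 ∨ y = 1
  TH : ∀ y ∈ H, y ≠ 1 → ∀ k ∈ K, k * y * k⁻¹ ∈ H → k ∈ H ∨ k * u ∈ H
  conj : ∀ s ∈ K, s * s = 1 → s ≠ 1 → ∃ k ∈ K, k * u * k⁻¹ = s
  Cu : ∀ k ∈ K, k * u = u * k → ∃ z ∈ R, k = z ∨ k = z * u ∨ k = z * v ∨ k = z * u * v
  CR : ∀ z ∈ R, z ≠ 1 → ∀ k ∈ K, k * z = z * k → k * u = u * k

theorem L2S.map {G G' : Type*} [Group G] [Group G'] [Finite G] {p : ℕ} {K U H R : Subgroup G} {u v : G}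
    {h m : ℕ} (d : L2S p K U H R u v h m) (f : G →* G') (hf : Function.Injective f) :
    L2S p (K.map f) (U.map f) (H.map f) (R.map f) (f u) (f v) h m := by
  have hc : ∀ X : Subgroup G, Nat.card (X.map f) = Nat.card X := fun X =>
    (Nat.card_congr (X.equivMapOfInjective f hf).toEquiv).symm
  have hm : ∀ (X : Subgroup G) x, f x ∈ X.map f ↔ x ∈ X := fun X x => mem_map_iff_mem hf
  have h1 : ∀ x, f x = 1 ↔ x = 1 := fun x => map_eq_one_iff f hf
  refine ⟨map_mono d.UK, map_mono d.HK, map_mono d.RK, (hm _ _).2 d.uK, (hm _ _).2 d.vK, d.hm, d.om,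
    (hc _).trans d.cU, (hc _).trans d.cH, (hc _).trans d.cR, (hc _).trans d.cK, ?_, comm_map d.Uc f,
    ?_, comm_map d.Rc f, (map_mono d.HU).trans (le_normalizer_map f), by rw [← map_mul, d.u2, map_one],
    (h1 _).not.2 d.u1, by rw [← map_mul, d.v2, map_one], (h1 _).not.2 d.v1, hf.ne d.vu,
    by rw [← map_mul, d.uv, map_mul], ?_, ?_, ?_, ?_, ?_, ?_, ?_, ?_, ?_⟩
  · rintro _ ⟨x, hx, rfl⟩; rw [← map_pow, d.Up x hx, map_one]
  · haveI := d.Hc
    exact isCyclic_of_surjective _ (H.equivMapOfInjective f hf).surjective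
  · rintro _ ⟨x, hx, rfl⟩; rw [← map_inv, ← map_inv, ← map_mul, ← map_mul, d.uH x hx]
  · rintro _ ⟨x, hx, rfl⟩; rw [← map_mul, ← map_mul, d.uR x hx]
  · rintro _ ⟨x, hx, rfl⟩; rw [← map_inv, ← map_inv, ← map_mul, ← map_mul, d.vR x hx]
  · rintro _ ⟨x, hx, rfl⟩ x1 _ ⟨k, hk, rfl⟩ e
    rw [← map_inv, ← map_mul, ← map_mul, ← Subgroup.map_sup, hm] at e
    rw [← Subgroup.map_sup, hm]
    exact d.TU x hx ((h1 _).not.1 x1) k hk e
  · rintro _ ⟨x, hx, rfl⟩ _ ⟨y, hy, rfl⟩ e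
    rw [h1, h1]
    exact d.CU x hx y hy (hf (by rw [map_mul, map_mul, e]))
  · rintro _ ⟨x, hx, rfl⟩ x1 _ ⟨k, hk, rfl⟩ e
    rw [← map_inv, ← map_mul, ← map_mul, hm] at e
    rw [← map_mul, hm, hm]
    exact d.TH x hx ((h1 _).not.1 x1) k hk e
  · rintro _ ⟨x, hx, rfl⟩ x2 x1
    obtain ⟨k, hk, rfl⟩ := d.conj x hx (by rwa [← map_mul, h1] at x2) ((h1 _).not.1 x1)
    exact ⟨f k, (hm _ _).2 hk, by simp⟩
  · rintro _ ⟨k, hk, rfl⟩ e
    obtain ⟨z, hz, e'⟩ := d.Cu k hk (hf (by rw [map_mul, map_mul, e]))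
    refine ⟨f z, (hm _ _).2 hz, ?_⟩
    rcases e' with rfl | rfl | rfl | rfl <;> simp
  · rintro _ ⟨z, hz, rfl⟩ z1 _ ⟨k, hk, rfl⟩ e
    rw [← map_mul, ← map_mul, d.CR z hz ((h1 _).not.1 z1) k hk (hf (by rw [map_mul, map_mul, e]))]

variable {F : Type*} [Field F]

def slDh (F : Type*) [Field F] : Fˣ →* SL(2, F) where
  toFun a := slD (a : F) a.ne_zero
  map_one' := Subtype.ext <| by rw [slD_val]; ext i j; fin_cases i <;> fin_cases j <;> simp
  map_mul' a b := Subtype.ext <| by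
    rw [sl_val_mul, slD_val, slD_val, slD_val]; ext i j; fin_cases i <;> fin_cases j <;> simp [mul_comm]

theorem slDh_val (a : Fˣ) : (slDh F a).1 = !![(a : F), 0; 0, (a : F)⁻¹] := rfl

theorem sl_ext {a b : SL(2, F)} (h0 : a 0 0 = b 0 0) (h1 : a 0 1 = b 0 1) (h2 : a 1 0 = b 1 0)
    (h3 : a 1 1 = b 1 1) : a = b := by
  ext i j; fin_cases i <;> fin_cases j; exacts [h0, h1, h2, h3]

theorem sl_mul_apply (a b : SL(2, F)) (i j : Fin 2) : (a * b) i j = a i 0 * b 0 j + a i 1 * b 1 j := by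
  change (a.1 * b.1) i j = _
  rw [mul_apply, Fin.sum_univ_two]

theorem sl_neg_apply (a : SL(2, F)) (i j : Fin 2) : (-a) i j = -a i j := rfl

theorem slT_00 (a : F) : slT a 0 0 = 1 := rfl
theorem slT_01 (a : F) : slT a 0 1 = a := rfl
theorem slT_10 (a : F) : slT a 1 0 = 0 := rfl
theorem slT_11 (a : F) : slT a 1 1 = 1 := rfl
theorem slDh_00 (a : Fˣ) : slDh F a 0 0 = a := rfl
theorem slDh_01 (a : Fˣ) : slDh F a 0 1 = 0 := rfl
theorem slDh_10 (a : Fˣ) : slDh F a 1 0 = 0 := rfl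
theorem slDh_11 (a : Fˣ) : slDh F a 1 1 = (a : F)⁻¹ := rfl
theorem slJ_00 : slJ F 0 0 = 0 := rfl
theorem slJ_01 : slJ F 0 1 = -1 := rfl
theorem slJ_10 : slJ F 1 0 = 1 := rfl
theorem slJ_11 : slJ F 1 1 = 0 := rfl

theorem upper_eq {g : SL(2, F)} (hg : g 1 0 = 0) : ∃ (b : F) (a : Fˣ), g = slT b * slDh F a := by
  have hd := sl_det g
  rw [hg, mul_zero, sub_zero] at hd
  have h0 : g 0 0 ≠ 0 := left_ne_zero_of_mul_eq_one hd
  refine ⟨g 0 1 * g 0 0, Units.mk0 _ h0, sl_ext ?_ ?_ ?_ ?_⟩ <;>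
    simp [sl_mul_apply, slT_00, slT_01, slT_10, slT_11, slDh_00, slDh_01, slDh_10, slDh_11, hg, h0]
  exact eq_inv_of_mul_eq_one_right hd

theorem diag_eq {g : SL(2, F)} (hg : g 1 0 = 0) (hg' : g 0 1 = 0) : ∃ a : Fˣ, g = slDh F a := by
  have hd := sl_det g
  rw [hg, mul_zero, sub_zero] at hd
  have h0 : g 0 0 ≠ 0 := left_ne_zero_of_mul_eq_one hd
  refine ⟨Units.mk0 _ h0, sl_ext ?_ ?_ ?_ ?_⟩ <;> simp [slDh_00, slDh_01, slDh_10, slDh_11, hg, hg']
  exact eq_inv_of_mul_eq_one_right hd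

/-- the image of the unitriangular group in `PSL₂` -/
def pU (F : Type*) [Field F] : Subgroup PSL(2, F) := (slTs F).map (QuotientGroup.mk' (center SL(2, F)))

/-- the image of the diagonal group in `PSL₂` -/
def pH (F : Type*) [Field F] : Subgroup PSL(2, F) := ((QuotientGroup.mk' (center SL(2, F))).comp (slDh F)).range

theorem mem_pU {x : PSL(2, F)} : x ∈ pU F ↔ ∃ b : F, (slT b : PSL(2, F)) = x :=
  ⟨by rintro ⟨_, ⟨b, rfl⟩, rfl⟩; exact ⟨b, rfl⟩, by rintro ⟨b, rfl⟩; exact ⟨_, ⟨b, rfl⟩, rfl⟩⟩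

theorem mem_pH {x : PSL(2, F)} : x ∈ pH F ↔ ∃ a : Fˣ, (slDh F a : PSL(2, F)) = x := Iff.rfl

theorem pH_le_Nm [Finite F] : pH F ≤ Nm(pU F) := by
  rintro _ ⟨a, rfl⟩
  refine mem_normalizer_of_conj_mem ?_
  rintro _ ⟨s, hs, rfl⟩
  exact ⟨_, conj_mem_slTs (g := slDh F a) rfl hs, rfl⟩

theorem mem_pB [Finite F] {g : SL(2, F)} : (g : PSL(2, F)) ∈ pU F ⊔ pH F ↔ g 1 0 = 0 := by
  constructor
  · intro h
    obtain ⟨_, ⟨_, ⟨b, rfl⟩, rfl⟩, _, ⟨a, rfl⟩, e⟩ := (mem_sup_of_le_Nm' pH_le_Nm).1 h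
    rcases CfH3.psl2_mk_eq_iff.1 (show ((slT b * slDh F a : SL(2, F)) : PSL(2, F)) = g from e) with e | e
    · rw [← e]; simp [sl_mul_apply, slT_10, slT_11, slDh_00, slDh_10]
    · have := congrArg (fun x : SL(2, F) => x 1 0) e
      simpa [sl_mul_apply, slT_10, slT_11, slDh_00, slDh_10, sl_neg_apply] using this
  · intro h
    obtain ⟨b, a, rfl⟩ := upper_eq h
    exact mul_mem (mem_sup_left (mem_pU.2 ⟨b, rfl⟩)) (mem_sup_right (mem_pH.2 ⟨a, rfl⟩))

theorem pU_TI [Finite F] {x : PSL(2, F)} (hx : x ∈ pU F) (x1 : x ≠ 1) {k : PSL(2, F)}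
    (h : k * x * k⁻¹ ∈ pU F ⊔ pH F) : k ∈ pU F ⊔ pH F := by
  obtain ⟨b, rfl⟩ := mem_pU.1 hx
  obtain ⟨k, rfl⟩ := QuotientGroup.mk_surjective k
  have hb : b ≠ 0 := by rintro rfl; exact x1 (by rw [slT_zero]; rfl)
  have := mem_pB.1 (show ((k * slT b * k⁻¹ : SL(2, F)) : PSL(2, F)) ∈ _ from h)
  rw [mem_pB]
  have e : (k * slT b * k⁻¹) * k = k * slT b := by group
  have e0 := congrArg (fun x : SL(2, F) => x 1 0) e
  have e1 := congrArg (fun x : SL(2, F) => x 1 1) e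
  simp only [sl_mul_apply (k * slT b * k⁻¹), this, sl_mul_apply k, slT_00, slT_01, slT_10, slT_11] at e0 e1
  by_contra h0
  have e2 : (k * slT b * k⁻¹) 1 1 = 1 := mul_right_cancel₀ h0 (by linear_combination e0)
  rw [e2] at e1
  exact mul_ne_zero h0 hb (by linear_combination -e1)

theorem card_pU [Finite F] (h2 : (2 : F) ≠ 0) : Nat.card (pU F) = Nat.card F := by
  refine (Nat.card_congr (Equiv.ofBijective (fun a : F => (⟨slT a, mem_pU.2 ⟨a, rfl⟩⟩ : pU F))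
    ⟨fun a b e => ?_, fun ⟨_, hx⟩ => by obtain ⟨a, rfl⟩ := mem_pU.1 hx; exact ⟨a, rfl⟩⟩)).symm
  rcases CfH3.psl2_mk_eq_iff.1 (congrArg Subtype.val e) with e | e
  · exact slT_inj e
  · have := congrArg (fun x : SL(2, F) => x 0 0) e
    simp only [sl_neg_apply, slT_00] at this
    exact absurd (by linear_combination this) h2

theorem slDh_mk_eq_one {a : Fˣ} : (slDh F a : PSL(2, F)) = 1 ↔ (a : F) ^ 2 = 1 := by
  rw [CfH3.psl2_mk_eq_one_iff]
  constructor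
  · rintro (e | e)
    · have := congrArg (fun x : SL(2, F) => x 0 0) e
      simp only [slDh_00] at this
      rw [this]; simp
    · have := congrArg (fun x : SL(2, F) => x 0 0) e
      simp only [slDh_00, sl_neg_apply] at this
      rw [this]; simp
  · intro e
    rcases sq_eq_one_iff.1 e with e | e
    · left; refine sl_ext ?_ ?_ ?_ ?_ <;> simp [slDh_00, slDh_01, slDh_10, slDh_11, e]
    · right; refine sl_ext ?_ ?_ ?_ ?_ <;> simp [slDh_00, slDh_01, slDh_10, slDh_11, e, sl_neg_apply]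

theorem card_pH [Finite F] (h2 : (2 : F) ≠ 0) : 2 * Nat.card (pH F) + 1 = Nat.card F := by
  have h1 : ((QuotientGroup.mk' (center SL(2, F))).comp (slDh F)).ker = zpowers (-1) := by
    ext a
    rw [MonoidHom.mem_ker]
    change (slDh F a : PSL(2, F)) = 1 ↔ _
    rw [slDh_mk_eq_one]
    constructor
    · intro e
      rcases sq_eq_one_iff.1 e with e | e
      · rw [show a = 1 from Units.ext e]; exact one_mem _
      · rw [show a = -1 from Units.ext e]; exact mem_zpowers _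
    · rintro ⟨k, rfl⟩
      rw [← Units.val_pow_eq_pow_val, ← _root_.zpow_natCast, ← _root_.zpow_mul, mul_comm, _root_.zpow_mul]; simp
  have h3 := ((QuotientGroup.mk' (center SL(2, F))).comp (slDh F)).ker.card_mul_index
  rw [index_ker] at h3
  have h4 : orderOf (-1 : Fˣ) = 2 := orderOf_eq_prime (by simp) fun e => h2 (by
    have := congrArg (Units.val) e
    simp only [Units.val_neg, Units.val_one] at this
    linear_combination -this)
  rw [h1, Nat.card_zpowers, h4] at h3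
  rw [Nat.card_eq_card_units_add_one F, ← h3]; rfl

theorem pH_TI {y : PSL(2, F)} (hy : y ∈ pH F) (y1 : y ≠ 1) (y2 : y * y ≠ 1) {k : PSL(2, F)}
    (h : k * y * k⁻¹ ∈ pH F) : k ∈ pH F ∨ k * (slJ F : PSL(2, F)) ∈ pH F := by
  obtain ⟨a, rfl⟩ := mem_pH.1 hy
  obtain ⟨k, rfl⟩ := QuotientGroup.mk_surjective k
  obtain ⟨b, e⟩ := mem_pH.1 h
  rw [eq_mul_inv_iff_mul_eq] at e
  have ha : (a : F) ^ 2 ≠ 1 := fun e => y1 (slDh_mk_eq_one.2 e)
  have ha0 := a.ne_zero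
  have hb0 := b.ne_zero
  have key : ∃ ε : F, (b : F) * k 0 0 = ε * k 0 0 * a ∧ (b : F) * k 0 1 = ε * k 0 1 * (a : F)⁻¹ ∧
      (b : F)⁻¹ * k 1 0 = ε * k 1 0 * a ∧ (b : F)⁻¹ * k 1 1 = ε * k 1 1 * (a : F)⁻¹ := by
    rcases CfH3.psl2_mk_eq_iff.1 (show ((slDh F b * k : SL(2, F)) : PSL(2, F)) = (k * slDh F a : SL(2, F)) from e)
      with e | e
    · have e0 := fun i j => congrArg (fun x : SL(2, F) => x i j) e
      have e1 := e0 0 0; have e2 := e0 0 1; have e3 := e0 1 0; have e4 := e0 1 1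
      simp only [sl_mul_apply, slDh_00, slDh_01, slDh_10, slDh_11] at e1 e2 e3 e4
      exact ⟨1, by linear_combination e1, by linear_combination e2, by linear_combination e3,
        by linear_combination e4⟩
    · have e0 := fun i j => congrArg (fun x : SL(2, F) => x i j) e
      have e1 := e0 0 0; have e2 := e0 0 1; have e3 := e0 1 0; have e4 := e0 1 1
      simp only [sl_mul_apply, slDh_00, slDh_01, slDh_10, slDh_11, sl_neg_apply] at e1 e2 e3 e4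
      exact ⟨-1, by linear_combination e1, by linear_combination e2, by linear_combination e3,
        by linear_combination e4⟩
  obtain ⟨ε, e1, e2, e3, e4⟩ := key
  have hd := sl_det k
  have r0 : k 0 0 = 0 ∨ k 0 1 = 0 := by
    by_contra hn
    push Not at hn
    have f1 : (b : F) = ε * a := mul_right_cancel₀ hn.1 (by linear_combination e1)
    have f2 : (b : F) = ε * (a : F)⁻¹ := mul_right_cancel₀ hn.2 (by linear_combination e2)
    have f3 : ε ≠ 0 := by rintro rfl; exact hb0 (by rw [f1, zero_mul])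
    have f4 : (a : F) = (a : F)⁻¹ := mul_left_cancel₀ f3 (f1.symm.trans f2)
    exact ha (by rw [sq]; nth_rw 1 [f4]; exact inv_mul_cancel₀ ha0)
  have r1 : k 1 0 = 0 ∨ k 1 1 = 0 := by
    by_contra hn
    push Not at hn
    have f1 : (b : F)⁻¹ = ε * a := mul_right_cancel₀ hn.1 (by linear_combination e3)
    have f2 : (b : F)⁻¹ = ε * (a : F)⁻¹ := mul_right_cancel₀ hn.2 (by linear_combination e4)
    have f3 : ε ≠ 0 := by rintro rfl; exact inv_ne_zero hb0 (by rw [f1, zero_mul])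
    have f4 : (a : F) = (a : F)⁻¹ := mul_left_cancel₀ f3 (f1.symm.trans f2)
    exact ha (by rw [sq]; nth_rw 1 [f4]; exact inv_mul_cancel₀ ha0)
  rcases r0 with r0 | r0 <;> rcases r1 with r1 | r1
  · simp [r0, r1] at hd
  · obtain ⟨c, hc⟩ := diag_eq (g := k * slJ F) (by simp [sl_mul_apply, slJ_00, slJ_10, r1])
      (by simp [sl_mul_apply, slJ_01, slJ_11, r0])
    exact Or.inr (mem_pH.2 ⟨c, by rw [← hc]; rfl⟩)
  · obtain ⟨c, hc⟩ := diag_eq r1 r0
    exact Or.inl (mem_pH.2 ⟨c, by rw [← hc]⟩)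
  · simp [r0, r1] at hd

theorem pU_pH_comm (h2 : (2 : F) ≠ 0) {x y : PSL(2, F)} (hx : x ∈ pU F) (hy : y ∈ pH F) (e : y * x = x * y) :
    x = 1 ∨ y = 1 := by
  obtain ⟨b, rfl⟩ := mem_pU.1 hx
  obtain ⟨a, rfl⟩ := mem_pH.1 hy
  have ha0 := a.ne_zero
  rcases CfH3.psl2_mk_eq_iff.1 (show ((slDh F a * slT b : SL(2, F)) : PSL(2, F)) = (slT b * slDh F a : SL(2, F))
    from e) with e | e
  · have e1 := congrArg (fun x : SL(2, F) => x 0 1) e
    simp only [sl_mul_apply, slDh_00, slDh_01, slDh_11, slT_00, slT_01, slT_11] at e1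
    by_cases hb : b = 0
    · left; rw [hb, slT_zero]; rfl
    · right
      have f4 : (a : F) = (a : F)⁻¹ := mul_right_cancel₀ hb (by linear_combination e1)
      exact slDh_mk_eq_one.2 (by rw [sq]; nth_rw 1 [f4]; exact inv_mul_cancel₀ ha0)
  · have e1 := congrArg (fun x : SL(2, F) => x 0 0) e
    simp only [sl_mul_apply, slDh_00, slDh_01, slDh_10, slT_00, slT_01, slT_10, sl_neg_apply] at e1
    exact absurd (by linear_combination e1) (mul_ne_zero h2 ha0)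

theorem slJ_inverts (y : PSL(2, F)) (hy : y ∈ pH F) : (slJ F : PSL(2, F)) * y * (slJ F : PSL(2, F))⁻¹ = y⁻¹ := by
  obtain ⟨a, rfl⟩ := mem_pH.1 hy
  rw [mul_inv_eq_iff_eq_mul, ← QuotientGroup.mk_inv, ← map_inv, ← QuotientGroup.mk_mul, ← QuotientGroup.mk_mul]
  congr 1
  refine sl_ext ?_ ?_ ?_ ?_ <;>
    simp [sl_mul_apply, slDh_00, slDh_01, slDh_10, slDh_11, slJ_00, slJ_01, slJ_10, slJ_11, -map_inv]

theorem slJ_sq : (slJ F : PSL(2, F)) * (slJ F : PSL(2, F)) = 1 := by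
  rw [← QuotientGroup.mk_mul, CfH3.psl2_mk_eq_one_iff]
  right
  refine sl_ext ?_ ?_ ?_ ?_ <;> simp [sl_mul_apply, slJ_00, slJ_01, slJ_10, slJ_11, sl_neg_apply]

theorem slJ_ne : (slJ F : PSL(2, F)) ≠ 1 := by
  rw [Ne, CfH3.psl2_mk_eq_one_iff]
  rintro (e | e) <;> have := congrArg (fun x : SL(2, F) => x 1 0) e <;> simp [slJ_10, sl_neg_apply] at this

theorem exists_l2S [Fintype F] (p : ℕ) [CharP F p] {j : ℕ} (hj : j ≠ 0) (hF : Fintype.card F = 8 * j + 3) :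
    ∃ (R : Subgroup PSL(2, F)) (v : PSL(2, F)),
      L2S p ⊤ (pU F) (pH F) R (slJ F : PSL(2, F)) v (4 * j + 1) (2 * j + 1) := by
  classical
  have hF' : Nat.card F = 8 * j + 3 := by rw [Nat.card_eq_fintype_card, hF]
  haveI := Matrix.ProjectiveSpecialLinearGroup.rank_two_simple (F := F) (by omega)
  have hodd : Odd (8 * j + 3) := Nat.odd_iff.2 (by omega)
  have h2 : (2 : F) ≠ 0 := CfH3.two_ne_zero_iff_odd.2 (hF ▸ hodd)
  have hc := CfH3.card_PSL2 hF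
  rw [CfH3.gcd_two_of_odd hodd] at hc
  have hc' : Nat.card PSL(2, F) = (8 * j + 3) * (4 * j + 1) * (4 * (2 * j + 1)) := by
    have : (8 * j + 3) ^ 2 - 1 = (4 * j + 1) * (4 * (2 * j + 1)) * 2 := by
      apply Nat.sub_eq_of_eq_add; ring
    rw [this] at hc
    exact Nat.eq_of_mul_eq_mul_right two_pos (by rw [hc]; ring)
  have hsq : ∀ a : F, a ^ 2 ≠ -1 := fun a ha => by
    have := FiniteField.isSquare_neg_one_iff (F := F)
    rw [hF] at this
    exact this.1 ⟨a, by rw [← ha, sq]⟩ (by omega)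
  have hH : Nat.card (pH F) = 4 * j + 1 := by have := card_pH h2; omega
  obtain ⟨D, hD, ⟨e⟩⟩ := CfH3.exists_dihedral_coatom hF (N := 8 * j + 3 + 1) (Or.inl rfl)
    (by omega) (by omega) (by omega)
  rw [CfH3.gcd_two_of_odd hodd, show (8 * j + 3 + 1) / 2 = 2 * (2 * j + 1) by omega] at e
  obtain ⟨c, hc1, hc2, hc3, w, hw1, hw2, hw3⟩ := dih_data e
  have ht0 : orderOf (c ^ (2 * j + 1)) = 2 := by
    rw [orderOf_pow' _ (by omega), hc2, Nat.gcd_eq_right (Dvd.intro_left _ rfl), Nat.mul_div_cancel _ (by omega)]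
  have ht1 : c ^ (2 * j + 1) ≠ 1 := by intro h; simp [h] at ht0
  have ht2 : c ^ (2 * j + 1) * c ^ (2 * j + 1) = 1 := by rw [← pow_two]; exact pow_eq_one_of_orderOf ht0
  have hw4 : w * c * w⁻¹ = c⁻¹ := ((hc3 w hw1).resolve_left hw3).1
  have hN : ∀ z ∈ zpowers c, z ≠ 1 → Nm(zpowers z) ≤ D := fun z hz z1 => by
    have h1 : D ≤ Nm(zpowers z) := fun h hh => by
      obtain ⟨k, rfl⟩ := hz
      refine mem_normalizer_of_cj_le ?_
      rw [cj_zpowers, zpowers_le]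
      rcases hc3 h hh with ⟨l, rfl⟩ | ⟨h2, -⟩
      · rw [((Commute.refl c).zpow_zpow l k).eq, mul_inv_cancel_right]; exact mem_zpowers _
      · rw [← conj_zpow, h2, _root_.inv_zpow]; exact inv_mem (mem_zpowers _)
    refine ((hD.le_iff.1 h1).resolve_left fun h => ?_).le
    have h3 : (zpowers z).Normal := normal_iff_top_le_Nm.2 h.ge
    have h4 := h3.eq_bot_or_eq_top.resolve_left (zpowers_ne_bot' z1)
    have h5 : w * c = c * w := comm_iff.1 (h4 ▸ comm_zpowers z) _ (mem_top _) _ (mem_top _)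
    rw [h5, mul_inv_cancel_right] at hw4
    have := orderOf_dvd_of_pow_eq_one (show c ^ 2 = 1 by rw [pow_two]; nth_rw 1 [hw4]; simp)
    have := Nat.le_of_dvd two_pos (hc2 ▸ this)
    omega
  have hDc : ∀ h ∈ D, h * c ^ (2 * j + 1) = c ^ (2 * j + 1) * h := fun h hh => by
    rcases hc3 h hh with ⟨k, rfl⟩ | ⟨h2, -⟩
    · exact (Commute.refl c).zpow_left k |>.pow_right _
    · rw [← mem_Cx, mem_Cx', inverts_pow h2, inv_eq_of_mul_eq_one_right ht2]
  have hd : orderOf (c ^ 2) = 2 * j + 1 := by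
    rw [orderOf_pow' _ two_ne_zero, hc2, Nat.gcd_eq_right (Dvd.intro _ rfl), Nat.mul_div_cancel_left _ two_pos]
  have hsplit : ∀ k ∈ zpowers c, ∃ z ∈ zpowers (c ^ 2), k = z ∨ k = z * c ^ (2 * j + 1) := by
    intro k hk
    obtain ⟨n, rfl⟩ := mem_powers_iff_mem_zpowers.2 hk
    rcases Nat.even_or_odd' n with ⟨l, rfl | rfl⟩
    · exact ⟨_, pow_mem (mem_zpowers _) l, Or.inl (pow_mul _ _ _)⟩
    · refine ⟨(c ^ 2) ^ l * ((c ^ 2) ^ j)⁻¹, mul_mem (pow_mem (mem_zpowers _) l)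
        (inv_mem (pow_mem (mem_zpowers _) j)), Or.inr ?_⟩
      simp only [← pow_mul]; group
  obtain ⟨g, hg⟩ := psl2_conj_invol hsq ht1 ht2
  have hg' : (slJ F : PSL(2, F)) = g⁻¹ * c ^ (2 * j + 1) * g := by rw [← hg]; group
  have cm : ∀ a b : PSL(2, F), (g * a * g⁻¹) * b = b * (g * a * g⁻¹) ↔ a * (g⁻¹ * b * g) = (g⁻¹ * b * g) * a :=
    fun a b => by
      rw [← (MulAut.conj g⁻¹).injective.eq_iff]; simp [mul_assoc]
  refine ⟨cj g⁻¹ (zpowers (c ^ 2)), g⁻¹ * w * g, le_top, le_top, le_top, trivial, trivial, by ring,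
    odd_two_mul_add_one j, by rw [card_pU h2, hF']; ring, hH, by rw [card_cj, Nat.card_zpowers, hd],
    by rw [card_top, hc']; ring, ?_, ?_, ?_, isMulCommutative_cj (comm_zpowers _) _, pH_le_Nm, slJ_sq, slJ_ne,
    ?_, ?_, ?_, ?_, slJ_inverts, ?_, ?_, fun x hx x1 k _ => pU_TI hx x1, fun x hx y hy => pU_pH_comm h2 hx hy,
    fun y hy y1 k _ => pH_TI hy y1 fun y2 => y1 ?_, fun s _ s2 s1 => ?_, fun k _ hk => ?_, fun z hz z1 k _ hk => ?_⟩
  · rintro _ ⟨s, hs, rfl⟩; rw [← map_pow, pow_char_of_mem_slTs p hs, map_one]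
  · refine comm_map (comm_iff.2 ?_) _
    rintro _ ⟨a, rfl⟩ _ ⟨b, rfl⟩; rw [slT_mul, slT_mul, add_comm]
  · exact isCyclic_of_surjective _ (MonoidHom.rangeRestrict_surjective _)
  · calc _ = g⁻¹ * (w * w) * g := by group
      _ = 1 := by rw [hw2]; group
  · intro h
    exact hw3 (by rw [show w = 1 by simpa [mul_assoc, ← eq_inv_mul_iff_mul_eq] using h]; exact one_mem _)
  · rw [hg']
    intro h
    exact hw3 (by rw [show w = c ^ (2 * j + 1) by simpa using h]; exact pow_mem (mem_zpowers _) _)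
  · rw [← cm, hg]; exact (hDc w hw1).symm
  · intro z hz
    obtain ⟨k, hk⟩ := mem_cj_inv.1 hz
    rw [hg', eq_comm, ← cm, ← hk]
    exact ((Commute.refl c).pow_pow _ _).zpow_left _
  · intro z hz
    obtain ⟨k, hk⟩ := mem_cj_inv.1 hz
    have : w * (g * z * g⁻¹) * w⁻¹ = (g * z * g⁻¹)⁻¹ := by rw [← hk, ← conj_zpow, inverts_pow hw4, _root_.inv_zpow]
    calc _ = g⁻¹ * (w * (g * z * g⁻¹) * w⁻¹) * g := by group
      _ = _ := by rw [this]; group
  · have := pow_card_eq_one_of_mem hy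
    rw [hH, show 4 * j + 1 = 2 * (2 * j) + 1 by ring, pow_succ, pow_mul, pow_two y, y2] at this
    simpa using this
  · obtain ⟨k, hk⟩ := psl2_conj_invol hsq s1 s2
    exact ⟨k, trivial, hk⟩
  · rw [hg', ← cm] at hk
    have h1 : g * k * g⁻¹ ∈ D := hN _ (pow_mem (mem_zpowers _) _) ht1 (Cz_le_Nm _ (by rw [Cz_zpowers]; exact mem_Cx.2 hk))
    have h3 : ∀ a, g * k * g⁻¹ = a → k = g⁻¹ * a * g := fun a e => by rw [← e]; group
    rcases hc3 _ h1 with h4 | ⟨h4, -⟩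
    · obtain ⟨z, hz, h5 | h5⟩ := hsplit _ h4
      · exact ⟨g⁻¹ * z * g, mem_cj_inv.2 (by simpa [mul_assoc] using hz), Or.inl (h3 _ h5)⟩
      · exact ⟨g⁻¹ * z * g, mem_cj_inv.2 (by simpa [mul_assoc] using hz), Or.inr (Or.inl (by
          rw [h3 _ h5, hg']; group))⟩
    · have h6 : g * k * g⁻¹ * w⁻¹ ∈ zpowers c := by
        refine (hc3 _ (mul_mem h1 (inv_mem hw1))).resolve_right fun h => ?_
        have h7 := h.1
        have h8 : w⁻¹ * c * w = c⁻¹ := by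
          rw [← _root_.inv_inj, inv_inv]
          calc _ = w⁻¹ * c⁻¹ * w := by group
            _ = c := by rw [← hw4]; group
        have h9 : c = c⁻¹ := by
          calc c = (g * k * g⁻¹ * c * (g * k * g⁻¹)⁻¹)⁻¹ := by rw [h4, inv_inv]
            _ = g * k * g⁻¹ * (w⁻¹ * c * w) * (g * k * g⁻¹)⁻¹ := by rw [h8]; group
            _ = c⁻¹ := by rw [← h7]; group
        have := orderOf_dvd_of_pow_eq_one (show c ^ 2 = 1 by rw [pow_two]; nth_rw 1 [h9]; simp)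
        have := Nat.le_of_dvd two_pos (hc2 ▸ this)
        omega
      obtain ⟨z, hz, h5 | h5⟩ := hsplit _ h6
      · exact ⟨g⁻¹ * z * g, mem_cj_inv.2 (by simpa [mul_assoc] using hz), Or.inr (Or.inr (Or.inl (by
          rw [h3 (z * w) (by rw [← h5]; group)]; group)))⟩
      · exact ⟨g⁻¹ * z * g, mem_cj_inv.2 (by simpa [mul_assoc] using hz), Or.inr (Or.inr (Or.inr (by
          rw [h3 (z * c ^ (2 * j + 1) * w) (by rw [← h5]; group), hg']; group)))⟩
  · rw [hg', ← cm]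
    refine hDc _ (hN (g * z * g⁻¹) (zpowers_le.2 (pow_mem (mem_zpowers c) 2) (mem_cj_inv.1 hz))
      (fun h => z1 (by simpa using h)) (Cz_le_Nm _ ?_))
    rw [Cz_zpowers, mem_Cx, conj_mul, conj_mul, hk]

theorem exists_l2S_of_equiv {G : Type*} [Group G] {K : Subgroup G} [Fintype F] (p : ℕ) [CharP F p] {j : ℕ}
    (hj : j ≠ 0) (hF : Fintype.card F = 8 * j + 3) (e : K ≃* PSL(2, F)) :
    ∃ (U H R : Subgroup G) (u v : G), L2S p K U H R u v (4 * j + 1) (2 * j + 1) := by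
  obtain ⟨R, v, d⟩ := exists_l2S p hj hF
  have := d.map (K.subtype.comp e.symm.toMonoidHom) (K.subtype_injective.comp e.symm.injective)
  rw [← Subgroup.map_map, map_top_of_surjective _ e.symm.surjective, map_subtype_top] at this
  exact ⟨_, _, _, _, _, this⟩

end CfH1
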