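import Cfsg.Agent.H1.L2S
import Cfsg.Agent.H5.Dihedral8
import Cfsg.Agent.H5.Quaternion
import Cfsg.Agent.H8.Invol
import Cfsg.Agent.H8.Coprime2
import Cfsg.Agent.H9.Invert
import Cfsg.Agent.H9.Isolated

/-! Groups of Ree type without `S₃`: the basic set-up. -/

set_option autoImplicit false
set_option linter.unusedSectionVars false

namespace CfH1

open Cfsg Subgroup CfH9 CfH7 CfH8
open scoped Pointwise commutatorElement

variable {G : Type*} [Group G]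

theorem mem_zpowers_inv {s x : G} (hs : s * s = 1) : x ∈ zpowers s ↔ x = 1 ∨ x = s := by
  constructor
  · rintro ⟨k, rfl⟩
    rcases Int.even_or_odd' k with ⟨l, rfl | rfl⟩
    · left; simp [zpow_mul, pow_two, hs]
    · right; simp [zpow_add, zpow_mul, pow_two, hs]
  · rintro (rfl | rfl); exacts [one_mem _, mem_zpowers _]

theorem mem_inv_sup {s x : G} {X : Subgroup G} (hs : s * s = 1) (hn : s ∈ Nm(X)) :
    x ∈ zpowers s ⊔ X ↔ x ∈ X ∨ s * x ∈ X := by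
  rw [mem_sup_of_le_Nm (zpowers_le.2 hn)]
  constructor
  · rintro ⟨a, ha, b, hb, rfl⟩
    rcases (mem_zpowers_inv hs).1 ha with rfl | rfl
    · left; simpa using hb
    · right; rwa [← mul_assoc, hs, one_mul]
  · rintro (h | h)
    · exact ⟨1, one_mem _, x, h, one_mul _⟩
    · exact ⟨s, mem_zpowers _, _, h, by rw [← mul_assoc, hs, one_mul]⟩

theorem orderOf_inv2 {s : G} (hs : s * s = 1) (h1 : s ≠ 1) : orderOf s = 2 :=
  orderOf_eq_prime (by rw [pow_two, hs]) h1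

theorem card_inv_sup [Finite G] {s : G} {X : Subgroup G} (hs : s * s = 1) (hn : s ∈ Nm(X)) (h : s ∉ X) :
    Nat.card (zpowers s ⊔ X : Subgroup G) = 2 * Nat.card X := by
  have h1 := CfH9.card_sup_mul_card_inf (zpowers_le.2 hn)
  have h2 : zpowers s ⊓ X = ⊥ := eq_bot_iff.2 fun x hx => by
    rcases (mem_zpowers_inv hs).1 hx.1 with rfl | rfl
    · exact one_mem _
    · exact absurd hx.2 h
  rwa [h2, card_bot, mul_one, Nat.card_zpowers, orderOf_inv2 hs (fun e => h (e ▸ one_mem _))] at h1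

theorem isPGroup_two_of_sq {X : Subgroup G} (h : ∀ a ∈ X, a * a = 1) : IsPGroup 2 X :=
  isPGroup_iff_mem.2 fun a ha => ⟨1, by rw [pow_one, pow_two, h a ha]⟩

theorem pow_odd_of_sq {s : G} (hs : s * s = 1) {n : ℕ} (hn : Odd n) : s ^ n = s := by
  obtain ⟨k, rfl⟩ := hn
  rw [pow_succ, pow_mul, pow_two, hs, one_pow, one_mul]

theorem eq_one_of_sq_of_odd {s : G} (hs : s * s = 1) (hn : Odd (orderOf s)) : s = 1 := by
  rw [← pow_odd_of_sq hs hn, pow_orderOf_eq_one]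

theorem odd_orderOf_of_mem {X : Subgroup G} (h : Odd (Nat.card X)) {x : G} (hx : x ∈ X) : Odd (orderOf x) :=
  Odd.of_dvd_nat h (X.orderOf_dvd_natCard hx)

theorem exists_cj_le_of_hall [Finite G] {p : ℕ} [Fact p.Prime] {X K P : Subgroup G} (hX : X ≤ K)
    (h : ¬ p ∣ X.relIndex K) (hP : IsPGroup p P) (hPK : P ≤ K) : ∃ k ∈ K, cj k P ≤ X := by
  obtain ⟨S, hS⟩ := exists_sylIn p X
  obtain ⟨k, hk, e⟩ := (hS.trans hX h).exists_cj_le hP hPK
  exact ⟨k, hk, e.trans hS.le⟩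

structure RT (t : G) (K U H R : Subgroup G) (u v : G) (h m : ℕ) : Prop extends L2S 3 K U H R u v h m where
  t2 : t * t = 1
  t1 : t ≠ 1
  tK : ∀ k ∈ K, t * k = k * t
  tn : t ∉ K
  ct : ∀ c, c * t = t * c → c ∈ K ∨ t * c ∈ K
  odd : Odd (Cx(t)).index
  big : 13 ≤ h
  perf : commutator G = ⊤

namespace RT

variable [Finite G] {t u v : G} {K U H R : Subgroup G} {h m : ℕ} (d : RT t K U H R u v h m)
include d

theorem oh : Odd h := by have := d.hm; exact Nat.odd_iff.2 (by omega)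

theorem pU : IsPGroup 3 U := isPGroup_iff_mem.2 fun a ha => ⟨1, by rw [pow_one, d.Up a ha]⟩

theorem exists_pow : ∃ k, 2 * h + 1 = 3 ^ k := by
  haveI : Fact (Nat.Prime 3) := ⟨Nat.prime_three⟩
  obtain ⟨k, hk⟩ := IsPGroup.iff_card.1 d.pU
  exact ⟨k, d.cU ▸ hk⟩

theorem three : 3 ∣ 2 * h + 1 := by
  obtain ⟨k, hk⟩ := d.exists_pow
  have := d.big
  rcases k with _ | k
  · omega
  · rw [hk]; exact dvd_pow_self _ (by omega)

theorem h3 : ¬ 3 ∣ h := by have := d.three; omega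
theorem m3 : ¬ 3 ∣ m := by have := d.three; have := d.hm; omega

theorem hm_cop : h.Coprime m := by
  have := d.hm
  rw [Nat.coprime_iff_gcd_eq_one, ← Nat.dvd_one]
  have h1 : Nat.gcd h m ∣ h + 1 := this ▸ (Nat.gcd_dvd_right h m).mul_left 2
  exact (Nat.dvd_add_right (Nat.gcd_dvd_left h m)).1 h1

theorem t_inv : t⁻¹ = t := inv_eq_of_mul_eq_one_right d.t2
theorem u_inv : u⁻¹ = u := inv_eq_of_mul_eq_one_right d.u2
theorem v_inv : v⁻¹ = v := inv_eq_of_mul_eq_one_right d.v2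
theorem tt (x : G) : t * (t * x) = x := by rw [← mul_assoc, d.t2, one_mul]
theorem tu : t * u = u * t := d.tK u d.uK
theorem tconj {k : G} (hk : k ∈ K) : t * k * t⁻¹ = k := by rw [d.tK k hk, mul_inv_cancel_right]
theorem K_le : K ≤ Cx(t) := fun k hk => mem_Cx.2 (d.tK k hk).symm
theorem t_Cz {X : Subgroup G} (hX : X ≤ K) : t ∈ Cz(X) := le_Cx_iff.1 (hX.trans d.K_le)
theorem t_Nm {X : Subgroup G} (hX : X ≤ K) : t ∈ Nm(X) := Cz_le_Nm _ (d.t_Cz hX)
theorem conj_t {k : G} (hk : k ∈ Cx(t)) : k * t * k⁻¹ = t := mem_Cx'.1 hk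

theorem C_eq : Cx(t) = zpowers t ⊔ K := by
  refine le_antisymm (fun c hc => (mem_inv_sup d.t2 (d.t_Nm le_rfl)).2 (d.ct c (mem_Cx.1 hc)))
    (sup_le (zpowers_le.2 (mem_Cx.2 rfl)) d.K_le)

theorem card_C : Nat.card Cx(t) = 2 * ((2 * h + 1) * h * (4 * m)) := by
  rw [d.C_eq, card_inv_sup d.t2 (d.t_Nm le_rfl) d.tn, d.cK]

theorem mem_K {c : G} (hc : c ∈ Cx(t)) (ho : Odd (orderOf c)) : c ∈ K := by
  refine (d.ct c (mem_Cx.1 hc)).resolve_right fun e => d.tn ?_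
  have := pow_mem e (orderOf c)
  rwa [(show Commute t c from (mem_Cx.1 hc).symm).mul_pow, pow_orderOf_eq_one, mul_one,
    pow_odd_of_sq d.t2 ho] at this

/-- split an element of `C(t)` -/
theorem split {c : G} (hc : c ∈ Cx(t)) : ∃ k ∈ K, c = k ∨ c = t * k := by
  rcases d.ct c (mem_Cx.1 hc) with e | e
  · exact ⟨c, e, Or.inl rfl⟩
  · exact ⟨_, e, Or.inr (d.tt c).symm⟩

theorem split_conj {c : G} (hc : c ∈ Cx(t)) : ∃ k ∈ K, (c = k ∨ c = t * k) ∧ ∀ x ∈ K, c * x * c⁻¹ = k * x * k⁻¹ := by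
  obtain ⟨k, hk, rfl | rfl⟩ := d.split hc
  · exact ⟨c, hk, Or.inl rfl, fun _ _ => rfl⟩
  · refine ⟨k, hk, Or.inr rfl, fun x hx => ?_⟩
    calc _ = t * (k * x * k⁻¹) * t⁻¹ := by group
      _ = _ := d.tconj (mul_mem (mul_mem hk hx) (inv_mem hk))

theorem odd_H {y : G} (hy : y ∈ H) : Odd (orderOf y) := odd_orderOf_of_mem (d.cH ▸ d.oh) hy
theorem odd_R {y : G} (hy : y ∈ R) : Odd (orderOf y) := odd_orderOf_of_mem (d.cR ▸ d.om) hy
theorem odd_U {y : G} (hy : y ∈ U) : Odd (orderOf y) := odd_orderOf_of_mem (d.cU ▸ odd_two_mul_add_one h) hy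

theorem UH_bot : U ⊓ H = ⊥ := by
  haveI : Fact (Nat.Prime 3) := ⟨Nat.prime_three⟩
  exact inf_eq_bot_of_isPGroup_of_coprime d.pU (coprime_iff_not_dvd.2 (d.cH ▸ d.h3))

theorem card_B : Nat.card (U ⊔ H : Subgroup G) = (2 * h + 1) * h := by
  have := CfH9.card_sup_mul_card_inf d.HU
  rwa [sup_comm, inf_comm, d.UH_bot, card_bot, mul_one, d.cH, d.cU, mul_comm] at this

theorem odd_B {y : G} (hy : y ∈ U ⊔ H) : Odd (orderOf y) :=
  odd_orderOf_of_mem (d.card_B ▸ (odd_two_mul_add_one h).mul d.oh) hy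

theorem B_le : U ⊔ H ≤ K := sup_le d.UK d.HK

theorem u_Nm_v : u ∈ Nm(zpowers v) := Cz_le_Nm _ (by rw [Cz_zpowers]; exact mem_Cx.2 d.uv)

theorem mem_V0 {x : G} : x ∈ zpowers u ⊔ zpowers v ↔ x = 1 ∨ x = v ∨ x = u ∨ x = u * v := by
  rw [mem_inv_sup d.u2 d.u_Nm_v, mem_zpowers_inv d.v2, mem_zpowers_inv d.v2, ← eq_inv_mul_iff_mul_eq,
    ← eq_inv_mul_iff_mul_eq, d.u_inv, mul_one, or_assoc]

theorem V0_le : zpowers u ⊔ zpowers v ≤ K := sup_le (zpowers_le.2 d.uK) (zpowers_le.2 d.vK)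

theorem uv2 : u * v * (u * v) = 1 := by
  rw [mul_assoc, ← mul_assoc v, ← d.uv, mul_assoc, d.v2, mul_one, d.u2]

theorem V0_sq {x : G} (hx : x ∈ zpowers u ⊔ zpowers v) : x * x = 1 := by
  rcases d.mem_V0.1 hx with rfl | rfl | rfl | rfl
  exacts [mul_one 1, d.v2, d.u2, d.uv2]

theorem card_V0 : Nat.card (zpowers u ⊔ zpowers v : Subgroup G) = 4 := by
  rw [card_inv_sup d.u2 d.u_Nm_v, Nat.card_zpowers, orderOf_inv2 d.v2 d.v1]
  rw [mem_zpowers_inv d.v2]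
  exact not_or.2 ⟨d.u1, d.vu.symm⟩

theorem sylS : SylIn 2 (zpowers t ⊔ (zpowers u ⊔ zpowers v)) ⊤ ∧
    ∀ x ∈ zpowers t ⊔ (zpowers u ⊔ zpowers v), x * x = 1 := by
  have h1 : ∀ x ∈ zpowers t ⊔ (zpowers u ⊔ zpowers v), x * x = 1 := fun x hx => by
    rcases (mem_inv_sup d.t2 (d.t_Nm d.V0_le)).1 hx with e | e
    · exact d.V0_sq e
    · have h2 := d.V0_sq e
      have h3 := d.tK _ (d.V0_le e)
      rw [d.tt] at h3
      calc x * x = t * x * t * x := by rw [← h3]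
        _ = 1 := by rw [mul_assoc, h2]
  refine ⟨sylIn_top_iff.2 ⟨isPGroup_two_of_sq h1, ?_⟩, h1⟩
  have h2 : zpowers t ⊔ (zpowers u ⊔ zpowers v) ≤ Cx(t) := d.C_eq ▸ sup_le_sup_left d.V0_le _
  have h3 := CfH9.card_mul_relIndex h2
  rw [card_inv_sup d.t2 (d.t_Nm d.V0_le) (fun e => d.tn (d.V0_le e)), d.card_V0, d.card_C] at h3
  have h4 : (zpowers t ⊔ (zpowers u ⊔ zpowers v)).relIndex Cx(t) = (2 * h + 1) * h * m := by
    refine Nat.eq_of_mul_eq_mul_left (show 0 < 2 * 4 by norm_num) ?_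
    rw [h3]; ring
  rw [← relIndex_mul_index h2, h4, ← even_iff_two_dvd, Nat.not_even_iff_odd]
  exact (((odd_two_mul_add_one h).mul d.oh).mul d.om).mul d.odd

theorem sq_two {P : Subgroup G} (hP : IsPGroup 2 P) {a : G} (ha : a ∈ P) : a * a = 1 := by
  obtain ⟨g, -, hg⟩ := d.sylS.1.exists_cj_le hP le_top
  have := d.sylS.2 _ (hg (conj_mem_cj g ha))
  rw [conj_mul] at this
  simpa using this

theorem comm_two {P : Subgroup G} (hP : IsPGroup 2 P) {a b : G} (ha : a ∈ P) (hb : b ∈ P) : a * b = b * a := by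
  have h1 := inv_eq_of_mul_eq_one_right (d.sq_two hP (mul_mem ha hb))
  rw [mul_inv_rev, inv_eq_of_mul_eq_one_right (d.sq_two hP ha), inv_eq_of_mul_eq_one_right (d.sq_two hP hb)] at h1
  exact h1.symm

theorem sq_of_pow {a : G} {k : ℕ} (e : a ^ 2 ^ k = 1) : a * a = 1 :=
  d.sq_two (isPGroup_zpowers e) (mem_zpowers a)

theorem sylIn_of {P X : Subgroup G} {s : G} (hs : s ∈ P) (hP : SylIn 2 P (X ⊓ Cx(s))) : SylIn 2 P X :=
  ⟨hP.le.trans inf_le_left, hP.pgrp, fun Q hQ hQX hPQ => hP.max Q hQ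
    (le_inf hQX fun _ ha => mem_Cx.2 (d.comm_two hQ ha (hPQ hs))) hPQ⟩

theorem cyc3 {a b n : G} (a2 : a * a = 1) (b2 : b * b = 1) (ab : a * b = b * a) (a1 : a ≠ 1) (hab : a ≠ b)
    (h1 : n * a * n⁻¹ = b) (h2 : n * b * n⁻¹ ∈ zpowers a ⊔ zpowers b) : n * b * n⁻¹ = a * b := by
  have hN : a ∈ Nm(zpowers b) := Cz_le_Nm _ (by rw [Cz_zpowers]; exact mem_Cx.2 ab)
  have b1 : b ≠ 1 := by rintro rfl; exact a1 (by simpa using h1)
  rw [mem_inv_sup a2 hN, mem_zpowers_inv b2, mem_zpowers_inv b2, ← eq_inv_mul_iff_mul_eq (b := a),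
    ← eq_inv_mul_iff_mul_eq (b := a), inv_eq_of_mul_eq_one_right a2, mul_one] at h2
  rcases h2 with (e | e) | (e | e)
  · exact absurd (by simpa using e) b1
  · exact absurd (by rw [← h1] at e ⊢; simpa using e.symm) hab
  · exfalso
    haveI : Fact (Nat.Prime 2) := ⟨Nat.prime_two⟩
    obtain ⟨j, k, hj, hk⟩ := exists_pow_pelt 2 n
    obtain ⟨l, rfl⟩ : Odd j := Nat.odd_iff.2 (by omega)
    have h3 : ∀ l : ℕ, n ^ (2 * l + 1) * a * (n ^ (2 * l + 1))⁻¹ = b ∧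
        n ^ (2 * l + 1) * b * (n ^ (2 * l + 1))⁻¹ = a := by
      intro l
      induction l with
      | zero => simpa using ⟨h1, e⟩
      | succ l ih =>
        rw [show 2 * (l + 1) + 1 = 2 + (2 * l + 1) by ring, pow_add, pow_two]
        constructor
        · calc _ = n * (n * (n ^ (2 * l + 1) * a * (n ^ (2 * l + 1))⁻¹) * n⁻¹) * n⁻¹ := by group
            _ = b := by rw [ih.1, e, h1]
        · calc _ = n * (n * (n ^ (2 * l + 1) * b * (n ^ (2 * l + 1))⁻¹) * n⁻¹) * n⁻¹ := by group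
            _ = a := by rw [ih.2, h1, e]
    have h4 : IsPGroup 2 (zpowers (n ^ (2 * l + 1)) ⊔ (zpowers a ⊔ zpowers b) : Subgroup G) := by
      refine isPGroup_sup (isPGroup_zpowers hk) (isPGroup_sup (isPGroup_zpowers (k := 1) (by simpa [pow_two] using a2))
        (isPGroup_zpowers (k := 1) (by simpa [pow_two] using b2)) (zpowers_le.2 hN)) (zpowers_le.2 ?_)
      refine mem_normalizer_of_cj_le ?_
      rw [cj_sup, cj_zpowers, cj_zpowers, (h3 l).1, (h3 l).2, sup_comm]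
    have h5 := d.comm_two h4 (mem_sup_left (mem_zpowers _)) (mem_sup_right (mem_sup_left (mem_zpowers a)))
    exact hab (by rw [← (h3 l).1, h5, mul_inv_cancel_right])
  · exact e

theorem sylV0 : SylIn 2 (zpowers u ⊔ zpowers v) K := by
  refine sylIn_of_not_dvd d.V0_le (isPGroup_two_of_sq fun _ => d.V0_sq) ?_
  have h3 := CfH9.card_mul_relIndex d.V0_le
  rw [d.card_V0, d.cK] at h3
  have h4 : (zpowers u ⊔ zpowers v).relIndex K = (2 * h + 1) * h * m := by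
    refine Nat.eq_of_mul_eq_mul_left (show 0 < 4 by norm_num) ?_
    rw [h3]; ring
  rw [h4, ← even_iff_two_dvd, Nat.not_even_iff_odd]
  exact ((odd_two_mul_add_one h).mul d.oh).mul d.om

theorem exists_conj_u {s : G} (s2 : s * s = 1) (s1 : s ≠ 1) : ∃ g, g * u * g⁻¹ = s := by
  have h1 : K.index = 2 * (Cx(t)).index := by
    rw [← relIndex_mul_index d.K_le]
    congr 1
    have h3 := CfH9.card_mul_relIndex d.K_le
    rw [d.card_C, ← d.cK, mul_comm 2] at h3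
    exact Nat.eq_of_mul_eq_mul_left Nat.card_pos h3
  obtain ⟨g, hg⟩ := CfH5.exists_conj_mem_of_mem_commutator h1 d.odd (u := s) (by rw [pow_two, s2])
    (d.perf ▸ mem_top _)
  obtain ⟨k, -, hk⟩ := d.conj _ hg (by rw [conj_mul, s2]; simp) (by simpa using s1)
  exact ⟨g⁻¹ * k, by rw [mul_assoc, mul_assoc, mul_inv_rev, ← mul_assoc u, ← mul_assoc k, ← mul_assoc k, hk]; group⟩

theorem exists_conj {s : G} (s2 : s * s = 1) (s1 : s ≠ 1) : ∃ g, g * s * g⁻¹ = t := by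
  obtain ⟨a, ha⟩ := d.exists_conj_u s2 s1
  obtain ⟨b, hb⟩ := d.exists_conj_u d.t2 d.t1
  exact ⟨b * a⁻¹, by rw [← ha, ← hb]; group⟩

theorem exists_n : ∃ n, n * t * n⁻¹ = u ∧ n * u * n⁻¹ = t * u := by
  obtain ⟨k0, hk0, e0⟩ := d.conj v d.vK d.v2 d.v1
  have hc : ∀ x ∈ zpowers u ⊔ zpowers v, x ∈ Cz(zpowers u ⊔ zpowers v) := fun x hx =>
    mem_centralizer_iff.2 fun y hy => d.comm_two d.sylV0.pgrp hy hx
  obtain ⟨n0, -, hn0, e1⟩ := burnside_fusion_elem d.sylV0 hk0 (hc u (mem_sup_left (mem_zpowers u)))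
    (hc _ (by rw [e0]; exact mem_sup_right (mem_zpowers v)))
  rw [e0] at e1
  have e2 := d.cyc3 d.u2 d.v2 d.uv d.u1 d.vu.symm e1.symm
    (conj_mem_of_mem_normalizer hn0 (mem_sup_right (mem_zpowers v)))
  obtain ⟨g, hg⟩ := d.exists_conj_u d.t2 d.t1
  have key : ∀ g' : G, g' * u * g'⁻¹ = t → (g' * n0 * g'⁻¹) * t * (g' * n0 * g'⁻¹)⁻¹ = g' * v * g'⁻¹ ∧
      (g' * n0 * g'⁻¹) * (g' * v * g'⁻¹) * (g' * n0 * g'⁻¹)⁻¹ = t * (g' * v * g'⁻¹) := fun g' e => by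
    constructor
    · rw [← e, e1]; group
    · calc _ = g' * (n0 * v * n0⁻¹) * g'⁻¹ := by group
        _ = _ := by rw [e2, ← e]; group
  have h1 : g * v * g⁻¹ ∈ Cx(t) := by rw [mem_Cx, ← hg, conj_mul, conj_mul, d.uv]
  have h2 : g * v * g⁻¹ * (g * v * g⁻¹) = 1 := by rw [conj_mul, d.v2]; simp
  obtain ⟨k, hk, e | e⟩ := d.split h1
  · obtain ⟨c, hc, e3⟩ := d.conj k hk (e ▸ h2) (e ▸ by simpa using d.v1)
    have e4 : c⁻¹ * g * u * (c⁻¹ * g)⁻¹ = t := by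
      calc _ = c⁻¹ * (g * u * g⁻¹) * c⁻¹⁻¹ := by group
        _ = t := by rw [hg, d.conj_t (d.K_le (inv_mem hc))]
    have e5 : c⁻¹ * g * v * (c⁻¹ * g)⁻¹ = u := by
      calc _ = c⁻¹ * (g * v * g⁻¹) * c := by group
        _ = u := by rw [e, ← e3]; group
    obtain ⟨f1, f2⟩ := key _ e4
    rw [e5] at f1 f2
    exact ⟨_, f1, f2⟩
  · have k2 : k * k = 1 := by
      rw [e, mul_assoc, ← mul_assoc k, ← d.tK k hk, mul_assoc, d.tt] at h2; exact h2
    have k1 : k ≠ 1 := by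
      rintro rfl
      rw [mul_one, ← hg] at e
      exact d.vu (by simpa using e)
    obtain ⟨c, hc, e3⟩ := d.conj k hk k2 k1
    have e4 : c⁻¹ * g * u * (c⁻¹ * g)⁻¹ = t := by
      calc _ = c⁻¹ * (g * u * g⁻¹) * c⁻¹⁻¹ := by group
        _ = t := by rw [hg, d.conj_t (d.K_le (inv_mem hc))]
    have e5 : c⁻¹ * g * v * (c⁻¹ * g)⁻¹ = t * u := by
      calc _ = c⁻¹ * (g * v * g⁻¹) * c := by group
        _ = (c⁻¹ * t * c⁻¹⁻¹) * u := by rw [e, ← e3]; group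
        _ = _ := by rw [d.conj_t (d.K_le (inv_mem hc))]
    obtain ⟨f1, f2⟩ := key _ e4
    rw [e5] at f1 f2
    rw [d.tt] at f2
    set n := c⁻¹ * g * n0 * (c⁻¹ * g)⁻¹
    have f3 : n * u * n⁻¹ = t := by
      calc _ = (n * t * n⁻¹) * (n * (t * u) * n⁻¹) := by rw [conj_mul, d.tt]
        _ = t := by rw [f1, f2, mul_assoc, d.u2, mul_one]
    refine ⟨n * n, ?_, ?_⟩
    · calc _ = n * (n * t * n⁻¹) * n⁻¹ := by group
        _ = u := by rw [f1, f2]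
    · calc _ = n * (n * u * n⁻¹) * n⁻¹ := by group
        _ = _ := by rw [f3, f1]

end RT

end CfH1
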