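import Cfsg.Agent.H1.Ree1
import Cfsg.Agent.L.Cnt

/-! Groups of Ree type without `S₃`: centralizers of elements of the non-split torus. -/

set_option autoImplicit false
set_option linter.unusedSectionVars false

namespace CfH1

open Cfsg Subgroup CfH9 CfH7 CfH8
open scoped Pointwise commutatorElement

variable {G : Type*} [Group G]

theorem exists_prime_pow [Finite G] {e : G} (h : e ≠ 1) : ∃ p : ℕ, p.Prime ∧ ∃ x ∈ zpowers e, orderOf x = p := by
  obtain ⟨p, hp, h1⟩ := Nat.exists_prime_and_dvd (show Nat.card (zpowers e) ≠ 1 by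
    rw [Nat.card_zpowers]; exact fun e => h (orderOf_eq_one_iff.1 e))
  haveI : Fact p.Prime := ⟨hp⟩
  exact ⟨p, hp, exists_orderOf_eq_prime h1⟩

theorem inverts_zpowers {s e x : G} (h : s * e * s⁻¹ = e⁻¹) (hx : x ∈ zpowers e) : s * x * s⁻¹ = x⁻¹ := by
  obtain ⟨k, rfl⟩ := hx
  simp only
  rw [← conj_zpow, h, inv_zpow]

theorem comm_zpowers' {s e x : G} (h : s * e = e * s) (hx : x ∈ zpowers e) : s * x = x * s := by
  obtain ⟨k, rfl⟩ := hx
  exact (show Commute s e from h).zpow_right k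

theorem eq_one_of_inv_odd {x : G} (ho : Odd (orderOf x)) (h : x⁻¹ = x) : x = 1 :=
  eq_one_of_sq_of_odd (by nth_rw 1 [← h]; simp) ho

theorem mem_of_pow_coprime [Finite G] {X : Subgroup G} {x : G} {n : ℕ} (h : x ^ n ∈ X) (hn : (orderOf x).Coprime n) :
    x ∈ X := zpowers_le.2 h (mem_zpowers_pow_iff.2 hn.symm)

theorem no_inv3 [Finite G] (h3 : ¬ Involves (DihedralGroup 3) G) {s y : G} {k : ℕ} (hs : s * s = 1)
    (hy : y ^ 3 ^ k = 1) (h : s * y * s⁻¹ = y⁻¹) : y = 1 := by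
  haveI : Fact (Nat.Prime 3) := ⟨Nat.prime_three⟩
  by_contra y1
  exact h3 (involves_dihedral_of_inverts (k := 1) (by norm_num) (by simpa [pow_two] using hs) hy y1 h)

theorem cz3 [Finite G] (h3 : ¬ Involves (DihedralGroup 3) G) {s : G} {P : Subgroup G} (hs : s * s = 1)
    (hP : IsPGroup 3 P) (h : s ∈ Nm(P)) : s ∈ Cz(P) := by
  haveI : Fact (Nat.Prime 3) := ⟨Nat.prime_three⟩
  by_contra y1
  exact h3 (involves_dihedral_of_Nm (k := 1) (by norm_num) hP (by simpa [pow_two] using hs) h y1)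

theorem ncard_mul_le [Finite G] {I : Set G} {N X : Subgroup G} (hNX : N ≤ X) (hI : ∀ b ∈ I, b ∈ X ∧ b ∉ N)
    (h : ∀ b ∈ I, ∀ b' ∈ I, b'⁻¹ * b ∈ N → b = b') : I.ncard * Nat.card N + Nat.card N ≤ Nat.card X := by
  have h1 : (I ×ˢ (N : Set G)).ncard ≤ ((X : Set G) \ N).ncard := by
    refine Set.ncard_le_ncard_of_injOn (fun p => p.1 * p.2) ?_ ?_ (Set.toFinite _)
    · rintro ⟨b, a⟩ ⟨hb, ha⟩
      exact ⟨mul_mem (hI b hb).1 (hNX ha), fun e => (hI b hb).2 (by simpa using mul_mem e (inv_mem ha))⟩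
    · rintro ⟨b, a⟩ ⟨hb, ha⟩ ⟨b', a'⟩ ⟨hb', ha'⟩ e
      simp only at e hb ha hb' ha'
      have e1 : b = b' := h b hb b' hb' (by
        rw [show b'⁻¹ * b = a' * a⁻¹ by rw [eq_mul_inv_iff_mul_eq, mul_assoc, e]; group]
        exact mul_mem ha' (inv_mem ha))
      subst e1
      rw [mul_left_cancel e]
  rw [Set.ncard_prod, Set.ncard_sdiff hNX] at h1
  have h2 := Set.ncard_le_ncard (show (N : Set G) ⊆ X from hNX)
  simp only [← Nat.card_coe_set_eq, SetLike.coe_sort_coe] at h1 h2 ⊢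
  omega

namespace RT

variable [Finite G] {t u v : G} {K U H R : Subgroup G} {h m : ℕ} (d : RT t K U H R u v h m)
include d

theorem mem_T {c : G} : c ∈ zpowers t ⊔ H ↔ c ∈ H ∨ t * c ∈ H := mem_inv_sup d.t2 (d.t_Nm d.HK)

theorem card_T : Nat.card (zpowers t ⊔ H : Subgroup G) = 2 * h := by
  rw [card_inv_sup d.t2 (d.t_Nm d.HK) (fun e => d.tn (d.HK e)), d.cH]

theorem T_comm : IsMulCommutative (zpowers t ⊔ H : Subgroup G) :=
  comm_sup (comm_zpowers t) (comm_of_isCyclic d.Hc) (zpowers_le.2 (d.t_Cz d.HK))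

theorem T_le : zpowers t ⊔ H ≤ Cx(t) := d.C_eq ▸ sup_le_sup_left d.HK _

theorem t_mem (X : Subgroup G) : t ∈ zpowers t ⊔ X := mem_sup_left (mem_zpowers t)

theorem uT {c : G} (hc : c ∈ zpowers t ⊔ H) : u * c * u⁻¹ = c⁻¹ := by
  rcases d.mem_T.1 hc with e | e
  · exact d.uH c e
  · have := d.uH _ e
    rw [← mul_assoc, ← d.tu, mul_inv_rev, d.t_inv, mem_Cx.1 (inv_mem (d.T_le hc)), mul_assoc, mul_assoc,
      mul_right_inj, ← mul_assoc] at this
    exact this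

theorem NH {y c : G} (hy : y ∈ H) (y1 : y ≠ 1) (hc : c ∈ Cx(t)) (e : c * y * c⁻¹ ∈ H) :
    c ∈ zpowers t ⊔ H ∨ c * u ∈ zpowers t ⊔ H := by
  obtain ⟨k, hk, e1, e2⟩ := d.split_conj hc
  rw [e2 y (d.HK hy)] at e
  rcases d.TH y hy y1 k hk e with f | f <;> rcases e1 with rfl | rfl
  · exact Or.inl (mem_sup_right f)
  · exact Or.inl (mul_mem (d.t_mem _) (mem_sup_right f))
  · exact Or.inr (mem_sup_right f)
  · exact Or.inr (by rw [mul_assoc]; exact mul_mem (d.t_mem _) (mem_sup_right f))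

theorem inv_of_Tu {y c : G} (hy : y ∈ zpowers t ⊔ H) (hc : c * u ∈ zpowers t ⊔ H) : c * y * c⁻¹ = y⁻¹ := by
  have h1 := comm_iff.1 d.T_comm _ hc _ (inv_mem hy)
  calc _ = c * u * (u * y * u⁻¹) * (c * u)⁻¹ := by rw [mul_inv_rev, d.u_inv]; simp [mul_assoc, ← mul_assoc u u, d.u2]
    _ = _ := by rw [d.uT hy, h1, mul_inv_cancel_right]

theorem CH {y c : G} (hy : y ∈ H) (y1 : y ≠ 1) (hc : c ∈ Cx(t)) (e : c * y = y * c) : c ∈ zpowers t ⊔ H := by
  refine (d.NH hy y1 hc (by rwa [e, mul_inv_cancel_right])).resolve_right fun f => y1 ?_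
  have := d.inv_of_Tu (mem_sup_right hy) f
  rw [e, mul_inv_cancel_right] at this
  exact eq_one_of_inv_odd (d.odd_H hy) this.symm

theorem mem_H {c : G} (hc : c ∈ zpowers t ⊔ H) (ho : Odd (orderOf c)) : c ∈ H :=
  (d.mem_T.1 hc).resolve_right fun e => d.tn (by
    simpa using mul_mem (d.HK e) (inv_mem (d.mem_K (d.T_le hc) ho)))

theorem inv_T {c : G} (hc : c ∈ zpowers t ⊔ H) (c2 : c * c = 1) (c1 : c ≠ 1) : c = t := by
  rcases d.mem_T.1 hc with e | e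
  · exact absurd (eq_one_of_sq_of_odd c2 (d.odd_H e)) c1
  · have := eq_one_of_sq_of_odd (by
      rw [mul_assoc, ← mul_assoc c, mem_Cx.1 (d.T_le hc), mul_assoc, c2, mul_one, d.t2]) (d.odd_H e)
    rw [← d.tt c, this, mul_one]

theorem CUK {x k : G} (hx : x ∈ U) (x1 : x ≠ 1) (hk : k ∈ K) (e : k * x = x * k) : k ∈ U := by
  obtain ⟨a, ha, y, hy, rfl⟩ := (mem_sup_of_le_Nm' d.HU).1
    (d.TU x hx x1 k hk (by rw [e, mul_inv_cancel_right]; exact mem_sup_left hx))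
  have h1 := comm_iff.1 d.Uc a ha x hx
  rw [mul_assoc, ← mul_assoc x, ← h1, mul_assoc, mul_right_inj] at e
  rw [(d.CU x hx y hy e).resolve_left x1, mul_one]; exact ha

theorem CUt {x c : G} (hx : x ∈ U) (x1 : x ≠ 1) (hc : c ∈ Cx(t)) (e : c * x = x * c) : c ∈ zpowers t ⊔ U := by
  obtain ⟨k, hk, e1, e2⟩ := d.split_conj hc
  have := d.CUK hx x1 hk (by rw [← mul_inv_eq_iff_eq_mul, ← e2 x (d.UK hx), e, mul_inv_cancel_right])
  rcases e1 with rfl | rfl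
  exacts [mem_sup_right this, mul_mem (d.t_mem _) (mem_sup_right this)]

theorem u_Cz_R : u ∈ Cz(R) := mem_centralizer_iff.2 fun z hz => (d.uR z hz).symm

theorem D0_le : zpowers u ⊔ R ≤ K := sup_le (zpowers_le.2 d.uK) d.RK

theorem card_D : Nat.card (zpowers t ⊔ (zpowers u ⊔ R) : Subgroup G) = 4 * m := by
  rw [card_inv_sup d.t2 (d.t_Nm d.D0_le) (fun e => d.tn (d.D0_le e)), card_inv_sup d.u2 (Cz_le_Nm _ d.u_Cz_R)
    (fun e => d.u1 (eq_one_of_sq_of_odd d.u2 (d.odd_R e))), d.cR]; ring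

theorem D_comm : IsMulCommutative (zpowers t ⊔ (zpowers u ⊔ R) : Subgroup G) :=
  comm_sup (comm_zpowers t) (comm_sup (comm_zpowers u) d.Rc (zpowers_le.2 d.u_Cz_R)) (zpowers_le.2 (d.t_Cz d.D0_le))

theorem V_le_D : zpowers t ⊔ zpowers u ≤ zpowers t ⊔ (zpowers u ⊔ R) := sup_le_sup_left le_sup_left _

theorem R_le_D : R ≤ zpowers t ⊔ (zpowers u ⊔ R) := le_sup_of_le_right le_sup_right

theorem uv_inv {z : G} (hz : z ∈ R) : u * v * z * (u * v)⁻¹ = z⁻¹ := by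
  calc _ = u * (v * z * v⁻¹) * u⁻¹ := by group
    _ = _ := by rw [d.vR z hz, d.uR _ (inv_mem hz), mul_inv_cancel_right]

theorem CRt {z c : G} (hz : z ∈ R) (z1 : z ≠ 1) (hc : c ∈ Cx(t)) (e : c * z = z * c) :
    c ∈ zpowers t ⊔ (zpowers u ⊔ R) := by
  obtain ⟨k, hk, e1, e2⟩ := d.split_conj hc
  have e3 : k * z * k⁻¹ = z := by rw [← e2 z (d.RK hz), e, mul_inv_cancel_right]
  have key : ∀ w, w * z * w⁻¹ = z⁻¹ → ∀ r ∈ R, k ≠ r * w := by
    rintro w hw r hr rfl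
    refine z1 (eq_one_of_inv_odd (d.odd_R hz) ?_)
    rw [← e3]
    calc _ = r * (w * z * w⁻¹)⁻¹ * r⁻¹ := by group
      _ = r * z * r⁻¹ := by rw [hw, inv_inv]
      _ = _ := by rw [e3, comm_iff.1 d.Rc r hr z hz, mul_inv_cancel_right]
  have : k ∈ zpowers u ⊔ R := by
    obtain ⟨r, hr, f | f | f | f⟩ := d.Cu k hk (d.CR z hz z1 k hk (mul_inv_eq_iff_eq_mul.1 e3))
    · exact f ▸ mem_sup_right hr
    · exact f ▸ mul_mem (mem_sup_right hr) (mem_sup_left (mem_zpowers u))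
    · exact absurd f (key v (d.vR z hz) r hr)
    · exact absurd (f.trans (mul_assoc _ _ _)) (key _ (d.uv_inv hz) r hr)
  rcases e1 with rfl | rfl
  exacts [mem_sup_right this, mul_mem (d.t_mem _) (mem_sup_right this)]

theorem mem_R {c : G} (hc : c ∈ Cx(t)) (e : c * u = u * c) (ho : Odd (orderOf c)) : c ∈ R := by
  have key : ∀ w, w * w = 1 → (∀ z ∈ R, w * z * w⁻¹ = z⁻¹) → ∀ r ∈ R, c = r * w → c ∈ R := by
    rintro w w2 hw r hr rfl
    rw [eq_one_of_sq_of_odd (s := r * w) ?_ ho]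
    · exact one_mem _
    · calc _ = r * (w * r * w⁻¹) * (w * w) := by group
        _ = 1 := by rw [hw r hr, w2]; simp
  obtain ⟨r, hr, f | f | f | f⟩ := d.Cu c (d.mem_K hc ho) e
  · exact f ▸ hr
  · have := pow_orderOf_eq_one c
    generalize orderOf c = n at ho this
    rw [f, (show Commute r u from (d.uR r hr).symm).mul_pow, pow_odd_of_sq d.u2 ho, mul_eq_one_iff_inv_eq] at this
    exact absurd (eq_one_of_sq_of_odd d.u2 (d.odd_R (this ▸ inv_mem (pow_mem hr n)))) d.u1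
  · exact key v d.v2 d.vR r hr f
  · exact key _ d.uv2 (fun z => d.uv_inv) r hr (f.trans (mul_assoc _ _ _))

theorem t_Nm_u : t ∈ Nm(zpowers u) := d.t_Nm (zpowers_le.2 d.uK)

theorem mem_V {x : G} : x ∈ zpowers t ⊔ zpowers u ↔ x = 1 ∨ x = u ∨ x = t ∨ x = t * u := by
  rw [mem_inv_sup d.t2 d.t_Nm_u, mem_zpowers_inv d.u2, mem_zpowers_inv d.u2, ← eq_inv_mul_iff_mul_eq,
    ← eq_inv_mul_iff_mul_eq, d.t_inv, mul_one, or_assoc]

theorem tu2 : t * u * (t * u) = 1 := by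
  rw [mul_assoc, ← mul_assoc u, ← d.tu, mul_assoc, d.u2, mul_one, d.t2]

theorem t_ne_u : t ≠ u := fun e => d.tn (e ▸ d.uK)

theorem tu1 : t * u ≠ 1 := fun e => d.t_ne_u (by rw [← d.u_inv, eq_inv_iff_mul_eq_one, e])

theorem V_sq {x : G} (hx : x ∈ zpowers t ⊔ zpowers u) : x * x = 1 := by
  rcases d.mem_V.1 hx with rfl | rfl | rfl | rfl
  exacts [mul_one 1, d.u2, d.t2, d.tu2]

theorem card_V : Nat.card (zpowers t ⊔ zpowers u : Subgroup G) = 4 := by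
  rw [card_inv_sup d.t2 d.t_Nm_u (fun e => d.tn (zpowers_le.2 d.uK e)), Nat.card_zpowers, orderOf_inv2 d.u2 d.u1]

theorem pV : IsPGroup 2 (zpowers t ⊔ zpowers u : Subgroup G) := isPGroup_two_of_sq fun _ => d.V_sq

theorem V_comm : IsMulCommutative (zpowers t ⊔ zpowers u : Subgroup G) := comm_of_le d.V_le_D d.D_comm

theorem V_nc : ¬ IsCyclic (zpowers t ⊔ zpowers u : Subgroup G) := fun hc => by
  have := mem_of_isCyclic hc (B := zpowers t) le_sup_left (mem_sup_right (mem_zpowers u))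
    (by rw [Nat.card_zpowers, orderOf_inv2 d.t2 d.t1, pow_two, d.u2])
  rcases (mem_zpowers_inv d.t2).1 this with e | e
  exacts [d.u1 e, d.t_ne_u e.symm]

theorem u_mem : u ∈ zpowers t ⊔ zpowers u := mem_sup_right (mem_zpowers u)

theorem tu_mem : t * u ∈ zpowers t ⊔ zpowers u := mul_mem (d.t_mem _) d.u_mem

theorem Nm_V {n : G} (h1 : n * t * n⁻¹ = u) (h2 : n * u * n⁻¹ = t * u) : n ∈ Nm(zpowers t ⊔ zpowers u) := by
  refine mem_normalizer_of_cj_le ?_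
  rw [cj_sup, cj_zpowers, cj_zpowers, h1, h2]
  exact sup_le (zpowers_le.2 d.u_mem) (zpowers_le.2 d.tu_mem)

theorem n_tu {n : G} (h1 : n * t * n⁻¹ = u) (h2 : n * u * n⁻¹ = t * u) : n * (t * u) * n⁻¹ = t := by
  rw [← conj_mul, h1, h2, ← mul_assoc, ← d.tu, mul_assoc, d.u2, mul_one]

theorem NV_le_NR : Nm(zpowers t ⊔ zpowers u) ≤ Nm(R) := fun g hg => by
  refine mem_normalizer_of_conj_mem fun z hz => ?_
  have h1 : g * z * g⁻¹ ∈ Cz(zpowers t ⊔ zpowers u) :=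
    conj_mem_of_mem_normalizer (mem_Nm_Cz hg) (Cz_anti d.V_le_D (le_Cz_of_comm d.D_comm (d.R_le_D hz)))
  exact d.mem_R (Cz_le_Cx (d.t_mem _) h1) (mem_Cx.1 (Cz_le_Cx d.u_mem h1)) (by rw [orderOf_conj']; exact d.odd_R hz)

theorem exists_NV {w : G} (hw : w ∈ zpowers t ⊔ zpowers u) (w1 : w ≠ 1) :
    ∃ g ∈ Nm(zpowers t ⊔ zpowers u), g * w * g⁻¹ = t := by
  obtain ⟨n, h1, h2⟩ := d.exists_n
  rcases d.mem_V.1 hw with rfl | rfl | rfl | rfl
  · exact absurd rfl w1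
  · exact ⟨n⁻¹, inv_mem (d.Nm_V h1 h2), by rw [← h1]; group⟩
  · exact ⟨1, one_mem _, by simp⟩
  · exact ⟨n, d.Nm_V h1 h2, d.n_tu h1 h2⟩

theorem V_eq {a : G} (ha : a ∈ zpowers t ⊔ zpowers u) (a1 : a ≠ 1) (e : a ≠ t) :
    zpowers t ⊔ zpowers a = zpowers t ⊔ zpowers u := by
  refine le_antisymm (sup_le le_sup_left (zpowers_le.2 ha)) (sup_le le_sup_left (zpowers_le.2 ?_))
  rcases d.mem_V.1 ha with rfl | rfl | rfl | rfl
  · exact absurd rfl a1
  · exact mem_sup_right (mem_zpowers _)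
  · exact absurd rfl e
  · nth_rw 2 [← d.tt u]; exact mul_mem (d.t_mem _) (mem_sup_right (mem_zpowers _))

theorem cyc_V {g : G} (hg : g ∈ Nm(zpowers t ⊔ zpowers u)) (e : g * t * g⁻¹ ≠ t) :
    g * (g * t * g⁻¹) * g⁻¹ = t * (g * t * g⁻¹) := by
  have h1 := conj_mem_of_mem_normalizer hg (d.t_mem _)
  refine d.cyc3 d.t2 (d.V_sq h1) (comm_iff.1 d.V_comm _ (d.t_mem _) _ h1) d.t1 e.symm rfl ?_
  rw [d.V_eq h1 (by simpa using d.t1) e]
  exact conj_mem_of_mem_normalizer hg h1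

theorem cube {g : G} (hg : g ∈ Nm(zpowers t ⊔ zpowers u)) : g ^ 3 ∈ Cx(t) := by
  by_cases e : g * t * g⁻¹ = t
  · exact pow_mem (mem_Cx'.2 e) 3
  · have h1 := conj_mem_of_mem_normalizer hg (d.t_mem _)
    rw [mem_Cx']
    calc _ = g * (g * (g * t * g⁻¹) * g⁻¹) * g⁻¹ := by rw [pow_three]; group
      _ = (g * t * g⁻¹) * (g * (g * t * g⁻¹) * g⁻¹) := by rw [conj_mul, d.cyc_V hg e]
      _ = t := by rw [d.cyc_V hg e, comm_iff.1 d.V_comm _ (d.t_mem _) _ h1, ← mul_assoc, d.V_sq h1, one_mul]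

theorem CR_V {z c w : G} (hz : z ∈ R) (z1 : z ≠ 1) (hw : w ∈ zpowers t ⊔ zpowers u) (w1 : w ≠ 1)
    (hc : c ∈ Cx(w)) (e : c * z = z * c) : c ∈ zpowers t ⊔ (zpowers u ⊔ R) := by
  obtain ⟨g, hg, e1⟩ := d.exists_NV hw w1
  have h1 := d.CRt (c := g * c * g⁻¹) (conj_mem_of_mem_normalizer (d.NV_le_NR hg) hz) (by simpa using z1)
    (by rw [← e1, ← cj_Cx]; exact conj_mem_cj g hc) (by rw [conj_mul, conj_mul, e])
  have h2 : g ∈ Nm(zpowers t ⊔ (zpowers u ⊔ R)) := by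
    rw [← sup_assoc]; exact mem_Nm_sup hg (d.NV_le_NR hg)
  simpa [mul_assoc] using conj_mem_of_mem_normalizer' h2 h1

theorem card_Cx_R (h3 : ¬ Involves (DihedralGroup 3) G) {z : G} (hz : z ∈ R) (z1 : z ≠ 1) :
    Nat.card Cx(z) ∣ 12 * m := by
  haveI : Fact (Nat.Prime 2) := ⟨Nat.prime_two⟩
  set V := zpowers t ⊔ zpowers u with hV
  set D := zpowers t ⊔ (zpowers u ⊔ R) with hD
  have hDX : D ≤ Cx(z) := le_Cx_iff.2 (le_Cz_of_comm d.D_comm (d.R_le_D hz))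
  have hDt : D ≤ Cx(t) := le_Cx_iff.2 (le_Cz_of_comm d.D_comm (d.t_mem _))
  have hXt : Cx(z) ⊓ Cx(t) = D := le_antisymm (fun c hc => d.CRt hz z1 hc.2 (mem_Cx.1 hc.1)) (le_inf hDX hDt)
  have hS : SylIn 2 V Cx(z) := by
    refine d.sylIn_of (d.t_mem _) ?_
    rw [hXt]
    refine sylIn_of_not_dvd d.V_le_D d.pV ?_
    have h1 := CfH9.card_mul_relIndex d.V_le_D
    rw [d.card_V, d.card_D, Nat.mul_right_inj four_ne_zero] at h1
    rw [h1, ← even_iff_two_dvd, Nat.not_even_iff_odd]; exact d.om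
  by_cases hN : Cx(z) ⊓ Nm(V) ≤ Cz(V)
  · have h1 := (burnside_pNil hS hN).sup_eq hS
    have h2 : pPrimeCoreOf 2 Cx(z) ≤ D := by
      refine le_of_noncyclic d.V_comm (hS.le.trans (le_normalizer_pPrimeCoreOf _)) ?_ d.V_nc fun w hw w1 c hc =>
        d.CR_V hz z1 hw w1 hc.2 (mem_Cx.1 (pPrimeCoreOf_le _ hc.1))
      rw [d.card_V]
      exact ((coprime_card_pPrimeCoreOf (p := 2) Cx(z)).pow_right 2).symm
    rw [le_antisymm (h1.ge.trans (sup_le h2 d.V_le_D)) hDX, d.card_D]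
    exact ⟨3, by ring⟩
  set N := Cx(z) ⊓ Nm(V)
  have hDN : D ≤ N := le_inf hDX ((le_Cz_of_comm d.D_comm).trans ((Cz_anti d.V_le_D).trans (Cz_le_Nm _)))
  have hNt : N ⊓ Cx(t) = D := le_antisymm (hXt ▸ inf_le_inf_right _ inf_le_left) (le_inf hDN hDt)
  obtain ⟨n, hn, hn'⟩ : ∃ n ∈ N, n * t * n⁻¹ ≠ t := by
    by_contra hc
    push Not at hc
    exact hN fun n hn => Cz_anti d.V_le_D (le_Cz_of_comm d.D_comm (hNt.le (mi hn (mem_Cx'.2 (hc n hn)))))
  have hV3 : ({t, u, t * u} : Set G).ncard = 3 := by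
    rw [Set.ncard_eq_three]
    exact ⟨_, _, _, d.t_ne_u, fun e => d.u1 (by simpa using e.symm), fun e => d.t1 (by simpa using e.symm), rfl⟩
  have hmem : ∀ b ∈ V, b ≠ 1 → b ∈ ({t, u, t * u} : Set G) := fun b hb b1 => by
    rcases d.mem_V.1 hb with e | e | e | e <;> simp [e] at b1 ⊢
  have c1 : Nat.card N = 12 * m := by
    have h1 := CfL.ncard_conj_mul N t
    have h2 : {b | ∃ g ∈ N, g * t * g⁻¹ = b} = {t, u, t * u} := by
      refine Set.eq_of_subset_of_ncard_le ?_ ?_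
      · rintro _ ⟨g, hg, rfl⟩
        exact hmem _ (conj_mem_of_mem_normalizer hg.2 (d.t_mem _)) (by simpa using d.t1)
      · rw [hV3]
        refine le_trans (le_of_eq (Set.ncard_eq_three.2 ⟨t, n * t * n⁻¹, t * (n * t * n⁻¹), hn'.symm,
          fun e => d.t1 (by simpa using e.symm), fun e => d.t1 (by simpa using e.symm), rfl⟩).symm)
          (Set.ncard_le_ncard ?_)
        rintro _ (rfl | rfl | rfl)
        · exact ⟨1, one_mem _, by simp⟩
        · exact ⟨n, hn, rfl⟩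
        · exact ⟨n * n, mul_mem hn hn, by rw [← d.cyc_V hn.2 hn']; group⟩
    rw [h2, hV3, hNt, d.card_D] at h1
    omega
  have c2 := CfL.ncard_conj_mul Cx(z) t
  rw [hXt, d.card_D] at c2
  set I := {b | ∃ g ∈ Cx(z), g * t * g⁻¹ = b}
  have hI : ∀ b ∈ I, b ∈ Cx(z) ∧ b * b = 1 ∧ b ≠ 1 := by
    rintro _ ⟨g, hg, rfl⟩
    exact ⟨mul_mem (mul_mem hg (hDX (d.t_mem _))) (inv_mem hg), by rw [conj_mul, d.t2]; simp, by simpa using d.t1⟩
  have hinv : ∀ b ∈ N, b * b = 1 → b ∈ V := fun b hb b2 =>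
    hS.le_of_le_Nm' (isPGroup_zpowers (k := 1) (by simpa [pow_two] using b2)) (zpowers_le.2 hb.1)
      (zpowers_le.2 hb.2) (mem_zpowers b)
  have c3 := ncard_mul_le (I := I \ N) (N := N) (X := Cx(z)) inf_le_left (fun b hb => ⟨(hI b hb.1).1, hb.2⟩)
    fun b hb b' hb' e => by
      obtain ⟨b0, b2, -⟩ := hI b hb.1
      by_contra hne
      have e1 : b * (b'⁻¹ * b) * b⁻¹ = (b'⁻¹ * b)⁻¹ := by
        rw [mul_inv_rev, inv_inv, inv_eq_of_mul_eq_one_right b2, inv_eq_of_mul_eq_one_right (hI b' hb'.1).2.1,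
          mul_assoc, mul_assoc, b2, mul_one]
      obtain ⟨p, hp, x, hx, ho⟩ := exists_prime_pow (show b'⁻¹ * b ≠ 1 from fun f => hne (inv_mul_eq_one.1 f).symm)
      haveI : Fact p.Prime := ⟨hp⟩
      have hxN : x ∈ N := zpowers_le.2 e hx
      have x1 := ne_one_of_orderOf_eq_prime ho
      have e2 := inverts_zpowers e1 hx
      by_cases p2 : p = 2
      · subst p2
        have x2 : x * x = 1 := by rw [← pow_two]; exact pow_eq_one_of_orderOf ho
        rw [inv_eq_of_mul_eq_one_right x2] at e2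
        exact hb.2 (hDN (d.CR_V hz z1 (hinv x hxN x2) x1 (mem_Cx'.2 e2) (mem_Cx.1 b0)))
      by_cases p3 : p = 3
      · subst p3
        exact x1 (no_inv3 h3 b2 (pow_pow_one_of_orderOf ho) e2)
      have xo : Odd (orderOf x) := ho ▸ hp.odd_of_ne_two p2
      have hxD : x ∈ D := hNt ▸ mi hxN (mem_of_pow_coprime (d.cube hxN.2)
        (ho ▸ (Nat.coprime_primes hp Nat.prime_three).2 p3))
      have hxV : V ≤ Cx(x) := le_Cx_iff.2 (Cz_anti d.V_le_D (le_Cz_of_comm d.D_comm hxD))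
      have hbN : b ∈ Nm(zpowers x) := mem_normalizer_of_cj_le (by rw [cj_zpowers, e2, zpowers_inv])
      obtain ⟨y, hy, hy'⟩ := (hS.mono (le_inf hS.le (hxV.trans (by rw [← Cz_zpowers]; exact Cz_le_Nm _)))
        inf_le_left).exists_conj_mem (mi b0 hbN) (k := 1) (by simpa [pow_two] using b2)
      have e3 := comm_zpowers' (mem_Cx.1 (hxV hy')) (conj_mem_of_mem_normalizer hy.2 (mem_zpowers x))
      rw [conj_mul, conj_mul, mul_left_inj, mul_right_inj, ← mul_inv_eq_iff_eq_mul, e2] at e3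
      exact x1 (eq_one_of_inv_odd xo e3)
  have c4 : I.ncard ≤ (I \ N).ncard + 3 := by
    rw [← hV3]
    refine le_trans (Set.ncard_le_ncard fun b hb => ?_) (Set.ncard_union_le _ _)
    by_cases e : b ∈ N
    · exact Or.inr (hmem b (hinv b e (hI b hb).2.1) (hI b hb).2.2)
    · exact Or.inl ⟨hb, e⟩
  have c5 := CfH9.card_mul_relIndex (show N ≤ Cx(z) from inf_le_left)
  have m0 : 0 < m := d.om.pos
  rw [← c5, c1] at c2 c3 ⊢
  generalize N.relIndex Cx(z) = r at c2 c3 ⊢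
  have c6 : I.ncard = 3 * r := Nat.eq_of_mul_eq_mul_right (show 0 < 4 * m by omega) (by rw [c2]; ring)
  have c7 : (I \ N).ncard + 1 ≤ r := Nat.le_of_mul_le_mul_right (c := 12 * m) (by nlinarith) (by omega)
  rw [show r = 1 by omega, mul_one]

end RT

end CfH1
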