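import Cfsg.Agent.H1.Ree2
import Cfsg.Agent.H5.BrauerPre

/-! Groups of Ree type without `S₃`: centralizers of elements of order three. -/

set_option autoImplicit false
set_option linter.unusedSectionVars false

namespace CfH1

open Cfsg Subgroup CfH9 CfH7 CfH8
open scoped Pointwise commutatorElement

variable {G : Type*} [Group G]

theorem coprime_zpowers_inv [Finite G] {s : G} (hs : s * s = 1) {n : ℕ} (hn : n.Coprime 2) :
    (Nat.card (zpowers s)).Coprime n := by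
  rw [Nat.card_zpowers]
  exact (hn.symm.coprime_dvd_left (orderOf_dvd_of_pow_eq_one (by rw [pow_two, hs])))

namespace RT

variable [Finite G] {t u v : G} {K U H R : Subgroup G} {h m : ℕ} (d : RT t K U H R u v h m)
include d

theorem pnil_of {X : Subgroup G} (ht : t ∈ X) (e : ∀ c ∈ X, c ∈ Cx(t) → c * c = 1 → c ≠ 1 → c = t) :
    SylIn 2 (zpowers t) X ∧ PNil 2 X := by
  have h1 : SylIn 2 (zpowers t) X := ⟨zpowers_le.2 ht, isPGroup_zpowers (k := 1) (by simpa [pow_two] using d.t2),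
    fun Q hQ hQX htQ c hc => by
      by_cases c1 : c = 1
      · exact c1 ▸ one_mem _
      · rw [e c (hQX hc) (mem_Cx.2 (d.comm_two hQ hc (htQ (mem_zpowers t)))) (d.sq_two hQ hc) c1]
        exact mem_zpowers t⟩
  exact ⟨h1, CfH5.pNil_two_of_isCyclic h1 inferInstance⟩

theorem relIndex_H : H.relIndex K = (2 * h + 1) * (4 * m) := by
  have h3 := CfH9.card_mul_relIndex d.HK
  rw [d.cH, d.cK] at h3
  exact Nat.eq_of_mul_eq_mul_left d.oh.pos (by rw [h3]; ring)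

theorem relIndex_R : R.relIndex K = (2 * h + 1) * h * 4 := by
  have h3 := CfH9.card_mul_relIndex d.RK
  rw [d.cR, d.cK] at h3
  exact Nat.eq_of_mul_eq_mul_left d.om.pos (by rw [h3]; ring)

theorem relIndex_U : U.relIndex K = h * (4 * m) := by
  have h3 := CfH9.card_mul_relIndex d.UK
  rw [d.cU, d.cK] at h3
  exact Nat.eq_of_mul_eq_mul_left (show 0 < 2 * h + 1 by omega) (by rw [h3]; ring)

theorem eq_three {p : ℕ} (hp : p.Prime) (e : p ∣ 2 * h + 1) : p = 3 := by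
  obtain ⟨k, hk⟩ := d.exists_pow
  exact (Nat.prime_dvd_prime_iff_eq hp Nat.prime_three).1 (hp.dvd_of_dvd_pow (hk ▸ e))

theorem ne_two_h {p : ℕ} (e : p ∣ h) : p ≠ 2 := by rintro rfl; exact (Nat.not_even_iff_odd.2 d.oh) (even_iff_two_dvd.2 e)
theorem ne_two_m {p : ℕ} (e : p ∣ m) : p ≠ 2 := by rintro rfl; exact (Nat.not_even_iff_odd.2 d.om) (even_iff_two_dvd.2 e)
theorem ne_three_h {p : ℕ} (e : p ∣ h) : p ≠ 3 := by rintro rfl; exact d.h3 e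
theorem ne_three_m {p : ℕ} (e : p ∣ m) : p ≠ 3 := by rintro rfl; exact d.m3 e

theorem not_both {p : ℕ} (hp : p.Prime) (e : p ∣ h) (e' : p ∣ m) : False :=
  hp.one_lt.ne' (Nat.eq_one_of_dvd_coprimes d.hm_cop e e')

theorem not_four {p : ℕ} (hp : p.Prime) (p2 : p ≠ 2) : ¬ p ∣ 4 := fun e =>
  p2 ((Nat.prime_dvd_prime_iff_eq hp Nat.prime_two).1 (hp.dvd_of_dvd_pow (show p ∣ 2 ^ 2 from e)))

theorem le_K {p : ℕ} [hp : Fact p.Prime] (p2 : p ≠ 2) {P : Subgroup G} (hP : IsPGroup p P) (e : P ≤ Cx(t)) :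
    P ≤ K := fun c hc => by
  obtain ⟨k, hk⟩ := isPGroup_iff_mem.1 hP c hc
  exact d.mem_K (e hc) (Odd.of_dvd_nat (hp.out.odd_of_ne_two p2).pow (orderOf_dvd_of_pow_eq_one hk))

theorem typ_H0 {p : ℕ} [hp : Fact p.Prime] (e : p ∣ h) {P : Subgroup G} (hP : IsPGroup p P) (hc : P ≤ Cx(t)) :
    ∃ k ∈ K, cj k P ≤ H := by
  refine exists_cj_le_of_hall d.HK ?_ hP (d.le_K (d.ne_two_h e) hP hc)
  rw [d.relIndex_H, hp.out.dvd_mul, hp.out.dvd_mul]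
  rintro (f | f | f)
  exacts [d.ne_three_h e (d.eq_three hp.out f), d.not_four hp.out (d.ne_two_h e) f, d.not_both hp.out e f]

theorem typ_R0 {p : ℕ} [hp : Fact p.Prime] (e : p ∣ m) {P : Subgroup G} (hP : IsPGroup p P) (hc : P ≤ Cx(t)) :
    ∃ k ∈ K, cj k P ≤ R := by
  refine exists_cj_le_of_hall d.RK ?_ hP (d.le_K (d.ne_two_m e) hP hc)
  rw [d.relIndex_R, hp.out.dvd_mul, hp.out.dvd_mul]
  rintro ((f | f) | f)
  exacts [d.ne_three_m e (d.eq_three hp.out f), d.not_both hp.out f e, d.not_four hp.out (d.ne_two_m e) f]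

theorem not_three_relIndex : ¬ 3 ∣ U.relIndex K := by
  rw [d.relIndex_U, Nat.prime_three.dvd_mul, Nat.prime_three.dvd_mul]
  rintro (f | f | f)
  exacts [d.h3 f, by omega, d.m3 f]

theorem typ_U0 {P : Subgroup G} (hP : IsPGroup 3 P) (hc : P ≤ Cx(t)) : ∃ k ∈ K, cj k P ≤ U :=
  haveI : Fact (Nat.Prime 3) := ⟨Nat.prime_three⟩
  exists_cj_le_of_hall d.UK d.not_three_relIndex hP (d.le_K (by norm_num) hP hc)

theorem typ {p : ℕ} {X : Subgroup G} (hX : ∀ P : Subgroup G, IsPGroup p P → P ≤ Cx(t) → ∃ k ∈ K, cj k P ≤ X)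
    {s : G} (s2 : s * s = 1) (s1 : s ≠ 1) {P : Subgroup G} (hP : IsPGroup p P) (hc : P ≤ Cx(s)) :
    ∃ g, g * s * g⁻¹ = t ∧ cj g P ≤ X := by
  obtain ⟨g, hg⟩ := d.exists_conj s2 s1
  obtain ⟨k, hk, e⟩ := hX _ (isPGroup_cj hP g) (by rw [← hg, ← cj_Cx]; exact cj_mono g hc)
  refine ⟨k * g, ?_, by rwa [cj_mul]⟩
  calc _ = k * (g * s * g⁻¹) * k⁻¹ := by group
    _ = t := by rw [hg, d.conj_t (d.K_le hk)]

theorem prime_cases {p : ℕ} (hp : p.Prime) {s c : G} (s2 : s * s = 1) (s1 : s ≠ 1) (hc : c ∈ Cx(s))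
    (ho : orderOf c = p) : p = 2 ∨ p = 3 ∨ p ∣ h ∨ p ∣ m := by
  obtain ⟨g, hg⟩ := d.exists_conj s2 s1
  have h1 := (Cx(s)).orderOf_dvd_natCard hc
  rw [← card_cj g, cj_Cx, hg, d.card_C, ho, hp.dvd_mul, hp.dvd_mul, hp.dvd_mul, hp.dvd_mul] at h1
  by_cases p2 : p = 2
  · exact Or.inl p2
  rcases h1 with f | (f | f) | f | f
  · exact Or.inl ((Nat.prime_dvd_prime_iff_eq hp Nat.prime_two).1 f)
  · exact Or.inr (Or.inl (d.eq_three hp f))
  · exact Or.inr (Or.inr (Or.inl f))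
  · exact absurd f (d.not_four hp p2)
  · exact Or.inr (Or.inr (Or.inr f))

theorem card_Cx_m (h3 : ¬ Involves (DihedralGroup 3) G) {p : ℕ} [hp : Fact p.Prime] (e : p ∣ m) {s c : G}
    (s2 : s * s = 1) (s1 : s ≠ 1) (hc : c ∈ Cx(s)) (ho : orderOf c = p) : Nat.card Cx(c) ∣ 12 * m := by
  obtain ⟨g, -, hg⟩ := d.typ (fun P => d.typ_R0 e) s2 s1 (isPGroup_zpowers_of_orderOf_prime ho) (zpowers_le.2 hc)
  rw [← card_cj g, cj_Cx]
  exact d.card_Cx_R h3 (hg (conj_mem_cj g (mem_zpowers c))) (by simpa using ne_one_of_orderOf_eq_prime ho)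

theorem t_mem_Cx {x : G} (hx : x ∈ K) : t ∈ Cx(x) := mem_Cx.2 (d.tK x hx)

theorem pnil_U {x : G} (hx : x ∈ U) (x1 : x ≠ 1) {X : Subgroup G} (ht : t ∈ X) (hX : X ≤ Cx(x)) :
    SylIn 2 (zpowers t) X ∧ PNil 2 X := by
  refine d.pnil_of ht fun c hc hc' c2 c1 => ?_
  rcases (mem_inv_sup d.t2 (d.t_Nm d.UK)).1 (d.CUt hx x1 hc' (mem_Cx.1 (hX hc))) with e | e
  · exact absurd (eq_one_of_sq_of_odd c2 (d.odd_U e)) c1
  · have := eq_one_of_sq_of_odd (by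
      rw [mul_assoc, ← mul_assoc c, mem_Cx.1 hc', mul_assoc, c2, mul_one, d.t2]) (d.odd_U e)
    rw [← d.tt c, this, mul_one]

theorem mem_U {x c : G} (hx : x ∈ U) (x1 : x ≠ 1) (hc : c ∈ Cx(t)) (e : c ∈ Cx(x)) (ho : Odd (orderOf c)) :
    c ∈ U := d.CUK hx x1 (d.mem_K hc ho) (mem_Cx.1 e)

theorem U_le_Cx {x : G} (hx : x ∈ U) : U ≤ Cx(x) := le_Cx_iff.2 (le_Cz_of_comm d.Uc hx)

theorem U_le_O {x : G} (hx : x ∈ U) (x1 : x ≠ 1) : U ≤ pPrimeCoreOf 2 Cx(x) := fun a ha =>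
  (d.pnil_U hx x1 (d.t_mem_Cx (d.UK hx)) le_rfl).2.mem_pPrimeCoreOf (d.U_le_Cx hx ha)
    (Nat.coprime_two_right.2 (d.odd_U ha))

theorem O_inf {x : G} (hx : x ∈ U) (x1 : x ≠ 1) : pPrimeCoreOf 2 Cx(x) ⊓ Cx(t) ≤ U := fun _ hc =>
  d.mem_U hx x1 hc.2 (pPrimeCoreOf_le _ hc.1) (odd_orderOf_of_coprime (coprime_card_pPrimeCoreOf _) hc.1)

theorem sylU_O (h3 : ¬ Involves (DihedralGroup 3) G) {x : G} (hx : x ∈ U) (x1 : x ≠ 1) :
    SylIn 3 U (pPrimeCoreOf 2 Cx(x)) ∧ PNil 3 (pPrimeCoreOf 2 Cx(x)) := by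
  haveI : Fact (Nat.Prime 3) := ⟨Nat.prime_three⟩
  set O := pPrimeCoreOf 2 Cx(x)
  have htO : t ∈ Nm(O) := le_normalizer_pPrimeCoreOf _ (d.t_mem_Cx (d.UK hx))
  have hc : (Nat.card O).Coprime 2 := coprime_card_pPrimeCoreOf _
  obtain ⟨P, hP, htP, hUP⟩ := exists_invariant_sylIn_ge (zpowers_le.2 htO) (coprime_zpowers_inv d.t2 hc)
    (Or.inl (isSolvable_of_comm (comm_zpowers t))) d.pU (d.U_le_O hx x1) (zpowers_le.2 (d.t_Nm d.UK))
  have h1 : P ≤ U := (le_inf hP.le (le_Cx_iff.2 (cz3 h3 d.t2 hP.pgrp (htP (mem_zpowers t))))).trans (d.O_inf hx x1)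
  rw [le_antisymm h1 hUP] at hP
  refine ⟨hP, burnside_pNil hP ?_⟩
  have h2 := commutator_sup_centralizer_eq (A := zpowers t) (N := O ⊓ Nm(U))
    (zpowers_le.2 (CfH9.mem_Nm_inf htO (mem_Nm_Nm (d.t_Nm d.UK))))
    (coprime_zpowers_inv d.t2 (hc.coprime_dvd_left (card_dvd_of_le inf_le_left)))
    (Or.inl (isSolvable_of_comm (comm_zpowers t)))
  rw [← h2]
  refine sup_le ((commutator_mono (inf_le_right.trans (Nm_le_Nm_Cz U)) (zpowers_le.2 (d.t_Cz d.UK))).trans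
    (commutator_le_right_of_le_normalizer le_rfl)) ?_
  rw [Cz_zpowers]
  exact (inf_le_inf_right _ inf_le_left).trans ((d.O_inf hx x1).trans (le_Cz_of_comm d.Uc))

theorem inv_W {x : G} (hx : x ∈ U) (x1 : x ≠ 1) {a : G} (ha : a ∈ pPrimeCoreOf 3 (pPrimeCoreOf 2 Cx(x))) :
    t * a * t⁻¹ = a⁻¹ := by
  haveI : Fact (Nat.Prime 3) := ⟨Nat.prime_three⟩
  refine inverts_of_fpf d.t2 (normalizer_le_normalizer_pPrimeCoreOf _
    (le_normalizer_pPrimeCoreOf _ (d.t_mem_Cx (d.UK hx)))) (eq_bot_iff.2 ?_) ha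
  rw [← inf_eq_bot_of_isPGroup_of_coprime d.pU (coprime_card_pPrimeCoreOf (pPrimeCoreOf 2 Cx(x)))]
  exact le_inf ((inf_le_inf_right _ (pPrimeCoreOf_le _)).trans (d.O_inf hx x1)) inf_le_left

theorem mem_W (h3 : ¬ Involves (DihedralGroup 3) G) {x : G} (hx : x ∈ U) (x1 : x ≠ 1) {a : G} (ha : a ∈ Cx(x))
    (o2 : (orderOf a).Coprime 2) (o3 : (orderOf a).Coprime 3) : a ∈ pPrimeCoreOf 3 (pPrimeCoreOf 2 Cx(x)) :=
  haveI : Fact (Nat.Prime 3) := ⟨Nat.prime_three⟩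
  (d.sylU_O h3 hx x1).2.mem_pPrimeCoreOf
    ((d.pnil_U hx x1 (d.t_mem_Cx (d.UK hx)) le_rfl).2.mem_pPrimeCoreOf ha o2) o3

theorem inv_of_three (h3 : ¬ Involves (DihedralGroup 3) G) {n s a : G} (n3 : n ^ 3 = 1) (n1 : n ≠ 1) (s2 : s * s = 1)
    (s1 : s ≠ 1) (hs : n ∈ Cx(s)) (ha : a ∈ Cx(n)) (o2 : (orderOf a).Coprime 2) (o3 : (orderOf a).Coprime 3) :
    s * a * s⁻¹ = a⁻¹ := by
  obtain ⟨g, e, hg⟩ := d.typ (fun P => d.typ_U0) s2 s1 (isPGroup_zpowers (k := 1) (by simpa using n3))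
    (zpowers_le.2 hs)
  have h1 := hg (conj_mem_cj g (mem_zpowers n))
  have h2 : g * n * g⁻¹ ≠ 1 := by simpa using n1
  have := d.inv_W h1 h2 (d.mem_W h3 h1 h2 (a := g * a * g⁻¹) (by rw [← cj_Cx]; exact conj_mem_cj g ha)
    (by rwa [orderOf_conj']) (by rwa [orderOf_conj']))
  rw [← e, conj_inv, conj_inv, conj_mul, conj_mul] at this
  simpa using this

theorem U_ne : ∃ x ∈ U, x ≠ 1 := exists_ne_one_of_ne_bot fun e => by
  have := d.cU; have := d.big; simp [e] at *; omega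

theorem sylU (h3 : ¬ Involves (DihedralGroup 3) G) : SylIn 3 U ⊤ := by
  haveI : Fact (Nat.Prime 3) := ⟨Nat.prime_three⟩
  obtain ⟨x, hx, x1⟩ := d.U_ne
  have h1 : SylIn 3 U Cx(x) := by
    refine (d.sylU_O h3 hx x1).1.trans (pPrimeCoreOf_le _) fun e => ?_
    obtain ⟨h1, h2⟩ := d.pnil_U hx x1 (d.t_mem_Cx (d.UK hx)) le_rfl
    have h4 := CfH9.card_mul_relIndex (pPrimeCoreOf_le (p := 2) Cx(x))
    have h5 := CfH9.card_sup_mul_card_inf (h1.le.trans (le_normalizer_pPrimeCoreOf (p := 2) _))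
    rw [sup_comm, h2.sup_eq h1, ← h4, Nat.card_zpowers, orderOf_inv2 d.t2 d.t1, mul_assoc, mul_comm 2,
      Nat.mul_right_inj Nat.card_pos.ne'] at h5
    have := (Dvd.dvd.mul_right e _).trans h5.dvd
    omega
  refine sylIn_of_sylIn_Nm le_top ⟨le_inf le_top le_normalizer, d.pU, fun Q hQ hQN hUQ => ?_⟩
  have h2 := (d.pnil_U hx x1 (d.t_Cz d.UK) (Cz_le_Cx hx)).1
  have h4 : Nm(U) ≤ Cz(U) ⊔ (Nm(U) ⊓ Cx(t)) := fun g hg => by
    obtain ⟨c, hc, y, hy, rfl⟩ := h2.frattini (mem_Nm_Cz hg)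
    refine mul_mem (mem_sup_left hc) (mem_sup_right (mi ((mul_mem_cancel_left (Cz_le_Nm _ hc)).1 hg) (mem_Cx'.2 ?_)))
    refine ((mem_zpowers_inv d.t2).1 (conj_mem_of_mem_normalizer hy (mem_zpowers t))).resolve_left ?_
    simpa using d.t1
  have h5 : SylIn 3 U (Nm(U) ⊓ Cx(t)) := by
    refine ⟨le_inf le_normalizer (d.UK.trans d.K_le), d.pU, fun P hP hPN hUP => ?_⟩
    exact (sylIn_of_not_dvd d.UK d.pU d.not_three_relIndex).max P hP
      (d.le_K (by norm_num) hP (hPN.trans inf_le_right)) hUP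
  have h6 : SylIn 3 U Cz(U) := h1.mono (le_Cz_of_comm d.Uc) (Cz_le_Cx hx)
  have h7 : SylIn 3 U Nm(U) := by
    refine h6.trans (Cz_le_Nm _) fun e => h5.not_dvd_relIndex ?_
    have h8 := CfH5.relIndex_sup_of_le_normalizer (P := Nm(U) ⊓ Cx(t)) (C := Cz(U))
      (inf_le_left.trans (Nm_le_Nm_Cz U))
    rw [← le_antisymm h4 (sup_le (Cz_le_Nm _) inf_le_left)] at h8
    exact (h8 ▸ e).trans (relIndex_dvd_of_le_left _ (le_Cz_of_comm d.Uc))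
  exact h7.max Q hQ (hQN.trans inf_le_right) hUQ

end RT

end CfH1
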