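import Cfsg.Agent.H1.Ree3
import Cfsg.Agent.H1.PGrp
import Cfsg.Agent.H3.SmallGroups

/-! Groups of Ree type without `S₃`: centralizers of elements of the split torus. -/

set_option autoImplicit false
set_option linter.unusedSectionVars false

namespace CfH1

open Cfsg Subgroup CfH9 CfH7 CfH8
open scoped Pointwise commutatorElement

variable {G : Type*} [Group G]

theorem exists_transv_pow [Finite G] {p : ℕ} [hp : Fact p.Prime] {y w g : G} {k : ℕ} (hy : orderOf y = p)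
    (hw : w ^ p = 1) (yw : y * w = w * y) (hn : w ∉ zpowers y) (hg : g ^ p ^ k = 1)
    (gN : g ∈ Nm(zpowers y ⊔ zpowers w)) (gy : g * y = y * g) (gw : g * w ≠ w * g) {c : G} (hc : c ∈ zpowers y) :
    ∃ a, a * y * a⁻¹ = y ∧ a * w * a⁻¹ = c * w := by
  have h1 : w ∈ Cz(zpowers y) := by rw [Cz_zpowers]; exact mem_Cx.2 yw.symm
  have h2 : g ∈ Cz(zpowers y) := by rw [Cz_zpowers]; exact mem_Cx.2 gy
  have h3 := mem_secCz_of_coprime (sup_le le_normalizer (zpowers_le.2 (Cz_le_Nm _ h1)))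
    (relIndex_sup_zpowers (Cz_le_Nm _ h1) hn (hw ▸ one_mem _)) gN (Cz_le_Nm _ h2)
    (((Nat.coprime_self_sub_right hp.out.one_le).2 (Nat.coprime_one_right p)).pow_left k |>.coprime_dvd_left
      (orderOf_dvd_of_pow_eq_one hg))
  have h4 := inv_mem (h3.2 w (mem_sup_right (mem_zpowers w)))
  rw [commutatorElement_inv, commutatorElement_def] at h4
  have h5 : g * w * g⁻¹ * w⁻¹ ≠ 1 := fun e => gw (by rwa [mul_inv_eq_one, mul_inv_eq_iff_eq_mul] at e)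
  rw [← zpowers_eq_of_card_prime (by rw [Nat.card_zpowers, hy]) h4 h5] at hc
  obtain ⟨n, rfl⟩ := mem_powers_iff_mem_zpowers.2 hc
  refine ⟨g ^ n, by rw [((show Commute g y from gy).pow_left n).eq, mul_inv_cancel_right], ?_⟩
  simp only
  generalize he : g * w * g⁻¹ * w⁻¹ = e at h4
  have h6 : g * e * g⁻¹ = e := conj_eq_of_mem_centralizer h2 h4
  have h7 : g * w * g⁻¹ = e * w := by rw [← he]; group
  clear hc
  induction n with
  | zero => simp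
  | succ n ih =>
    calc _ = g * (g ^ n * w * (g ^ n)⁻¹) * g⁻¹ := by rw [pow_succ']; group
      _ = _ := by rw [ih, ← conj_mul, ← conj_pow, h6, h7, pow_succ, mul_assoc]

namespace RT

variable [Finite G] {t u v : G} {K U H R : Subgroup G} {h m : ℕ} (d : RT t K U H R u v h m)
include d

theorem no_sl2 {y w a b : G} (yo : Odd (orderOf y)) (y1 : y ≠ 1) (yw : y * w = w * y) (ay : a * y * a⁻¹ = y)
    (aw : a * w * a⁻¹ = y * w) (bw : b * w * b⁻¹ = w) (hb : b * y * b⁻¹ = w⁻¹ * y) : False := by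
  haveI : Fact (Nat.Prime 2) := ⟨Nat.prime_two⟩
  have h1 : a * b * a * y * (a * b * a)⁻¹ = w⁻¹ := by
    calc _ = a * (b * (a * y * a⁻¹) * b⁻¹) * a⁻¹ := by group
      _ = (a * w * a⁻¹)⁻¹ * (a * y * a⁻¹) := by nth_rw 1 [ay, hb]; group
      _ = _ := by rw [aw, ay]; group
  have h2 : a * b * a * w * (a * b * a)⁻¹ = y := by
    calc _ = a * (b * (a * w * a⁻¹) * b⁻¹) * a⁻¹ := by group
      _ = a * ((b * y * b⁻¹) * (b * w * b⁻¹)) * a⁻¹ := by rw [aw, conj_mul]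
      _ = _ := by rw [hb, bw, mul_assoc w⁻¹, yw, inv_mul_cancel_left, ay]
  generalize a * b * a = n at h1 h2
  have h3 : n * n * y * (n * n)⁻¹ = y⁻¹ := by
    calc _ = n * (n * y * n⁻¹) * n⁻¹ := by group
      _ = _ := by rw [h1, ← conj_inv, h2]
  obtain ⟨j, k, hj, hk⟩ := exists_pow_pelt 2 n
  have h4 := odd_pow_inverts h3 hj
  rw [(Commute.refl n).mul_pow, d.sq_of_pow hk] at h4
  exact y1 (eq_one_of_inv_odd yo (by simpa using h4.symm))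

theorem pnil_H {y : G} (hy : y ∈ H) (y1 : y ≠ 1) : SylIn 2 (zpowers t) Cx(y) ∧ PNil 2 Cx(y) :=
  d.pnil_of (d.t_mem_Cx (d.HK hy)) fun _ hc hc' c2 c1 => d.inv_T (d.CH hy y1 hc' (mem_Cx.1 hc)) c2 c1

theorem mem_O {y : G} (hy : y ∈ H) (y1 : y ≠ 1) {c : G} (hc : c ∈ Cx(y)) (ho : Odd (orderOf c)) :
    c ∈ pPrimeCoreOf 2 Cx(y) := (d.pnil_H hy y1).2.mem_pPrimeCoreOf hc (Nat.coprime_two_right.2 ho)

theorem OH_inf {y : G} (hy : y ∈ H) (y1 : y ≠ 1) : pPrimeCoreOf 2 Cx(y) ⊓ Cx(t) ≤ H := fun _ hc =>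
  d.mem_H (d.CH hy y1 hc.2 (mem_Cx.1 (pPrimeCoreOf_le _ hc.1)))
    (odd_orderOf_of_coprime (coprime_card_pPrimeCoreOf _) hc.1)

theorem V_Nm_Cx {y : G} (hy : y ∈ H) : zpowers t ⊔ zpowers u ≤ Nm(Cx(y)) := by
  rw [← Cz_zpowers]
  refine le_trans (sup_le (zpowers_le.2 (d.t_Nm (zpowers_le.2 (d.HK hy)))) (zpowers_le.2 ?_)) (Nm_le_Nm_Cz _)
  exact mem_normalizer_of_cj_le (by rw [cj_zpowers, d.uH y hy, zpowers_inv])

theorem V_Nm_O {y : G} (hy : y ∈ H) : zpowers t ⊔ zpowers u ≤ Nm(pPrimeCoreOf 2 Cx(y)) :=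
  (d.V_Nm_Cx hy).trans (normalizer_le_normalizer_pPrimeCoreOf _)

theorem V_Nm_Cx' {a : G} (ha : a ∈ zpowers t ⊔ zpowers u) : zpowers t ⊔ zpowers u ≤ Nm(Cx(a)) :=
  (le_Cx_iff.2 (le_Cz_of_comm d.V_comm ha)).trans le_normalizer

theorem comm_u {a b c : G} (ha : a ∈ zpowers t ⊔ zpowers u) (hb : b ∈ zpowers t ⊔ zpowers u) (a1 : a ≠ 1)
    (b1 : b ≠ 1) (ab : a ≠ b) (ca : c ∈ Cx(a)) (cb : c ∈ Cx(b)) : c ∈ Cx(t) ∧ c ∈ Cx(u) := by
  have h1 : ∀ x y : G, c ∈ Cx(x) → c ∈ Cx(y) → c ∈ Cx(x * y) := fun x y hx hy =>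
    mem_Cx.2 ((show Commute c x from mem_Cx.1 hx).mul_right (mem_Cx.1 hy))
  have h2 : t * u * u = t := by rw [mul_assoc, d.u2, mul_one]
  rcases d.mem_V.1 ha with rfl | rfl | rfl | rfl <;> rcases d.mem_V.1 hb with e | e | e | e <;>
    simp only [e, ne_eq, not_true_eq_false] at a1 b1 ab cb
  · exact ⟨cb, ca⟩
  · exact ⟨h2 ▸ h1 _ _ cb ca, ca⟩
  · exact ⟨ca, cb⟩
  · exact ⟨ca, d.tt u ▸ h1 _ _ ca cb⟩
  · exact ⟨h2 ▸ h1 _ _ ca cb, cb⟩
  · exact ⟨cb, d.tt u ▸ h1 _ _ cb ca⟩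

theorem inv_O {y : G} (hy : y ∈ H) (y1 : y ≠ 1) {a b c : G} (ha : a ∈ zpowers t ⊔ zpowers u)
    (hb : b ∈ zpowers t ⊔ zpowers u) (a1 : a ≠ 1) (b1 : b ≠ 1) (ab : a ≠ b)
    (hc : c ∈ pPrimeCoreOf 2 Cx(y) ⊓ Cx(a)) : b * c * b⁻¹ = c⁻¹ := by
  refine inverts_of_fpf (d.V_sq hb) (CfH9.mem_Nm_inf (d.V_Nm_O hy hb) (d.V_Nm_Cx' ha hb))
    (eq_bot_iff.2 fun e he => ?_) hc
  obtain ⟨h1, h2⟩ := d.comm_u ha hb a1 b1 ab he.1.2 he.2
  have h3 := d.OH_inf hy y1 (mi he.1.1 h1)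
  have h4 := d.uH e h3
  rw [← mem_Cx.1 h2, mul_inv_cancel_right] at h4
  exact eq_one_of_inv_odd (d.odd_H h3) h4.symm

theorem uniq {p : ℕ} [hp : Fact p.Prime] (e : p ∣ h) {y : G} (hy : y ∈ H) (y1 : y ≠ 1) {a c c' : G}
    (ha : a ∈ zpowers t ⊔ zpowers u) (a1 : a ≠ 1) (hc : c ∈ Cx(y)) (ca : c ∈ Cx(a)) (ho : orderOf c = p)
    (hc' : c' ∈ Cx(y)) (ca' : c' ∈ Cx(a)) (ho' : c' ^ p = 1) : c' ∈ zpowers c := by
  have po : Odd p := hp.out.odd_of_ne_two (d.ne_two_h e)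
  obtain ⟨b, hb, b1, ab⟩ : ∃ b ∈ zpowers t ⊔ zpowers u, b ≠ 1 ∧ a ≠ b := by
    by_cases f : a = t
    exacts [⟨u, d.u_mem, d.u1, f ▸ d.t_ne_u⟩, ⟨t, d.t_mem _, d.t1, f⟩]
  have h1 := comm_iff.1 (comm_of_inverts fun c hc => d.inv_O hy y1 ha hb a1 b1 ab hc) _
    (mi (d.mem_O hy y1 hc (ho ▸ po)) ca) _
    (mi (d.mem_O hy y1 hc' (Odd.of_dvd_nat po (orderOf_dvd_of_pow_eq_one ho'))) ca')
  obtain ⟨g, -, hg⟩ := d.typ (fun P => d.typ_H0 e) (d.V_sq ha) a1 (P := zpowers c ⊔ zpowers c')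
    (isPGroup_sup (isPGroup_zpowers_of_orderOf_prime ho) (isPGroup_zpowers (k := 1) (by simpa using ho'))
      (zpowers_le.2 (Cz_le_Nm _ (by rw [Cz_zpowers]; exact mem_Cx.2 h1)))) (sup_le (zpowers_le.2 ca) (zpowers_le.2 ca'))
  refine conj_mem_cj_iff.1 (mem_of_isCyclic d.Hc ((cj_mono g le_sup_left).trans hg)
    (hg (conj_mem_cj g (mem_sup_right (mem_zpowers c')))) ?_)
  rw [card_cj, Nat.card_zpowers, ho, conj_pow, ho']; simp

theorem cop_V {X : Subgroup G} (hX : (Nat.card X).Coprime 2) :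
    (Nat.card (zpowers t ⊔ zpowers u : Subgroup G)).Coprime (Nat.card X) := by
  rw [d.card_V]; exact (hX.pow_right 2).symm

theorem transv {p : ℕ} [hp : Fact p.Prime] (e : p ∣ h) {y : G} (hy : y ∈ H) (yo : orderOf y = p) {a b c c' : G}
    (ha : a ∈ zpowers t ⊔ zpowers u) (hb : b ∈ zpowers t ⊔ zpowers u) (a1 : a ≠ 1) (b1 : b ≠ 1) (ta : a ≠ t)
    (hab : ∀ x ∈ zpowers t ⊔ zpowers u, x ≠ 1 → x = t ∨ x = a ∨ x = b)
    (hc : c ∈ Cx(y)) (ca : c ∈ Cx(a)) (ho : orderOf c = p) (hc' : c' ∈ Cx(y)) (cb : c' ∈ Cx(b))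
    (ho' : orderOf c' = p) (cc : c' * c ≠ c * c') :
    ∃ (g : G) (k : ℕ), g ^ p ^ k = 1 ∧ g ∈ Nm(zpowers y ⊔ zpowers c) ∧ g * y = y * g ∧ g * c ≠ c * g := by
  have po : Odd p := hp.out.odd_of_ne_two (d.ne_two_h e)
  have y1 := ne_one_of_orderOf_eq_prime yo
  set O := pPrimeCoreOf 2 Cx(y)
  have hO : (Nat.card O).Coprime 2 := coprime_card_pPrimeCoreOf _
  have cO : c ∈ O := d.mem_O hy y1 hc (ho ▸ po)
  have hVc : zpowers t ⊔ zpowers u ≤ Nm(zpowers c) := fun x hx => by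
    refine mem_normalizer_of_cj_le ?_
    rw [cj_zpowers, zpowers_le]
    by_cases f : x = 1 ∨ a = x
    · rcases f with rfl | rfl
      · simp
      · rw [← mem_Cx.1 ca, mul_inv_cancel_right]; exact mem_zpowers c
    · push Not at f
      rw [d.inv_O hy y1 ha hx a1 f.1 f.2 (mi cO ca)]; exact inv_mem (mem_zpowers c)
  obtain ⟨P, hP, hVP, hcP⟩ := exists_invariant_sylIn_ge (d.V_Nm_O hy) (d.cop_V hO)
    (Or.inl (isSolvable_of_comm d.V_comm)) (isPGroup_zpowers_of_orderOf_prime ho) (zpowers_le.2 cO) hVc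
  have hPy : P ≤ Cx(y) := hP.le.trans (pPrimeCoreOf_le _)
  have yP : y ∈ P := hP.le_of_le_Nm (isPGroup_zpowers_of_orderOf_prime yo)
    (zpowers_le.2 (d.mem_O hy y1 (mem_Cx.2 rfl) (yo ▸ po))) (hPy.trans (by rw [← Cz_zpowers]; exact Cz_le_Nm _))
    (mem_zpowers y)
  have key : ∀ X : Subgroup G, X ≤ P → X ⊓ Cx(b) ≠ ⊥ → c' ∈ X := fun X hX hne => by
    obtain ⟨x, hx, xo⟩ := exists_orderOf_prime_of_ne_bot (hP.pgrp.to_le (inf_le_left.trans hX)) hne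
    exact zpowers_le.2 hx.1 (d.uniq e hy y1 hb b1 (hPy (hX hx.1)) hx.2 xo hc' cb (pow_eq_one_of_orderOf ho'))
  have c'P : c' ∈ P := by
    refine key P le_rfl ?_
    have h1 := sylIn_inf_centralizer (zpowers_le.2 (d.V_Nm_O hy hb)) (coprime_zpowers_inv (d.V_sq hb) hO)
      (Or.inl (isSolvable_of_comm (comm_zpowers b))) hP (zpowers_le.2 (hVP hb))
    rw [Cz_zpowers] at h1
    exact h1.ne_bot_iff.2 (ho' ▸ Subgroup.orderOf_dvd_natCard _ (mi (d.mem_O hy y1 hc' (ho' ▸ po)) cb))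
  have hVQ : zpowers t ⊔ zpowers u ≤ Nm(P ⊓ Cx(c)) := fun x hx =>
    CfH9.mem_Nm_inf (hVP hx) (by rw [← Cz_zpowers]; exact mem_Nm_Cz (hVc hx))
  have hQb : P ⊓ Cx(c) ⊓ Cx(b) = ⊥ := by
    by_contra f
    exact cc (mem_Cx.1 (key _ inf_le_left f).2)
  have hQc := comm_of_inverts fun x hx => inverts_of_fpf (d.V_sq hb) (hVQ hb) hQb hx
  have hE : omegaOne p (P ⊓ Cx(c)) ≤ zpowers y ⊔ zpowers c := by
    refine le_of_noncyclic d.V_comm (hVQ.trans (CfH7.Nm_le_Nm_omegaOne _)) (d.cop_V (hO.coprime_dvd_left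
      (card_dvd_of_le ((CfH7.omegaOne_le _).trans (inf_le_left.trans hP.le))))) d.V_nc fun x hx x1 z hz => ?_
    obtain ⟨z1, z2⟩ := (mem_omegaOne_iff_of_comm hQc).1 hz.1
    rcases hab x hx x1 with rfl | rfl | rfl
    · exact mem_sup_left (d.uniq e hy y1 hx x1 (mem_Cx.2 rfl) (d.K_le (d.HK hy)) yo (hPy z1.1) hz.2 z2)
    · exact mem_sup_right (d.uniq e hy y1 hx x1 hc ca ho (hPy z1.1) hz.2 z2)
    · rw [mem_bot.1 (hQb.le (mi z1 hz.2))]; exact one_mem _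
  have hE' : omegaOne p (P ⊓ Cx(c)) = zpowers y ⊔ zpowers c := le_antisymm hE (sup_le
    (zpowers_le.2 ((mem_omegaOne_iff_of_comm hQc).2 ⟨mi yP (mem_Cx.2 (mem_Cx.1 hc).symm), pow_eq_one_of_orderOf yo⟩))
    (zpowers_le.2 ((mem_omegaOne_iff_of_comm hQc).2 ⟨mi (hcP (mem_zpowers c)) (mem_Cx.2 rfl), pow_eq_one_of_orderOf ho⟩)))
  obtain ⟨g, hg, hg'⟩ := SetLike.exists_of_lt (lt_inf_Nm hP.pgrp (Q := P ⊓ Cx(c))
    (lt_of_le_of_ne inf_le_left fun f => cc (mem_Cx.1 (f.ge c'P).2)))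
  obtain ⟨k, hk⟩ := isPGroup_iff_mem.1 hP.pgrp g hg.1
  exact ⟨g, k, hk, hE' ▸ CfH7.Nm_le_Nm_omegaOne _ hg.2, mem_Cx.1 (hPy hg.1), fun f => hg' (mi hg.1 (mem_Cx.2 f))⟩

theorem normal_form {p : ℕ} [hp : Fact p.Prime] (e : p ∣ h) {y : G} (yo : orderOf y = p) (hy : y ∈ Cx(t))
    (hu : u * y * u⁻¹ = y⁻¹) : ∃ k ∈ K, k * u * k⁻¹ = u ∧ k * y * k⁻¹ ∈ H := by
  obtain ⟨k, hk, h1⟩ := d.typ_H0 e (isPGroup_zpowers_of_orderOf_prime yo) (zpowers_le.2 hy)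
  have h2 := h1 (conj_mem_cj k (mem_zpowers y))
  have y1 : k * y * k⁻¹ ≠ 1 := by simpa using ne_one_of_orderOf_eq_prime yo
  have h3 : k * u * k⁻¹ * (k * y * k⁻¹) * (k * u * k⁻¹)⁻¹ = (k * y * k⁻¹)⁻¹ := by
    rw [conj_inv, conj_inv, conj_mul, conj_mul, hu]
  have h4 : k * u * k⁻¹ * u ∈ H := by
    refine (d.TH _ h2 y1 _ (mul_mem (mul_mem hk d.uK) (inv_mem hk)) (h3 ▸ inv_mem h2)).resolve_left fun f => ?_
    exact d.u1 (by simpa using eq_one_of_sq_of_odd (by rw [conj_mul, d.u2]; simp) (d.odd_H f))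
  obtain ⟨j, hj⟩ := d.odd_H h4
  set z := k * u * k⁻¹ * u
  have h5 : z ^ (j + 1) * z ^ (j + 1) = z := by
    rw [← pow_add, show j + 1 + (j + 1) = 2 * j + 1 + 1 by ring, ← hj, pow_succ, pow_orderOf_eq_one, one_mul]
  have h6 := pow_mem h4 (j + 1)
  refine ⟨(z ^ (j + 1))⁻¹ * k, mul_mem (inv_mem (d.HK h6)) hk, ?_, ?_⟩
  · calc _ = (z ^ (j + 1))⁻¹ * (z * u⁻¹) * z ^ (j + 1) := by simp only [z]; group
      _ = (z ^ (j + 1))⁻¹ * z * (u * z ^ (j + 1) * u⁻¹) * u := by rw [d.u_inv]; simp [mul_assoc, d.u2]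
      _ = u := by rw [d.uH _ h6]; nth_rw 2 [← h5]; group
  · rw [show (z ^ (j + 1))⁻¹ * k * y * ((z ^ (j + 1))⁻¹ * k)⁻¹ = (z ^ (j + 1))⁻¹ * (k * y * k⁻¹) * z ^ (j + 1) by group]
    exact mul_mem (mul_mem (inv_mem h6) h2) h6

theorem mem_V_of {y c : G} (hy : y ∈ H) (y1 : y ≠ 1) (hc : c ∈ Cx(t)) (hu : c ∈ Cx(u)) (e : c * y * c⁻¹ ∈ H) :
    c ∈ zpowers t ⊔ zpowers u := by
  have key : ∀ x ∈ zpowers t ⊔ H, x ∈ Cx(u) → x ∈ zpowers t ⊔ zpowers u := fun x hx hx' => by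
    have h1 := d.uT hx
    rw [← mem_Cx.1 hx', mul_inv_cancel_right] at h1
    by_cases x1 : x = 1
    · exact x1 ▸ one_mem _
    · rw [d.inv_T hx (by nth_rw 1 [h1]; simp) x1]; exact d.t_mem _
  rcases d.NH hy y1 hc e with f | f
  · exact key c f hu
  · simpa using mul_mem (key _ f (mul_mem hu (mem_Cx.2 rfl))) (inv_mem d.u_mem)

theorem CzV_eq : Cz(zpowers t ⊔ zpowers u) = zpowers v ⊔ (zpowers t ⊔ (zpowers u ⊔ R)) := by
  have h0 : v ∈ Cz(zpowers t ⊔ zpowers u) := by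
    rw [Cz_sup, Cz_zpowers, Cz_zpowers]; exact mi (d.K_le d.vK) (mem_Cx.2 d.uv.symm)
  refine le_antisymm (fun c hc => ?_) (sup_le (zpowers_le.2 h0) ((le_Cz_of_comm d.D_comm).trans (Cz_anti d.V_le_D)))
  obtain ⟨k, hk, e1, e2⟩ := d.split_conj (Cz_le_Cx (d.t_mem _) hc)
  have h1 : k ∈ zpowers v ⊔ (zpowers t ⊔ (zpowers u ⊔ R)) := by
    obtain ⟨r, hr, f⟩ := d.Cu k hk (by
      rw [← mul_inv_eq_iff_eq_mul, ← e2 u d.uK]; exact mem_Cx'.1 (Cz_le_Cx d.u_mem hc))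
    have f1 : r ∈ zpowers v ⊔ (zpowers t ⊔ (zpowers u ⊔ R)) := mem_sup_right (d.R_le_D hr)
    have f2 : u ∈ zpowers v ⊔ (zpowers t ⊔ (zpowers u ⊔ R)) := mem_sup_right (d.V_le_D d.u_mem)
    have f3 : v ∈ zpowers v ⊔ (zpowers t ⊔ (zpowers u ⊔ R)) := mem_sup_left (mem_zpowers v)
    rcases f with rfl | rfl | rfl | rfl
    exacts [f1, mul_mem f1 f2, mul_mem f1 f3, mul_mem (mul_mem f1 f2) f3]
  rcases e1 with rfl | rfl
  exacts [h1, mul_mem (mem_sup_right (d.t_mem _)) h1]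

theorem v_inv_D {c : G} (hc : c ∈ zpowers t ⊔ (zpowers u ⊔ R)) : v * c * v⁻¹ = c⁻¹ := by
  have h0 : v ∈ Cz(zpowers t ⊔ zpowers u) := d.CzV_eq ▸ mem_sup_left (mem_zpowers v)
  rw [← sup_assoc] at hc
  obtain ⟨a, ha, r, hr, rfl⟩ := (mem_sup_of_le_Nm (le_normalizer.trans d.NV_le_NR)).1 hc
  rw [← conj_mul, conj_eq_of_mem_centralizer h0 ha, d.vR r hr, mul_inv_rev, inv_eq_of_mul_eq_one_right (d.V_sq ha)]
  exact comm_iff.1 d.D_comm _ (d.V_le_D ha) _ (d.R_le_D (inv_mem hr))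

theorem exists_fixed {n : G} (n3 : n ^ 3 = 1) (hn : n ∈ Nm(zpowers t ⊔ zpowers u)) :
    ∃ s ∈ Cz(zpowers t ⊔ zpowers u), s ∉ zpowers t ⊔ zpowers u ∧ s * s = 1 ∧ n * s = s * n := by
  set D := zpowers t ⊔ (zpowers u ⊔ R)
  have hD : n ∈ Nm(D) := by simp only [D]; rw [← sup_assoc]; exact mem_Nm_sup hn (d.NV_le_NR hn)
  have hv : v ∈ Nm(D) := mem_normalizer_of_conj_mem fun c hc => by rw [d.v_inv_D hc]; exact inv_mem hc
  have hv' : v ∉ D := fun f => by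
    obtain ⟨z, hz, z1⟩ := exists_ne_one_of_ne_bot (show R ≠ ⊥ from fun e => by
      have := d.cR; have := d.big; have := d.hm; simp [e] at *; omega)
    have := d.vR z hz
    rw [comm_iff.1 d.D_comm _ f _ (d.R_le_D hz), mul_inv_cancel_right] at this
    exact z1 (eq_one_of_inv_odd (d.odd_R hz) this.symm)
  by_contra hc
  push Not at hc
  have h1 := CfH3.dvd_ncard_of_conj n Nat.prime_three n3 ((Cz(zpowers t ⊔ zpowers u) : Set G) \ D)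
    (fun x hx => ⟨conj_mem_of_mem_normalizer (mem_Nm_Cz hn) hx.1, fun f => hx.2 (by
      simpa [mul_assoc] using conj_mem_of_mem_normalizer' hD f)⟩) fun x hx => by
      refine hc x hx.1 (fun f => hx.2 (d.V_le_D f)) ?_
      have h2 := hx.1
      rw [SetLike.mem_coe, d.CzV_eq, mem_inv_sup d.v2 hv] at h2
      have h3 := d.v_inv_D (h2.resolve_left hx.2)
      rw [← mul_assoc, d.v2, one_mul, mul_inv_rev, mul_left_inj] at h3
      nth_rw 1 [h3]; simp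
  rw [Set.ncard_sdiff (by rw [d.CzV_eq]; exact le_sup_right (a := zpowers v)), ← Nat.card_coe_set_eq,
    ← Nat.card_coe_set_eq, SetLike.coe_sort_coe, SetLike.coe_sort_coe, d.CzV_eq, card_inv_sup d.v2 hv hv',
    d.card_D] at h1
  have := d.m3
  omega

theorem no_pair (h3 : ¬ Involves (DihedralGroup 3) G) {p : ℕ} [hp : Fact p.Prime] (e : p ∣ h) {y w : G}
    (yo : orderOf y = p) (yt : y ∈ Cx(t)) (yu : u * y * u⁻¹ = y⁻¹) (wo : orderOf w = p) (wu : w ∈ Cx(u))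
    (wt : t * w * t⁻¹ = w⁻¹) (yw : y * w = w * y) : False := by
  wlog hy : y ∈ H generalizing y w
  · obtain ⟨k, hk, e1, e2⟩ := d.normal_form e yo yt yu
    refine this (y := k * y * k⁻¹) (w := k * w * k⁻¹) (by rwa [orderOf_conj']) (d.K_le (d.HK e2)) (d.uH _ e2)
      (by rwa [orderOf_conj']) (by rw [← e1, ← cj_Cx]; exact conj_mem_cj k wu) ?_ (by rw [conj_mul, conj_mul, yw]) e2
    rw [← d.conj_t (d.K_le hk), conj_inv, conj_inv, conj_mul, conj_mul, wt]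
  have po : Odd p := hp.out.odd_of_ne_two (d.ne_two_h e)
  have y1 := ne_one_of_orderOf_eq_prime yo
  obtain ⟨n, n1, n2, n3⟩ : ∃ n, n * t * n⁻¹ = u ∧ n * u * n⁻¹ = t * u ∧ n * y * n⁻¹ ∈ zpowers w := by
    obtain ⟨n, n1, n2⟩ := d.exists_n
    obtain ⟨k, hk, e1, e2⟩ := d.normal_form e (y := n⁻¹ * w * n) (by rwa [orderOf_conj''])
      (by rw [← mem_cj, cj_Cx, n1]; exact wu) (by
        calc _ = n⁻¹ * ((n * u * n⁻¹) * w * (n * u * n⁻¹)⁻¹) * n := by group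
          _ = n⁻¹ * (t * (u * w * u⁻¹) * t⁻¹) * n := by rw [n2]; group
          _ = _ := by rw [← mem_Cx.1 wu, mul_inv_cancel_right, wt]; group)
    refine ⟨n * k⁻¹, ?_, ?_, ?_⟩
    · calc _ = n * (k⁻¹ * t * k⁻¹⁻¹) * n⁻¹ := by group
        _ = u := by rw [d.conj_t (d.K_le (inv_mem hk)), n1]
    · calc _ = n * (k⁻¹ * (k * u * k⁻¹) * k) * n⁻¹ := by rw [e1]; group
        _ = _ := by rw [← n2]; group
    · have := mem_of_isCyclic d.Hc (zpowers_le.2 e2) hy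
        (by rw [Nat.card_zpowers, orderOf_conj', orderOf_conj'', wo]; exact pow_eq_one_of_orderOf yo)
      rw [show k * (n⁻¹ * w * n) * k⁻¹ = (n * k⁻¹)⁻¹ * w * (n * k⁻¹)⁻¹⁻¹ by group, ← cj_zpowers] at this
      exact mem_cj_inv.1 this
  have n4 := d.n_tu n1 n2
  have c1 : y * (n * y * n⁻¹) = n * y * n⁻¹ * y := comm_zpowers' yw n3
  have c2 : n⁻¹ * y * n * y = y * (n⁻¹ * y * n) := by
    calc _ = n⁻¹ * (y * (n * y * n⁻¹)) * n := by group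
      _ = _ := by rw [c1]; group
  have a1 : n * y * n⁻¹ ∈ Cx(u) := by rw [← n1, ← cj_Cx]; exact conj_mem_cj n yt
  have a2 : n⁻¹ * y * n ∈ Cx(t * u) := by rw [← mem_cj, cj_Cx, n4]; exact yt
  have o1 : orderOf (n * y * n⁻¹) = p := by rwa [orderOf_conj']
  have o2 : orderOf (n⁻¹ * y * n) = p := by rwa [orderOf_conj'']
  have i1 : t * (n * y * n⁻¹) * t⁻¹ = (n * y * n⁻¹)⁻¹ := d.inv_O hy y1 d.u_mem (d.t_mem _) d.u1 d.t1 d.t_ne_u.symm
    (mi (d.mem_O hy y1 (mem_Cx.2 c1.symm) (o1 ▸ po)) a1)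
  have tut : t * u ≠ t := fun f => d.u1 (by simpa using f)
  by_cases cc : n⁻¹ * y * n * (n * y * n⁻¹) = n * y * n⁻¹ * (n⁻¹ * y * n)
  · have i2 : t * (n⁻¹ * y * n) * t⁻¹ = (n⁻¹ * y * n)⁻¹ := d.inv_O hy y1 d.tu_mem (d.t_mem _) d.tu1 d.t1 tut
      (mi (d.mem_O hy y1 (mem_Cx.2 c2) (o2 ▸ po)) a2)
    have hn := d.Nm_V n1 n2
    have t3 := d.cube hn
    have u3 : n ^ 3 ∈ Cx(u) := by
      rw [← n1, ← cj_Cx, mem_cj, show n⁻¹ * n ^ 3 * n = n ^ 3 by group]; exact t3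
    have h1 : n⁻¹ * (n⁻¹ * y * n) * n ∈ zpowers (n * y * n⁻¹) := by
      refine d.uniq e hy y1 d.u_mem d.u1 (mem_Cx.2 c1.symm) a1 o1 (mem_Cx.2 ?_) ?_ ?_
      · calc _ = n⁻¹ * (n⁻¹ * y * n * (n * y * n⁻¹)) * n := by group
          _ = _ := by rw [cc]; group
      · rw [← mem_cj, cj_Cx, n2]; exact a2
      · rw [← o2, ← orderOf_conj'' n, pow_orderOf_eq_one]
    have h2 : (n ^ 3)⁻¹ ∈ zpowers t ⊔ zpowers u := by
      refine d.mem_V_of hy y1 (inv_mem t3) (inv_mem u3) (zpowers_le.2 hy ?_)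
      rw [← cj_zpowers, mem_cj] at h1
      convert h1 using 1; simp [pow_three, mul_assoc]
    have h4 : n ^ 3 = 1 := by
      have h5 : n * (n ^ 3)⁻¹ * n⁻¹ = (n ^ 3)⁻¹ := by group
      rcases d.mem_V.1 h2 with f | f | f | f
      · simpa using f
      all_goals rw [f] at h5
      · exact absurd (by simpa using n2.symm.trans h5) d.t1
      · exact absurd (n1.symm.trans h5).symm d.t_ne_u
      · exact absurd (n4.symm.trans h5).symm tut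
    obtain ⟨s, hs, hs', s2, sn⟩ := d.exists_fixed h4 hn
    have C1 : Commute y (n * y * n⁻¹) := c1
    have C2 : Commute (n⁻¹ * y * n) y := c2
    have C3 : Commute (n⁻¹ * y * n) (n * y * n⁻¹) := cc
    have h5 : n * (n * y * n⁻¹) * n⁻¹ = n⁻¹ * y * n := by
      calc _ = n⁻¹ * n ^ 3 * y * (n ^ 3)⁻¹ * n := by rw [pow_three]; group
        _ = _ := by rw [h4]; group
    have h6 : (y * (n * y * n⁻¹) * (n⁻¹ * y * n)) ^ p = 1 := by
      rw [(C2.symm.mul_left C3.symm).mul_pow, C1.mul_pow, pow_eq_one_of_orderOf yo, pow_eq_one_of_orderOf o1,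
        pow_eq_one_of_orderOf o2]; simp
    have h7 := d.inv_of_three h3 h4 (fun f => d.t_ne_u (by simpa [f] using n1)) s2
      (fun f => hs' (f ▸ one_mem _)) (mem_Cx.2 sn) (a := y * (n * y * n⁻¹) * (n⁻¹ * y * n))
      (mem_Cx.2 (by
        rw [eq_comm, ← mul_inv_eq_iff_eq_mul, ← conj_mul, ← conj_mul, h5,
          show n * (n⁻¹ * y * n) * n⁻¹ = y by group, ← (C1.mul_right C2.symm).eq, mul_assoc y]))
      (((Nat.coprime_primes hp.out Nat.prime_two).2 (d.ne_two_h e)).coprime_dvd_left (orderOf_dvd_of_pow_eq_one h6))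
      (((Nat.coprime_primes hp.out Nat.prime_three).2 (d.ne_three_h e)).coprime_dvd_left (orderOf_dvd_of_pow_eq_one h6))
    have st := Cz_le_Cx (d.t_mem _) hs
    have ty : t * y * t⁻¹ = y := d.tconj (d.HK hy)
    generalize n * y * n⁻¹ = y₁ at *
    generalize n⁻¹ * y * n = y₂ at *
    have h8 : t * (y * y₁ * y₂) * t⁻¹ = y * y₁⁻¹ * y₂⁻¹ := by rw [← conj_mul, ← conj_mul, i1, i2, ty]
    have h9 : y * y₁ * y₂ * (y * y₁⁻¹ * y₂⁻¹) = y * y := by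
      rw [mul_assoc y y₁⁻¹, ← mul_inv_rev, C3.eq, mul_assoc y y₁, mul_assoc y, ← mul_assoc (y₁ * y₂),
        ← (C1.mul_right C2.symm).eq, mul_inv_cancel_right]
    refine hs' (d.mem_V_of (mul_mem hy hy) (fun f => y1 (eq_one_of_sq_of_odd f (yo ▸ po))) st
      (Cz_le_Cx d.u_mem hs) ?_)
    have h10 : s * (t * (y * y₁ * y₂) * t⁻¹) * s⁻¹ = t * (s * (y * y₁ * y₂) * s⁻¹) * t⁻¹ := by
      calc _ = s * t * (y * y₁ * y₂) * (s * t)⁻¹ := by group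
        _ = _ := by rw [mem_Cx.1 st]; group
    rw [← h9, ← conj_mul, ← h8, h10, h7, ← conj_inv, h8, ← mul_inv_rev]
    refine inv_mem ?_
    rw [((((Commute.refl y).mul_right C1).mul_right C2.symm).mul_left
      ((C1.symm.mul_right (Commute.refl y₁)).mul_right C3.symm).inv_left).mul_left
      ((C2.mul_right C3).mul_right (Commute.refl y₂)).inv_left |>.eq, h9]
    exact mul_mem hy hy
  · have hab : ∀ x ∈ zpowers t ⊔ zpowers u, x ≠ 1 → x = t ∨ x = u ∨ x = t * u := fun x hx x1 => by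
      rcases d.mem_V.1 hx with f | f | f | f <;> simp [f] at x1 ⊢
    obtain ⟨g, k, g1, g2, g3, g4⟩ := d.transv e hy yo d.u_mem d.tu_mem d.u1 d.tu1 d.t_ne_u.symm hab
      (mem_Cx.2 c1.symm) a1 o1 (mem_Cx.2 c2) a2 o2 cc
    obtain ⟨f, l, f1, f2, f3, f4⟩ := d.transv e hy yo d.tu_mem d.u_mem d.tu1 d.u1 tut
      (fun x hx x1 => by have := hab x hx x1; tauto) (mem_Cx.2 c2) a2 o2 (mem_Cx.2 c1.symm) a1 o1 (Ne.symm cc)
    have m1 : n * y * n⁻¹ ∉ zpowers y := fun f => by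
      rw [comm_zpowers' (d.tK y (d.HK hy)) f, mul_inv_cancel_right] at i1
      exact ne_one_of_orderOf_eq_prime o1 (eq_one_of_inv_odd (o1 ▸ po) i1.symm)
    have m2 : y ∉ zpowers (n * y * n⁻¹) := fun f => by
      have := inverts_zpowers i1 f
      rw [d.tconj (d.HK hy)] at this
      exact y1 (eq_one_of_inv_odd (yo ▸ po) this.symm)
    obtain ⟨a, e1, e2⟩ := exists_transv_pow yo (pow_eq_one_of_orderOf o1) c1 m1 g1 g2 g3 g4 (mem_zpowers y)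
    obtain ⟨b, e3, e4⟩ := exists_transv_pow o1 (pow_eq_one_of_orderOf yo) c1.symm m2 (g := n * f * n⁻¹) (k := l)
      (by rw [conj_pow, f1]; simp) (by
        have := conj_mem_cj n f2
        rwa [cj_normalizer, cj_sup, cj_zpowers, cj_zpowers, show n * (n⁻¹ * y * n) * n⁻¹ = y by group] at this)
      (by rw [conj_mul, conj_mul, f3]) (fun e => f4 (by
        calc _ = n⁻¹ * (n * f * n⁻¹ * y) * n := by group
          _ = _ := by rw [e]; group)) (inv_mem (mem_zpowers _))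
    exact d.no_sl2 (yo ▸ po) y1 c1 e1 e2 e3 e4

theorem no_pair' (h3 : ¬ Involves (DihedralGroup 3) G) {p : ℕ} [hp : Fact p.Prime] (e : p ∣ h) {a b y w : G}
    (ha : a ∈ zpowers t ⊔ zpowers u) (hb : b ∈ zpowers t ⊔ zpowers u) (a1 : a ≠ 1) (b1 : b ≠ 1) (ab : a ≠ b)
    (yo : orderOf y = p) (yt : y ∈ Cx(a)) (yu : b * y * b⁻¹ = y⁻¹) (wo : orderOf w = p) (wu : w ∈ Cx(b))
    (wt : a * w * a⁻¹ = w⁻¹) (yw : y * w = w * y) : False := by
  have key : ∀ {a b y w : G} (g : G), g * a * g⁻¹ = t → g * b * g⁻¹ = u → orderOf y = p → y ∈ Cx(a) →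
      b * y * b⁻¹ = y⁻¹ → orderOf w = p → w ∈ Cx(b) → a * w * a⁻¹ = w⁻¹ → y * w = w * y → False :=
    fun {a b y w} g e1 e2 yo yt yu wo wu wt yw =>
      d.no_pair h3 e (y := g * y * g⁻¹) (w := g * w * g⁻¹) (by rwa [orderOf_conj'])
        (by rw [← e1, ← cj_Cx]; exact conj_mem_cj g yt) (by rw [← e2, conj_inv, conj_inv, conj_mul, conj_mul, yu])
        (by rwa [orderOf_conj']) (by rw [← e2, ← cj_Cx]; exact conj_mem_cj g wu)
        (by rw [← e1, conj_inv, conj_inv, conj_mul, conj_mul, wt]) (by rw [conj_mul, conj_mul, yw])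
  obtain ⟨g, hg, e1⟩ := d.exists_NV ha a1
  rcases d.mem_V.1 (conj_mem_of_mem_normalizer hg hb) with f | f | f | f
  · exact b1 (by simpa using f)
  · exact key g e1 f yo yt yu wo wu wt yw
  · exact ab (by simpa using e1.trans f.symm)
  · obtain ⟨n, n1, n2⟩ := d.exists_n
    refine key (n * g) ?_ ?_ wo wu wt yo yt yu yw.symm
    · rw [← d.n_tu n1 n2, ← f]; group
    · rw [← n1, ← e1]; group

theorem Cx_H_prime (h3 : ¬ Involves (DihedralGroup 3) G) {r : ℕ} (hr : r.Prime) {y : G} (hy : y ∈ H)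
    (yo : orderOf y = r) : Cx(y) ≤ Cx(t) := by
  haveI : Fact r.Prime := ⟨hr⟩
  have y1 := ne_one_of_orderOf_eq_prime yo
  have rh : r ∣ h := by rw [← yo, ← d.cH]; exact H.orderOf_dvd_natCard hy
  set O := pPrimeCoreOf 2 Cx(y)
  have hO : (Nat.card O).Coprime 2 := coprime_card_pPrimeCoreOf _
  rw [← (d.pnil_H hy y1).2.sup_eq (d.pnil_H hy y1).1]
  refine sup_le (le_of_noncyclic d.V_comm (d.V_Nm_O hy) (d.cop_V hO) d.V_nc fun a ha a1 => ?_)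
    (zpowers_le.2 (mem_Cx.2 rfl))
  by_cases ta : a = t
  · exact ta ▸ inf_le_right
  suffices O ⊓ Cx(a) = ⊥ by rw [this]; exact bot_le
  by_contra hne
  obtain ⟨c0, hc0, c1⟩ := exists_ne_one_of_ne_bot hne
  obtain ⟨p, hp, c, hc, co⟩ := exists_prime_pow c1
  haveI : Fact p.Prime := ⟨hp⟩
  have hc' : c ∈ O ⊓ Cx(a) := zpowers_le.2 hc0 hc
  have ph : p ∣ h := by
    rcases d.prime_cases hp (d.V_sq ha) a1 hc'.2 co with rfl | rfl | f | f
    · exact absurd (co ▸ odd_orderOf_of_coprime hO hc'.1) (by decide)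
    · exact absurd (no_inv3 h3 d.t2 (pow_pow_one_of_orderOf co)
        (d.inv_O hy y1 ha (d.t_mem _) a1 d.t1 ta hc')) (ne_one_of_orderOf_eq_prime co)
    · exact f
    · have h1 := ((Cx(c)).orderOf_dvd_natCard (mem_Cx.2 (mem_Cx.1 (pPrimeCoreOf_le _ hc'.1)).symm)).trans
        (d.card_Cx_m h3 f (d.V_sq ha) a1 hc'.2 co)
      rw [yo, show 12 * m = 4 * (3 * m) by ring, hr.dvd_mul, hr.dvd_mul] at h1
      rcases h1 with f | f | f
      · exact absurd f (d.not_four hr (d.ne_two_h rh))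
      · exact absurd ((Nat.prime_dvd_prime_iff_eq hr Nat.prime_three).1 f) (d.ne_three_h rh)
      · exact (d.not_both hr rh f).elim
  obtain ⟨P, hP, hVP⟩ := exists_invariant_sylIn p (d.V_Nm_O hy) (d.cop_V hO) (Or.inl (isSolvable_of_comm d.V_comm))
  have key : ∀ b ∈ zpowers t ⊔ zpowers u, p ∣ Nat.card (O ⊓ Cx(b) : Subgroup G) →
      ∃ x ∈ P ⊓ Cx(b), orderOf x = p := fun b hb f => by
    have h1 := sylIn_inf_centralizer (zpowers_le.2 (d.V_Nm_O hy hb)) (coprime_zpowers_inv (d.V_sq hb) hO)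
      (Or.inl (isSolvable_of_comm (comm_zpowers b))) hP (zpowers_le.2 (hVP hb))
    rw [Cz_zpowers] at h1
    exact exists_orderOf_prime_of_ne_bot h1.pgrp (h1.ne_bot_iff.2 f)
  obtain ⟨x₁, hx₁, o₁⟩ := key a ha (co ▸ Subgroup.orderOf_dvd_natCard _ hc')
  obtain ⟨x₂, hx₂, o₂⟩ := key t (d.t_mem _) (ph.trans (d.cH ▸ card_dvd_of_le (le_inf
    (fun z hz => d.mem_O hy y1 (mem_Cx.2 (comm_iff.1 (comm_of_isCyclic d.Hc) z hz y hy)) (d.odd_H hz))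
    (d.HK.trans d.K_le))))
  obtain ⟨b, hb, b1, hZ⟩ : ∃ b ∈ zpowers t ⊔ zpowers u, b ≠ 1 ∧ P ⊓ Cz(P) ⊓ Cx(b) ≠ ⊥ := by
    by_contra f
    push Not at f
    exact CfH9.inf_Cz_ne_bot hP.pgrp hP.pgrp le_normalizer (ne_bot_of_mem hx₁.1 (ne_one_of_orderOf_eq_prime o₁))
      (eq_bot_iff.2 (le_of_noncyclic d.V_comm (fun x hx => CfH9.mem_Nm_inf (hVP hx) (mem_Nm_Cz (hVP hx)))
        (d.cop_V (hO.coprime_dvd_left (card_dvd_of_le (inf_le_left.trans hP.le)))) d.V_nc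
        fun b hb b1 => (f b hb b1).le))
  obtain ⟨z, hz, zo⟩ := exists_orderOf_prime_of_ne_bot (hP.pgrp.to_le (inf_le_left.trans inf_le_left)) hZ
  have fin : ∀ b' ∈ zpowers t ⊔ zpowers u, b' ≠ 1 → b ≠ b' → ∀ x ∈ P ⊓ Cx(b'), orderOf x = p → False :=
    fun b' hb' b1' bb x hx xo => d.no_pair' h3 ph hb hb' b1 b1' bb zo hz.2
      (d.inv_O hy y1 hb hb' b1 b1' bb (mi (hP.le hz.1.1) hz.2)) xo hx.2
      (d.inv_O hy y1 hb' hb b1' b1 bb.symm (mi (hP.le hx.1) hx.2)) (mem_centralizer_iff.1 hz.1.2 x hx.1).symm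
  by_cases f : b = a
  · exact fin t (d.t_mem _) d.t1 (f ▸ ta) x₂ hx₂ o₂
  · exact fin a ha a1 f x₁ hx₁ o₁

theorem Cx_H (h3 : ¬ Involves (DihedralGroup 3) G) {y c : G} (hy : y ∈ H) (y1 : y ≠ 1) (e : c * y = y * c) :
    c ∈ zpowers t ⊔ H := by
  obtain ⟨p, hp, x, hx, xo⟩ := exists_prime_pow y1
  exact d.CH hy y1 (d.Cx_H_prime h3 hp (zpowers_le.2 hy hx) xo (mem_Cx.2 (comm_zpowers' e hx))) e

end RT

end CfH1
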