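import Cfsg.Agent.H1.Ree4
import Cfsg.Agent.H3.MobAbs
import Cfsg.Agent.FT.BG3a

/-! Groups of Ree type without `S₃`: counting involutions. -/

set_option autoImplicit false
set_option linter.unusedSectionVars false

namespace CfH1

open Cfsg Subgroup CfH9 CfH7 CfH8
open scoped Pointwise commutatorElement

variable {G : Type*} [Group G]

theorem card_dvd_of_conj_free [Finite G] (A : Subgroup G) (S : Set G) (h1 : ∀ a ∈ A, ∀ s ∈ S, a * s * a⁻¹ ∈ S)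
    (h2 : ∀ a ∈ A, ∀ s ∈ S, a * s = s * a → a = 1) : Nat.card A ∣ S.ncard :=
  @CfH3.card_dvd_ncard_of_free G G _ (MulAction.compHom G (MulAut.conj : G →* MulAut G)) _ A S h1
    fun a ha s hs e => h2 a ha s hs (mul_inv_eq_iff_eq_mul.1 e)

namespace RT

variable [Finite G] {t u v : G} {K U H R : Subgroup G} {h m : ℕ} (d : RT t K U H R u v h m)
include d

theorem card_cocyclic {U₀ : Subgroup G} (h0 : U₀ ≤ U) (h1 : ∃ a ∈ U, U ≤ U₀ ⊔ zpowers a) :
    2 * h + 1 ≤ 3 * Nat.card U₀ := by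
  obtain ⟨a, ha, e⟩ := h1
  have h2 := CfH9.card_sup_mul_card_inf (A := U₀) (B := zpowers a)
    (h0.trans ((le_Cz_of_comm d.Uc).trans ((Cz_anti (zpowers_le.2 ha)).trans (Cz_le_Nm _))))
  have h3 := card_le_of_le e
  have h4 : Nat.card (zpowers a) ≤ 3 := by
    rw [Nat.card_zpowers]; exact orderOf_le_of_pow_eq_one (by norm_num) (d.Up a ha)
  have h5 : 0 < Nat.card (U₀ ⊓ zpowers a : Subgroup G) := Nat.card_pos
  rw [d.cU] at h3
  nlinarith

theorem H_ne : ∃ y ∈ H, y ≠ 1 := exists_ne_one_of_ne_bot fun e => by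
  have := d.cH; have := d.big; simp [e] at *; omega

theorem Cx_U (h3 : ¬ Involves (DihedralGroup 3) G) {x : G} (hx : x ∈ U) (x1 : x ≠ 1) : Cx(x) ≤ Cz(U) := by
  haveI : Fact (Nat.Prime 3) := ⟨Nat.prime_three⟩
  set S : Set G := {w | (orderOf w).Coprime 2 ∧ (orderOf w).Coprime 3 ∧
    ∃ U₀ ≤ U, (∃ a ∈ U, U ≤ U₀ ⊔ zpowers a) ∧ w ∈ Cz(U₀)}
  have h1 : ∀ a ∈ S, ∀ b ∈ S, t * a * t⁻¹ = a⁻¹ ∧ a * b = b * a := by
    rintro a ⟨a2, a3, U₀, h0, e0, ha⟩ b ⟨b2, b3, U₁, h1, e1, hb⟩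
    obtain ⟨y, hy, y1⟩ := exists_ne_one_of_ne_bot (show U₀ ⊓ U₁ ≠ ⊥ from fun e => by
      have c0 := d.card_cocyclic h0 e0
      have c1 := d.card_cocyclic h1 e1
      have c2 := CfH9.card_mul_card_le h0 h1
      have := d.big
      rw [e, card_bot, d.cU] at c2
      nlinarith)
    have f1 := d.mem_W h3 (h0 hy.1) y1 (Cz_le_Cx hy.1 ha) a2 a3
    exact ⟨d.inv_W (h0 hy.1) y1 f1, comm_iff.1 (comm_of_inverts fun _ => d.inv_W (h0 hy.1) y1) _ f1 _
      (d.mem_W h3 (h0 hy.1) y1 (Cz_le_Cx hy.2 hb) b2 b3)⟩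
  have h2 : IsMulCommutative (closure S) := isMulCommutative_closure fun a ha b hb => (h1 a ha b hb).2
  have h4 : ∀ a ∈ closure S, t * a * t⁻¹ = a⁻¹ ∧ Odd (orderOf a) := fun a ha => by
    induction ha using closure_induction with
    | mem a ha => exact ⟨(h1 a ha a ha).1, Nat.coprime_two_right.1 ha.1⟩
    | one => simp
    | mul a b ha hb iha ihb =>
      have e : Commute a b := comm_iff.1 h2 a ha b hb
      exact ⟨by rw [← conj_mul, iha.1, ihb.1, e.eq, mul_inv_rev],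
        Odd.of_dvd_nat (iha.2.mul ihb.2) e.orderOf_mul_dvd_mul_orderOf⟩
    | inv a ha iha => exact ⟨by rw [← conj_inv, iha.1], by rw [orderOf_inv]; exact iha.2⟩
  obtain ⟨y, hy, y1⟩ := d.H_ne
  have h5 : U ≤ Cz(closure S) := by
    refine (CfFT.SReg.frob (K := U) (R := H) (fun y hy y1 => eq_bot_iff.2 fun a ha =>
      (d.CU a ha.1 y hy (mem_Cx.1 ha.2).symm).resolve_right y1) d.HU (ne_bot_of_mem hx x1)
      (ne_bot_of_mem hy y1)).le_Cz_of_fix h2 (fun g hg => ?_) ?_ (eq_bot_iff.2 fun c hc => ?_)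
    · have hg' : g ∈ Nm(U) := sup_le le_normalizer d.HU hg
      refine mem_normalizer_of_cj_le ?_
      rw [cj_closure]
      refine closure_mono ?_
      rintro _ ⟨w, ⟨w2, w3, U₀, h0, ⟨a, ha, e⟩, hw⟩, rfl⟩
      refine ⟨by rwa [orderOf_conj'], by rwa [orderOf_conj'], cj g U₀,
        (cj_mono g h0).trans (cj_eq_of_mem_normalizer hg').le, ⟨_, conj_mem_of_mem_normalizer hg' ha, ?_⟩, ?_⟩
      · rw [← cj_zpowers, ← cj_sup]; exact (cj_eq_of_mem_normalizer hg').ge.trans (cj_mono g e)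
      · rw [← cj_centralizer]; exact conj_mem_cj g hw
    · obtain ⟨k, hk⟩ := d.exists_pow
      rw [CfFT.Cop, d.cU, hk]
      refine (coprime_iff_not_dvd.2 fun e => ?_).pow_right k
      obtain ⟨a, ha, ao⟩ := exists_orderOf_eq_prime e
      exact ne_one_of_orderOf_eq_prime ao (no_inv3 h3 d.t2 (pow_pow_one_of_orderOf ao) (h4 a ha).1)
    · have e := (h4 c hc.1).1
      rw [← mem_Cx.1 (d.T_le (d.Cx_H h3 hy y1 (mem_Cx.1 (Cz_le_Cx hy hc.2)))), mul_inv_cancel_right] at e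
      exact eq_one_of_inv_odd (h4 c hc.1).2 e.symm
  have h6 : pPrimeCoreOf 3 (pPrimeCoreOf 2 Cx(x)) ≤ closure S := by
    refine le_of_cocyclic d.Uc ((d.U_le_O hx x1).trans (le_normalizer_pPrimeCoreOf _)) ?_ fun B hB e w hw =>
      subset_closure ⟨(coprime_card_pPrimeCoreOf _).coprime_dvd_left
        (Subgroup.orderOf_dvd_natCard _ (pPrimeCoreOf_le _ hw.1)), (coprime_card_pPrimeCoreOf _).coprime_dvd_left
        (Subgroup.orderOf_dvd_natCard _ hw.1), B, hB, e, hw.2⟩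
    obtain ⟨k, hk⟩ := d.exists_pow
    rw [d.cU, hk]
    exact ((coprime_card_pPrimeCoreOf _).pow_right k).symm
  obtain ⟨h7, h8⟩ := d.pnil_U hx x1 (d.t_mem_Cx (d.UK hx)) le_rfl
  obtain ⟨h9, h10⟩ := d.sylU_O h3 hx x1
  rw [← h8.sup_eq h7]
  refine sup_le ?_ (zpowers_le.2 (d.t_Cz d.UK))
  rw [← h10.sup_eq h9]
  exact sup_le (h6.trans (le_centralizer_iff.1 h5)) (le_Cz_of_comm d.Uc)

theorem ncard_I : {s : G | s * s = 1 ∧ s ≠ 1}.ncard = (Cx(t)).index := by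
  have h1 := CfL.ncard_class_mul t
  have h2 : {b | IsConj t b} = {s : G | s * s = 1 ∧ s ≠ 1} := by
    ext b
    refine ⟨fun hb => ⟨CfL.sq_of_isConj hb d.t2, CfL.ne_one_of_isConj hb d.t1⟩, fun hb => ?_⟩
    obtain ⟨g, hg⟩ := d.exists_conj hb.1 hb.2
    exact (isConj_iff.2 ⟨g, hg⟩).symm
  rw [h2, ← (Cx(t)).card_mul_index, mul_comm] at h1
  exact Nat.eq_of_mul_eq_mul_left Nat.card_pos h1

theorem dvd_i (h3 : ¬ Involves (DihedralGroup 3) G) : ∃ j, (Cx(t)).index = h * j + 1 := by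
  obtain ⟨j, hj⟩ := card_dvd_of_conj_free H ({s : G | s * s = 1 ∧ s ≠ 1} \ {t})
    (fun a ha s hs => ⟨⟨by rw [conj_mul, hs.1.1]; simp, by simpa using hs.1.2⟩, fun e => hs.2 (by
      rw [Set.mem_singleton_iff, ← d.conj_t (d.K_le (d.HK ha))] at e; simpa using e)⟩)
    fun a ha s hs e => by
      by_contra a1
      exact hs.2 (d.inv_T (d.Cx_H h3 ha a1 e.symm) hs.1.1 hs.1.2)
  refine ⟨j, ?_⟩
  rw [← d.ncard_I, ← d.cH, ← hj, Set.ncard_sdiff_singleton_add_one (show t ∈ {s : G | s * s = 1 ∧ s ≠ 1} from ⟨d.t2, d.t1⟩)]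

theorem not_three_i (h3 : ¬ Involves (DihedralGroup 3) G) : ¬ 3 ∣ (Cx(t)).index := by
  haveI : Fact (Nat.Prime 3) := ⟨Nat.prime_three⟩
  simpa using (d.sylU h3).not_dvd_relIndex_of_le (d.UK.trans d.K_le)

theorem exists_w (h3 : ¬ Involves (DihedralGroup 3) G) :
    ∃ e j, j ≠ 0 ∧ (Cx(t)).index = (2 * h * e + 1) * ((2 * h + 1) * j + 1) := by
  haveI : Fact (Nat.Prime 3) := ⟨Nat.prime_three⟩
  obtain ⟨x, hx, x1⟩ := d.U_ne
  set I := {s : G | s * s = 1 ∧ s ≠ 1}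
  have hI : ∀ a, ∀ s ∈ I, a * s * a⁻¹ ∈ I := fun a s hs => ⟨by rw [conj_mul, hs.1]; simp, by simpa using hs.2⟩
  obtain ⟨h1, h2⟩ := d.pnil_U hx x1 (d.t_Cz d.UK) (Cz_le_Cx hx)
  have c1 := CfL.ncard_conj_mul Cz(U) t
  have e1 : {b | ∃ g ∈ Cz(U), g * t * g⁻¹ = b} = I ∩ Cz(U) := by
    ext b
    constructor
    · rintro ⟨g, hg, rfl⟩
      exact ⟨hI g t ⟨d.t2, d.t1⟩, mul_mem (mul_mem hg (d.t_Cz d.UK)) (inv_mem hg)⟩
    · rintro ⟨hb, hb'⟩
      obtain ⟨g, hg, e⟩ := h1.exists_conj_mem hb' (k := 1) (by simpa [pow_two] using hb.1)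
      refine ⟨g⁻¹, inv_mem hg, ?_⟩
      rw [← ((mem_zpowers_inv d.t2).1 e).resolve_left (by simpa using hb.2)]; group
  have e2 : Cz(U) ⊓ Cx(t) = zpowers t ⊔ U := le_antisymm
    (fun c hc => d.CUt hx x1 hc.2 (mem_Cx.1 (Cz_le_Cx hx hc.1)))
    (sup_le (zpowers_le.2 (mi (d.t_Cz d.UK) (mem_Cx.2 rfl))) (le_inf (le_Cz_of_comm d.Uc) (d.UK.trans d.K_le)))
  have e3 := card_inv_sup d.t2 (le_normalizer_pPrimeCoreOf (p := 2) _ (d.t_Cz d.UK))
    (fun e => d.t1 (eq_one_of_sq_of_odd d.t2 (odd_orderOf_of_coprime (coprime_card_pPrimeCoreOf _) e)))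
  rw [sup_comm, h2.sup_eq h1] at e3
  rw [e1, e2, card_inv_sup d.t2 (d.t_Nm d.UK) (fun e => d.tn (d.UK e)), d.cU, e3] at c1
  obtain ⟨e, he⟩ := card_dvd_of_conj_free (zpowers t ⊔ H) ((I ∩ Cz(U)) \ {t})
    (fun a ha s hs => ⟨⟨hI a s hs.1.1, conj_mem_of_mem_normalizer
      (mem_Nm_Cz (sup_le (zpowers_le.2 (d.t_Nm d.UK)) d.HU ha)) hs.1.2⟩, fun e => hs.2 (by
      rw [Set.mem_singleton_iff, ← d.conj_t (d.T_le ha)] at e; simpa using e)⟩)
    fun a ha s hs e => by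
      by_contra a1
      by_cases a2 : a * a = 1
      · rw [d.inv_T ha a2 a1] at e
        rcases (mem_inv_sup d.t2 (d.t_Nm d.UK)).1 (e2.le (mi hs.1.2 (mem_Cx.2 e.symm))) with f | f
        · exact hs.1.1.2 (eq_one_of_sq_of_odd hs.1.1.1 (d.odd_U f))
        · have := eq_one_of_sq_of_odd (by
            rw [mul_assoc, ← mul_assoc s, ← e, mul_assoc, hs.1.1.1, mul_one, d.t2]) (d.odd_U f)
          exact hs.2 (by rw [Set.mem_singleton_iff, ← d.tt s, this, mul_one])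
      · refine hs.2 (d.inv_T (d.Cx_H h3 (y := a * a) ?_ a2 ?_) hs.1.1.1 hs.1.1.2)
        · rcases d.mem_T.1 ha with f | f
          · exact mul_mem f f
          · have := mul_mem f f
            rwa [mul_assoc, ← mul_assoc a, mem_Cx.1 (d.T_le ha), mul_assoc, d.tt] at this
        · rw [← mul_assoc, ← e, mul_assoc, ← e, mul_assoc]
  obtain ⟨j, hj⟩ := card_dvd_of_conj_free (pPrimeCoreOf 2 Cz(U)) (I \ (I ∩ Cz(U)))
    (fun a ha s hs => ⟨hI a s hs.1, fun f => hs.2 ⟨hs.1, by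
      have := pPrimeCoreOf_le _ ha
      simpa [mul_assoc] using mul_mem (mul_mem (inv_mem this) f.2) this⟩⟩)
    fun a ha s hs e => by
      by_contra a1
      obtain ⟨p, hp, b, hb, bo⟩ := exists_prime_pow a1
      haveI : Fact p.Prime := ⟨hp⟩
      have hb' : b ∈ pPrimeCoreOf 2 Cz(U) := zpowers_le.2 ha hb
      have bs : b ∈ Cx(s) := mem_Cx.2 (comm_zpowers' e.symm hb).symm
      have bU : 2 * h + 1 ∣ Nat.card Cx(b) := d.cU ▸ card_dvd_of_le (le_Cx_iff.2 (pPrimeCoreOf_le _ hb'))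
      have b1 := ne_one_of_orderOf_eq_prime bo
      rcases d.prime_cases hp hs.1.1 hs.1.2 bs bo with rfl | rfl | f | f
      · exact absurd (bo ▸ odd_orderOf_of_coprime (coprime_card_pPrimeCoreOf _) hb') (by decide)
      · exact hs.2 ⟨hs.1, d.Cx_U h3 ((d.sylU h3).le_of_le_Nm' (isPGroup_zpowers_of_orderOf_prime bo) le_top
          (zpowers_le.2 (Cz_le_Nm _ (pPrimeCoreOf_le _ hb'))) (mem_zpowers b)) b1 (mem_Cx.2 (mem_Cx.1 bs).symm)⟩
      · obtain ⟨g, -, hg⟩ := d.typ (fun P => d.typ_H0 f) hs.1.1 hs.1.2 (isPGroup_zpowers_of_orderOf_prime bo)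
          (zpowers_le.2 bs)
        rw [← card_cj g, cj_Cx] at bU
        have := (d.three.trans bU).trans (card_dvd_of_le fun c hc =>
          d.Cx_H h3 (hg (conj_mem_cj g (mem_zpowers b))) (by simpa using b1) (mem_Cx.1 hc))
        rw [d.card_T] at this
        have := d.h3
        omega
      · have h4 := bU.trans (d.card_Cx_m h3 f hs.1.1 hs.1.2 bs bo)
        obtain ⟨k, hk⟩ := d.exists_pow
        have h5 : 3 ^ 2 ∣ 2 * h + 1 := by
          rw [hk]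
          refine pow_dvd_pow _ ?_
          by_contra f
          have := d.big
          have : 3 ^ k ≤ 3 ^ 1 := Nat.pow_le_pow_right (by norm_num) (by omega)
          omega
        have := h5.trans h4
        have := d.m3
        omega
  have c2 := Set.ncard_sdiff_singleton_add_one (show t ∈ I ∩ Cz(U) from ⟨⟨d.t2, d.t1⟩, d.t_Cz d.UK⟩)
  have c3 := Set.ncard_sdiff_add_ncard_of_subset (Set.inter_subset_left (s := I) (t := Cz(U)))
  have c4 : (I \ (I ∩ Cz(U))).ncard ≠ 0 := Set.ncard_ne_zero_of_mem (show u ∈ _ from ⟨⟨d.u2, d.u1⟩, fun f =>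
    d.u1 (eq_one_of_sq_of_odd d.u2 (d.odd_U (d.CUK hx x1 d.uK (mem_Cx.1 (Cz_le_Cx hx f.2)))))⟩)
  rw [he, d.card_T] at c2
  rw [hj] at c3 c4
  refine ⟨e, j, fun f => c4 (by rw [f, mul_zero]), ?_⟩
  rw [← d.ncard_I, ← c3, ← c2, show Nat.card (pPrimeCoreOf 2 Cz(U)) = (2 * h * e + 1) * (2 * h + 1) from
    Nat.eq_of_mul_eq_mul_left two_pos (by rw [← c1, ← c2]; ring)]
  ring

end RT

end CfH1
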