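import Cfsg.Agent.OD.Pre
import Cfsg.Agent.H9.RankOne
import Cfsg.Agent.H1.PGrp
import Cfsg.Agent.H3.SmallGroups
import Cfsg.Prelude.Def_CaseTheorems
/-! A `2`-group with a self-centralizing four-group is dihedral or semidihedral. -/
set_option autoImplicit false
namespace CfH1
open Subgroup CfH9 Cfsg
open scoped commutatorElement

theorem tml {G : Type*} [Group G] [Finite G] {A B : Subgroup G} (h : A < B) : 2 * Nat.card A ≤ Nat.card B := by
  obtain ⟨k, e⟩ := card_dvd_of_le h.le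
  have : k ≠ 1 := fun c => h.ne (eq_of_le_of_card_ge h.le (by rw [e, c, mul_one]))
  have : k ≠ 0 := fun c => Nat.card_pos.ne' (by rw [e, c, mul_zero] : Nat.card B = 0)
  rw [e, mul_comm]
  exact Nat.mul_le_mul_left _ (by omega)

theorem suz_inv {P : Type*} [Group P] [Finite P] (hP : IsPGroup 2 P) {u : P} (u2 : u * u = 1) (u1 : u ≠ 1)
    (c4 : Nat.card Cx(u) ≤ 4) (big : 16 ≤ Nat.card P) :
    (∃ m, Nonempty (P ≃* DihedralGroup m)) ∨ IsQuasiDihedral P := by
  classical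
  haveI := Fintype.ofFinite P
  have hT : IsPGroup 2 (⊤ : Subgroup P) := hP.to_subgroup _
  have cs : ∀ X : Subgroup P, Nat.card X = (Finset.univ.filter (· ∈ X)).card := fun X => by
    rw [Nat.card_eq_fintype_card, Fintype.card_subtype]
  obtain ⟨F, f2, f3, h1⟩ : ∃ F : Subgroup P, ⁅(⊤ : Subgroup P), ⊤⁆ ≤ F ∧ (∀ g, g ^ 2 ∈ F) ∧ 4 * Nat.card F ≤ Nat.card P := by
    obtain ⟨x, x1, x2⟩ := SetLike.exists_of_lt (Phi_lt (P := (⊤ : Subgroup P)) fun e => u1 (mem_bot.1 (e ▸ mem_top u)))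
    have a := tml (show Phi ⊤ < Phi ⊤ ⊔ zpowers x from
      lt_of_le_of_ne le_sup_left fun e => x2 (e.ge (mem_sup_right (mem_zpowers x))))
    have b := tml (lt_of_le_of_ne (le_top (a := Phi ⊤ ⊔ zpowers x)) fun e => by
      have : Cx(u) = ⊤ := eq_top_iff.2 (by
        rw [← eq_of_Phi_sup e, zpowers_le, mem_Cx]
        obtain ⟨n, rfl⟩ := (eq_of_Phi_sup e).ge (mem_top u)
        exact (Commute.self_zpow x n))
      rw [this, card_top] at c4
      omega)
    rw [card_top] at b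
    exact ⟨_, comm_le_Phi hT, fun g => pow_mem_Phi hT (mem_top g), by omega⟩
  have h2 := Finset.card_le_mul_card_image (f := fun g => ⁅g, u⁆) Finset.univ 4 fun a ha => by
    obtain ⟨g, hg, rfl⟩ := Finset.mem_image.1 ha
    refine le_trans ?_ ((cs _).symm.trans_le c4)
    refine Finset.card_le_card_of_injOn (g⁻¹ * ·) (fun y hy => ?_) (mul_right_injective _).injOn
    simp only [Finset.coe_filter, Finset.mem_univ, true_and, Set.mem_ofPred_eq,
      commutatorElement_def, mul_left_inj] at hy ⊢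
    refine mem_Cx'.2 ?_
    rw [mul_inv_rev, mul_assoc g⁻¹, mul_assoc g⁻¹, ← mul_assoc (y * u), hy]; group
  have h3 : Finset.univ.image (fun g => ⁅g, u⁆) ⊆ Finset.univ.filter (· ∈ F) := fun a ha => by
    obtain ⟨g, hg, rfl⟩ := Finset.mem_image.1 ha
    exact Finset.mem_filter.2 ⟨Finset.mem_univ _, f2 (commutator_mem_commutator (mem_top _) (mem_top _))⟩
  have h4 := Finset.card_le_card h3
  rw [← cs] at h4
  rw [Finset.card_univ, ← Nat.card_eq_fintype_card] at h2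
  have h5 : ∀ c ∈ F, ∃ g, g * u * g⁻¹ = c * u := fun c hc => by
    obtain ⟨g, -, e⟩ := Finset.mem_image.1 ((Finset.eq_of_subset_of_card_le h3 (by rw [← cs]; omega)).ge
      (Finset.mem_filter.2 ⟨Finset.mem_univ c, hc⟩))
    exact ⟨g, by rw [← e, commutatorElement_def, inv_mul_cancel_right]⟩
  have h6 : ∀ c ∈ F, u * c * u = c⁻¹ := fun c hc => by
    obtain ⟨g, e⟩ := h5 c hc
    have : c * u * (c * u) = 1 := by rw [← e, conj_mul, u2]; simp
    exact eq_inv_of_mul_eq_one_right (by simpa only [mul_assoc] using this)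
  have h7 : ∀ a ∈ F, ∀ b ∈ F, a * b = b * a := fun a ha b hb => by
    rw [← inv_inj, ← h6 _ (mul_mem ha hb), mul_inv_rev, ← h6 a ha, ← h6 b hb]
    simp only [mul_assoc, ← mul_assoc u u, u2, one_mul]
  have h8 : 2 * Nat.card (F ⊓ Cx(u) : Subgroup P) ≤ 4 := (tml (lt_of_le_of_ne inf_le_right fun e => by
    obtain ⟨g, e'⟩ := h5 u (e.ge (mem_Cx.2 rfl)).1
    rw [u2] at e'
    exact u1 (by simpa using e'))).trans c4
  have cy : IsCyclic F := by
    by_contra n
    obtain ⟨x, hx, y, hy, x2, y2, xy⟩ := exists_pair_of_not_isCyclic (p := 2) (hP.to_subgroup F)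
      ⟨⟨fun a b => Subtype.ext (h7 _ a.2 _ b.2)⟩⟩ n
    have k : ∀ a ∈ F, a ^ 2 = 1 → a ∈ F ⊓ Cx(u) := fun a ha a2 => ⟨ha, mem_Cx.2 (by
      have := h6 a ha
      rw [inv_eq_of_mul_eq_one_right ((sq a).symm.trans a2)] at this
      rw [← mul_left_inj u, this, mul_assoc, u2, mul_one])⟩
    have := tml (lt_of_le_of_ne (zpowers_le.2 (k y hy (y2 ▸ pow_orderOf_eq_one y))) fun e => xy (e.ge (k x hx x2)))
    rw [Nat.card_zpowers, y2] at this
    omega
  obtain ⟨c, hc⟩ := (Subgroup.isCyclic_iff_exists_zpowers_eq_top F).1 cy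
  have cF : c ∈ F := hc.le (mem_zpowers c)
  obtain ⟨n, hn⟩ := IsPGroup.iff_card.1 hP
  obtain ⟨m, rfl⟩ : ∃ m, n = m + 4 := ⟨n - 4, by
    have : 4 ≤ n := (Nat.pow_le_pow_iff_right (a := 2) (by decide)).1 (hn ▸ big)
    omega⟩
  have oc : orderOf c = 2 ^ (m + 2) := by
    rw [← Nat.card_zpowers, hc]
    have : 2 ^ (m + 4) = 4 * 2 ^ (m + 2) := by ring
    omega
  have four : ∀ g, g * u * g⁻¹ = c * u → u * g * u = c⁻¹ * g ∧ g ^ 4 = g * c * g⁻¹ * c := fun g e => by
    have a : u * g * u = c⁻¹ * g := by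
      rw [eq_inv_mul_iff_mul_eq, ← mul_assoc, ← mul_assoc, ← e]
      simp [mul_assoc, u2]
    have b := h6 _ (f3 g)
    rw [show u * g ^ 2 * u = u * g * (u * u) * g * u by simp [u2, sq, mul_assoc], show u * g * (u * u) * g * u =
      u * g * u * (u * g * u) by group, a] at b
    refine ⟨a, ?_⟩
    calc _ = g * c * g⁻¹ * (g * c⁻¹ * g * g ^ 2) := by group
      _ = g * c * g⁻¹ * (c * (c⁻¹ * g * (c⁻¹ * g) * g ^ 2)) := by group
      _ = _ := by rw [b]; group
  obtain ⟨g, e, j, hj⟩ : ∃ g, g * u * g⁻¹ = c * u ∧ ∃ j : ℤ, g ^ 4 = c ^ (2 * (2 * j + 1)) := by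
    obtain ⟨g, e⟩ := h5 c cF
    obtain ⟨k, hk⟩ : g * c * g⁻¹ ∈ zpowers c := hc.ge (by
      simpa [commutatorElement_def] using mul_mem (f2 (commutator_mem_commutator (mem_top g) (mem_top c))) cF)
    replace hk : c ^ k = g * c * g⁻¹ := hk
    have e' : g * u * u * (g * u)⁻¹ = c * u := by rw [← e]; group
    obtain ⟨i, rfl | rfl | rfl | rfl⟩ : ∃ i, k = 2 * (2 * i) ∨ k = 2 * (2 * i + 1) ∨ k = 4 * i + 1 ∨ k = 4 * i + 3 :=
      ⟨k / 4, by omega⟩
    iterate 2
      refine absurd (orderOf_dvd_of_pow_eq_one (x := c) (n := 2 ^ (m + 1)) ?_) (by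
        rw [oc]; exact fun a => absurd (Nat.le_of_dvd (by positivity) a) (by simp [pow_succ]))
      rw [← conj_eq_one_iff (a := g), ← conj_pow, ← hk, ← zpow_natCast, ← zpow_mul, mul_right_comm, zpow_mul,
        show (2 : ℤ) * (2 ^ (m + 1) : ℕ) = (2 ^ (m + 2) : ℕ) by push_cast; ring, zpow_natCast, ← oc, pow_orderOf_eq_one,
        one_zpow]
    · exact ⟨g, e, i, by rw [(four g e).2, ← hk]; group⟩
    · refine ⟨g * u, e', -i - 1, ?_⟩
      rw [(four _ e').2, show g * u * c * (g * u)⁻¹ = g * (u * c * u⁻¹) * g⁻¹ by group, inv_eq_of_mul_eq_one_right u2,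
        h6 c cF, ← conj_inv, ← hk]
      group
  have g1 : g ^ 2 ^ (m + 2) ≠ 1 := fun a => by
    rw [show 2 ^ (m + 2) = 4 * 2 ^ m by ring, pow_mul, hj, ← zpow_natCast, ← zpow_mul, ← orderOf_dvd_iff_zpow_eq_one, oc] at a
    obtain ⟨t, a⟩ := a
    push_cast at a
    have : (2 : ℤ) ^ (m + 1) * (2 * j + 1) = 2 ^ (m + 1) * (2 * t) := by linear_combination a
    have := mul_left_cancel₀ (by positivity) this
    omega
  have og : orderOf g = 2 ^ (m + 3) := orderOf_eq_prime_pow g1 (by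
    rw [show 2 ^ (m + 2 + 1) = 4 * 2 ^ (m + 1) by ring, pow_mul, hj, ← zpow_natCast, ← zpow_mul, mul_right_comm, zpow_mul,
      show (2 : ℤ) * (2 ^ (m + 1) : ℕ) = (2 ^ (m + 2) : ℕ) by push_cast; ring, zpow_natCast, ← oc, pow_orderOf_eq_one,
      one_zpow])
  have ix : (zpowers g).index = 2 := by
    have := (zpowers g).card_mul_index
    rw [Nat.card_zpowers, og, hn, pow_succ 2 (m + 3)] at this
    exact Nat.eq_of_mul_eq_mul_left (by positivity) this
  have ui := inv_eq_of_mul_eq_one_right u2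
  have m1 : u * g * u ∈ zpowers g := by
    simpa [ui] using (normal_of_index_eq_two ix).conj_mem g (mem_zpowers g) u
  obtain ⟨i, hi⟩ := mul_mem m1 (mem_zpowers g)
  replace hi : g ^ i = u * g * u * g := hi
  have s : g ^ (2 * i) = 1 := by
    have c1 : g * (u * g * u) = u * g * u * g := by
      obtain ⟨t, ht⟩ := m1
      exact ht ▸ Commute.self_zpow g t
    rw [mul_comm, zpow_mul, hi, zpow_two]
    calc _ = u * g * u * (g * (u * g * u)) * g := by group
      _ = u * g * (u * u) * g * u * g * g := by rw [c1]; group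
      _ = u * g ^ 2 * u * g ^ 2 := by simp [u2, sq, mul_assoc]
      _ = 1 := by rw [h6 _ (f3 g), inv_mul_cancel]
  rw [← orderOf_dvd_iff_zpow_eq_one, og] at s
  obtain ⟨t, s⟩ := s
  obtain rfl : i = (2 ^ (m + 2) : ℕ) * t := mul_left_cancel₀ two_ne_zero (by push_cast at s ⊢; linear_combination s)
  have z2 : (g ^ 2 ^ (m + 2)) ^ (2 : ℤ) = 1 := by
    rw [zpow_two, ← pow_add, ← two_mul, ← pow_succ', ← og, pow_orderOf_eq_one]
  rw [zpow_mul, zpow_natCast] at hi
  obtain ⟨r, rfl | rfl⟩ := t.even_or_odd'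
  · rw [zpow_mul, z2, one_zpow] at hi
    refine Or.inl ⟨_, CfH3.equiv_dihedral _ inferInstance ix fun x hx => ?_⟩
    have uX : u ∉ zpowers g := fun ⟨t, ht⟩ => by
      have : g * u = u * g := ht ▸ Commute.self_zpow g t
      rw [this, mul_inv_cancel_right, right_eq_mul] at e
      rw [e, orderOf_one] at oc
      exact absurd oc (by rw [pow_succ]; omega)
    obtain ⟨t, ht⟩ := (mul_mem_iff_of_index_two ix).2 (iff_of_false uX hx)
    replace ht : g ^ t = u * x := ht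
    have : u * g * u⁻¹ = g⁻¹ := by rw [ui]; exact eq_inv_of_mul_eq_one_left hi.symm
    rw [show x = u * g ^ t by rw [ht, ← mul_assoc, u2, one_mul]]
    calc _ = (u * g * u⁻¹) ^ t * (u * u) * g ^ t := by rw [conj_zpow]; group
      _ = 1 := by rw [this, u2]; group
  · rw [zpow_add, zpow_mul, z2, one_zpow, one_mul, zpow_one] at hi
    refine Or.inr ⟨m + 3, by omega, hn, g, u, og, orderOf_eq_prime ((sq u).trans u2) u1, ?_⟩
    rw [ui, ← mul_left_inj g, ← hi, ← pow_succ, Nat.sub_add_cancel Nat.one_le_two_pow]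
    rfl

theorem suz_four {G : Type*} [Group G] [Finite G] {T Q : Subgroup G} (hT : IsPGroup 2 T) (QT : Q ≤ T)
    (eQ : IsElementaryAbelian 2 Q) (c : Nat.card Q = 4) (h : T ⊓ centralizer (Q : Set G) ≤ Q) :
    (∃ m, Nonempty (T ≃* DihedralGroup m)) ∨ IsQuasiDihedral T ∨ Nat.card T ≤ 2 ^ 10 := by
  by_cases big : Nat.card T ≤ 2 ^ 10
  · exact Or.inr (Or.inr big)
  have : Nontrivial T := Finite.one_lt_card_iff_nontrivial.1 (by omega)
  have := hT.center_nontrivial
  obtain ⟨z, hz⟩ := exists_ne (1 : center T)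
  have zc : ∀ g ∈ T, g * z.1.1 = z.1.1 * g := fun g hg => congrArg Subtype.val (mem_center_iff.1 z.2 ⟨g, hg⟩)
  have zQ : z.1.1 ∈ Q := h ⟨z.1.2, fun g hg => zc g (QT hg)⟩
  have z1 : z.1.1 ≠ 1 := fun e => hz (Subtype.ext (Subtype.ext e))
  have cz : Nat.card (zpowers z.1.1) = 2 := by rw [Nat.card_zpowers, orderOf_eq_prime (eQ.2 _ zQ) z1]
  obtain ⟨u, hu, u1⟩ := SetLike.exists_of_lt (lt_of_le_of_ne (zpowers_le.2 zQ) fun e => by rw [e] at cz; omega)
  have e : zpowers z.1.1 ⊔ zpowers u = Q := eq_of_le_of_card_ge (sup_le (zpowers_le.2 zQ) (zpowers_le.2 hu)) (by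
    have := tml (lt_of_le_of_ne (le_sup_left (b := zpowers u)) fun e => u1 (e.ge (mem_sup_right (mem_zpowers u))))
    omega)
  refine (suz_inv hT (u := ⟨u, QT hu⟩) (Subtype.ext ((sq u).symm.trans (eQ.2 u hu)))
    (fun a => u1 (by rw [show u = 1 from congrArg Subtype.val a]; exact one_mem _)) ?_ (by omega)).imp_right Or.inl
  rw [← c, ← card_map_of_injective (subtype_injective T)]
  refine card_le_of_le ?_
  rintro _ ⟨g, hg, rfl⟩
  refine h ⟨g.2, (le_centralizer_iff (H := Q) (K := zpowers g.1)).1 ?_ (mem_zpowers _)⟩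
  rw [← e, Cz_zpowers]
  exact sup_le (zpowers_le.2 (mem_Cx.2 (zc g g.2).symm)) (zpowers_le.2 (mem_Cx.2 (congrArg Subtype.val (mem_Cx.1 hg)).symm))
end CfH1
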