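import Cfsg.Agent.H1.Ree1
import Cfsg.Agent.H3.MobAbs
import Cfsg.Agent.H5.Zass
import Cfsg.Agent.L.Cnt

/-! A TI-subgroup `M` inverted by an involution, in a group with more than `|G : M|` involutions. -/

set_option autoImplicit false
set_option linter.unusedSectionVars false

namespace CfH1

open Cfsg Subgroup CfH9 CfH7 CfH8
open scoped Pointwise commutatorElement

variable {G : Type*} [Group G]

structure TD (M : Subgroup G) (z : G) : Prop where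
  ne : M ≠ ⊥
  ti : ∀ x ∈ M, x ≠ 1 → ∀ g, g * x * g⁻¹ ∈ M → g ∈ Nm(M)
  z2 : z * z = 1
  z1 : z ≠ 1
  zN : z ∈ Nm(M)
  fac : ∀ h ∈ Nm(M), ∃ x ∈ M, ∃ e ∈ Nm(M) ⊓ Cx(z), h = x * e
  odd : ∀ x ∈ M, x ≠ 1 → ∀ c, c * x = x * c → Odd (orderOf c)
  nn : ∃ g, g ∉ Nm(M)
  big : M.index < {s : G | s * s = 1 ∧ s ≠ 1}.ncard

namespace TD
variable [Finite G] {M : Subgroup G} {z : G} (d : TD M z)
include d

theorem oM {x : G} (hx : x ∈ M) : Odd (orderOf x) := by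
  by_cases h : x = 1
  · simp [h]
  · exact d.odd x hx h x rfl

theorem sq {x : G} (hx : x ∈ M) (h : x * x = 1) : x = 1 := eq_one_of_sq_of_odd h (d.oM hx)

theorem zi : z⁻¹ = z := inv_eq_of_mul_eq_one_right d.z2

theorem inv {w x : G} (hw : w ∈ Nm(M)) (w2 : w * w = 1) (w1 : w ≠ 1) (hx : x ∈ M) : w * x * w⁻¹ = x⁻¹ :=
  inverts_of_fpf w2 hw (eq_bot_iff.2 fun y hy => by_contra fun y1 =>
    w1 (eq_one_of_sq_of_odd w2 (d.odd y hy.1 y1 w (mem_Cx.1 hy.2).symm))) hx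

theorem zinv {x : G} (hx : x ∈ M) : z * x * z⁻¹ = x⁻¹ := d.inv d.zN d.z2 d.z1 hx

theorem comm : IsMulCommutative M := comm_of_inverts fun _ => d.zinv

theorem MD {x : G} (hx : x ∈ M) (h : x ∈ Cx(z)) : x = 1 := by
  have := d.zinv hx
  rw [← mem_Cx.1 h, mul_inv_cancel_right] at this
  exact d.sq hx (mul_eq_one_iff_eq_inv.2 this)

theorem M_le : M ≤ Nm(M) := le_normalizer

theorem M_ne : ∃ x ∈ M, x ≠ 1 := exists_ne_one_of_ne_bot d.ne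

theorem uniq_D {e : G} (he : e ∈ Nm(M) ⊓ Cx(z)) (e2 : e * e = 1) (e1 : e ≠ 1) : e = z := by
  obtain ⟨x, hx, x1⟩ := d.M_ne
  have := eq_one_of_sq_of_odd (s := e * z) (by rw [mul_assoc, ← mul_assoc z, ← mem_Cx.1 he.2, mul_assoc, d.z2, mul_one, e2])
    (d.odd x hx x1 _ (by
      rw [← mul_inv_eq_iff_eq_mul, show e * z * x * (e * z)⁻¹ = e * (z * x * z⁻¹) * e⁻¹ by group, d.zinv hx,
        d.inv he.1 e2 e1 (inv_mem hx), inv_inv]))
  rw [eq_inv_of_mul_eq_one_left this, d.zi]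

theorem invol_H {w : G} (hw : w ∈ Nm(M)) (w2 : w * w = 1) (w1 : w ≠ 1) : w * z ∈ M := by
  obtain ⟨x, hx, e, he, e1⟩ := d.fac w hw
  obtain rfl : e = x⁻¹ * w := by rw [e1]; group
  rw [← d.uniq_D he (calc
      _ = x⁻¹ * (w * x⁻¹ * w⁻¹) * (w * w) := by group
      _ = 1 := by rw [d.inv hw w2 w1 (inv_mem hx), w2]; group)
    fun f => w1 (d.sq (inv_mul_eq_one.1 f ▸ hx) w2)]
  have := d.inv hw w2 w1 (inv_mem hx)
  rw [inv_eq_of_mul_eq_one_right w2, mul_assoc] at this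
  exact this ▸ inv_mem (inv_mem hx)

theorem conj_z {w : G} (hw : w ∈ Nm(M)) (w2 : w * w = 1) (w1 : w ≠ 1) : ∃ y ∈ M, y⁻¹ * w * y = z := by
  obtain ⟨y, hy, e⟩ := CfH5.conj_of_odd_mul (w := w) (v := z) (by rw [pow_two, w2]) (by rw [pow_two, d.z2])
    (d.oM (d.invol_H hw w2 w1))
  exact ⟨y, zpowers_le.2 (d.invol_H hw w2 w1) hy, e⟩

theorem xz {x : G} (hx : x ∈ M) : x * z * (x * z) = 1 ∧ x * z ≠ 1 := by
  refine ⟨?_, fun e => d.z1 (d.sq (eq_inv_of_mul_eq_one_right e ▸ inv_mem hx) d.z2)⟩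
  have := d.zinv hx
  rw [d.zi] at this
  rw [mul_assoc, ← mul_assoc z, this, mul_inv_cancel]

theorem ncard_IH : ({s : G | s * s = 1 ∧ s ≠ 1} ∩ Nm(M)).ncard = Nat.card M := by
  rw [← SetLike.coe_sort_coe, Nat.card_coe_set_eq, ← Set.ncard_image_of_injective (M : Set G) (mul_left_injective z)]
  congr 1
  ext w
  refine ⟨fun hw => ⟨w * z, d.invol_H hw.2 hw.1.1 hw.1.2, by simp [mul_assoc, d.z2]⟩, ?_⟩
  rintro ⟨x, hx, rfl⟩
  exact ⟨d.xz hx, mul_mem (d.M_le hx) d.zN⟩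

theorem uniq {s x : G} (hs : s ∉ Nm(M)) (s2 : s * s = 1) (hx : x ∈ M) (h : s * x * (s * x) = 1) : x = 1 := by
  refine by_contra fun x1 => hs (d.ti x hx x1 s ?_)
  rw [inv_eq_of_mul_eq_one_right s2, eq_inv_of_mul_eq_one_left (show s * x * s * x = 1 by rwa [mul_assoc])]
  exact inv_mem hx

theorem uniq' {s s' : G} (hs : s ∉ Nm(M)) (s2 : s * s = 1) (s2' : s' * s' = 1) (h : s⁻¹ * s' ∈ M) : s = s' := by
  have := d.uniq hs s2 h (by rwa [mul_inv_cancel_left])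
  exact inv_mul_eq_one.1 this

theorem exists_inv {g : G} (hg : g ∉ Nm(M)) : ∃ s, s * s = 1 ∧ ∃ x ∈ M, g = s * x := by
  set I := {s : G | s * s = 1 ∧ s ≠ 1}
  let S : Set (G ⧸ M) := {q | ∃ g : G, g ∉ Nm(M) ∧ (g : G ⧸ M) = q} \ (↑) '' (I \ Nm(M))
  have h1 := CfH3.card_dvd_ncard_of_free M S (by
    rintro a ha _ ⟨⟨g, hg, rfl⟩, h⟩
    refine ⟨⟨a * g, fun f => hg ((mul_mem_cancel_left (d.M_le ha)).1 f), rfl⟩, ?_⟩
    rintro ⟨s, ⟨⟨s2, s1⟩, hs⟩, e⟩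
    refine h ⟨a⁻¹ * s * a, ⟨⟨by rw [← inv_inv a, inv_inv a⁻¹, conj_mul, s2]; simp, by
      rw [← inv_inv a, inv_inv a⁻¹]; exact fun f => s1 (conj_eq_one_iff.1 f)⟩, fun f => hs ?_⟩, ?_⟩
    · exact (mul_mem_cancel_left (inv_mem (d.M_le ha))).1 ((mul_mem_cancel_right (d.M_le ha)).1 f)
    · rw [QuotientGroup.mk_mul_of_mem _ ha, ← smul_left_cancel_iff a, ← e]
      simp) (by
    rintro a ha _ ⟨⟨g, hg, rfl⟩, -⟩ e
    refine by_contra fun a1 => hg (inv_mem_iff.1 (d.ti a⁻¹ (inv_mem ha) (inv_ne_one.2 a1) g⁻¹ ?_))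
    simpa using QuotientGroup.eq.1 e)
  have h2 : S.ncard + (I \ Nm(M)).ncard ≤ M.index := by
    rw [← Set.InjOn.ncard_image (f := ((↑) : G → G ⧸ M)) fun s hs s' hs' e =>
      d.uniq' hs.2 hs.1.1 hs'.1.1 (QuotientGroup.eq.1 e), ← Set.ncard_union_eq Set.disjoint_sdiff_left,
      index, ← Set.ncard_univ]
    exact Set.ncard_le_ncard (Set.subset_univ _)
  have h3 := Set.ncard_inter_add_ncard_sdiff_eq_ncard I (Nm(M) : Set G)
  have h4 : M.index < I.ncard := d.big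
  rw [d.ncard_IH] at h3
  have h5 := (Set.ncard_eq_zero (Set.toFinite S)).1 (Nat.eq_zero_of_dvd_of_lt h1 (by omega))
  obtain ⟨s, hs, e⟩ := Set.sdiff_eq_empty.1 h5 ⟨g, hg, rfl⟩
  exact ⟨s, hs.1.1, s⁻¹ * g, QuotientGroup.eq.1 e, by simp⟩

theorem card_I : {s : G | s * s = 1 ∧ s ≠ 1}.ncard * Nat.card M + Nat.card Nm(M) =
    Nat.card M * Nat.card M + Nat.card G := by
  set I := {s : G | s * s = 1 ∧ s ≠ 1}
  have h1 : Nat.card (↥(I \ Nm(M)) × M) = Nat.card ((Nm(M) : Set G)ᶜ : Set G) :=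
    Nat.card_eq_of_bijective (fun p => ⟨p.1 * p.2, fun f => p.1.2.2 ((mul_mem_cancel_right (d.M_le p.2.2)).1 f)⟩)
      ⟨fun ⟨⟨s, hs⟩, x, hx⟩ ⟨⟨s', hs'⟩, x', hx'⟩ e => by
        simp only [Subtype.mk.injEq] at e
        obtain rfl := d.uniq' hs.2 hs.1.1 hs'.1.1 (by
          rw [show s' = s * x * x'⁻¹ by rw [e]; simp]; simpa [mul_assoc] using mul_mem hx (inv_mem hx'))
        simpa using e, fun ⟨g, hg⟩ => by
        obtain ⟨s, s2, x, hx, rfl⟩ := d.exists_inv hg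
        have hs : s ∉ Nm(M) := fun f => hg (mul_mem f (d.M_le hx))
        exact ⟨(⟨s, ⟨s2, fun f => hs (f ▸ one_mem _)⟩, hs⟩, ⟨x, hx⟩), rfl⟩⟩
  have h3 := Set.ncard_inter_add_ncard_sdiff_eq_ncard I (Nm(M) : Set G)
  have h4 := Set.ncard_add_ncard_compl (Nm(M) : Set G)
  rw [Nat.card_prod, Nat.card_coe_set_eq, Nat.card_coe_set_eq] at h1
  rw [d.ncard_IH] at h3
  rw [← Nat.card_coe_set_eq, SetLike.coe_sort_coe] at h4
  rw [← h3, ← h4, ← h1]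
  ring

theorem sq_C {c : G} (hc : c ∈ Cx(z)) (hn : c ∉ Nm(M)) : c * c = 1 := by
  obtain ⟨s, s2, x, hx, rfl⟩ := d.exists_inv hn
  have hs : s ∉ Nm(M) := fun f => hn (mul_mem f (d.M_le hx))
  have h1 : z * s * z⁻¹ = s * (x * x) := by
    have := mem_Cx_comm' hc
    rw [← conj_mul, d.zinv hx] at this
    rw [← mul_assoc, ← this]; simp
  have := d.uniq hs s2 (mul_mem hx hx) (by rw [← h1, conj_mul, s2]; simp)
  rw [d.sq hx this, mul_one, s2]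
where mem_Cx_comm' {c : G} (hc : c ∈ Cx(z)) : z * c * z⁻¹ = c := by rw [← mem_Cx.1 hc, mul_inv_cancel_right]

theorem inv_D {c e : G} (hc : c ∈ Cx(z)) (hn : c ∉ Nm(M)) (he : e ∈ Nm(M) ⊓ Cx(z)) : c * e * c⁻¹ = e⁻¹ := by
  rw [inv_eq_of_mul_eq_one_right (d.sq_C hc hn)]
  exact eq_inv_of_mul_eq_one_left (by
    simpa only [mul_assoc] using d.sq_C (mul_mem hc he.2) fun f => hn (((Nm(M)).mul_mem_cancel_right he.1).1 f))

theorem inj3 {a b c c' : G} (ha : a ∈ M) (hb : b ∈ M) (hc : c ∈ Cx(z)) (hc' : c' ∈ Cx(z)) (hn : c' ∉ Nm(M))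
    (e : c = a * c' * b) : a = 1 ∧ b = 1 := by
  have h1 : a * c' * b = a⁻¹ * c' * b⁻¹ := by
    rw [← d.zinv ha, ← d.zinv hb, ← sq_C.mem_Cx_comm' hc', conj_mul, conj_mul, sq_C.mem_Cx_comm' hc', ← e,
      sq_C.mem_Cx_comm' hc]
  have h2 : c'⁻¹ * (a * a) * c'⁻¹⁻¹ = b⁻¹ * b⁻¹ := by
    calc _ = c'⁻¹ * a * (a * c' * b) * b⁻¹ := by group
      _ = _ := by rw [h1]; group
  have h3 : a = 1 := d.sq ha (by_contra fun f => hn (inv_mem_iff.1 (d.ti _ (mul_mem ha ha) f _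
    (h2 ▸ mul_mem (inv_mem hb) (inv_mem hb)))))
  refine ⟨h3, d.sq hb ?_⟩
  simpa [h3, ← eq_inv_iff_mul_eq_one] using h1

theorem surj3 {g : G} (hg : g ∉ Nm(M)) : ∃ x ∈ M, ∃ c ∈ Cx(z), c ∉ Nm(M) ∧ ∃ y ∈ M, g = x * c * y := by
  obtain ⟨s, s2, x, hx, rfl⟩ := d.exists_inv hg
  have hs : s ∉ Nm(M) := fun f => hg (mul_mem f (d.M_le hx))
  obtain ⟨s', s2', a, ha, e⟩ := d.exists_inv (g := s * z) fun f => hs ((mul_mem_cancel_right d.zN).1 f)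
  obtain rfl : s' = s * (z * a⁻¹) := by rw [← mul_assoc, e]; simp
  have j2 : z * a⁻¹ * (z * a⁻¹) = 1 := by
    rw [← mul_assoc]
    nth_rw 2 [← d.zi]
    rw [d.zinv (inv_mem ha)]; simp
  obtain ⟨y, hy, e1⟩ := d.conj_z (mul_mem d.zN (inv_mem (d.M_le ha))) j2 fun f =>
    d.z1 (d.sq (mul_inv_eq_one.1 f ▸ ha) d.z2)
  refine ⟨y, hy, y⁻¹ * s * y, mem_Cx.2 ?_, fun f => hs ?_, y⁻¹ * x, mul_mem (inv_mem hy) hx, by group⟩
  · have : s * (z * a⁻¹) = z * a⁻¹ * s := by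
      rw [← inv_eq_of_mul_eq_one_right s2', mul_inv_rev, inv_eq_of_mul_eq_one_right j2, inv_eq_of_mul_eq_one_right s2]
    rw [← e1]
    calc _ = y⁻¹ * (s * (z * a⁻¹)) * y := by group
      _ = _ := by rw [this]; group
  · exact (mul_mem_cancel_left (inv_mem (d.M_le hy))).1 ((mul_mem_cancel_right (d.M_le hy)).1 f)

theorem exists_c : ∃ c ∈ Cx(z), c ∉ Nm(M) := by
  obtain ⟨g, hg⟩ := d.nn
  obtain ⟨-, -, c, hc, hn, -⟩ := d.surj3 hg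
  exact ⟨c, hc, hn⟩

theorem D_comm : IsMulCommutative (Nm(M) ⊓ Cx(z) : Subgroup G) := by
  obtain ⟨c, hc, hn⟩ := d.exists_c
  exact comm_of_inverts fun e he => d.inv_D hc hn he

theorem card_H : Nat.card Nm(M) = Nat.card M * Nat.card (Nm(M) ⊓ Cx(z) : Subgroup G) := by
  have := CfH9.card_sup_mul_card_inf (A := Nm(M) ⊓ Cx(z)) (B := M) inf_le_left
  rw [show Nm(M) ⊓ Cx(z) ⊓ M = ⊥ from eq_bot_iff.2 fun x hx => d.MD hx.2 hx.1.2, card_bot, mul_one,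
    show Nm(M) ⊓ Cx(z) ⊔ M = Nm(M) from le_antisymm (sup_le inf_le_left d.M_le) fun h hh => by
      obtain ⟨x, hx, e, he, rfl⟩ := d.fac h hh
      exact mul_mem (mem_sup_right hx) (mem_sup_left he)] at this
  rw [this, mul_comm]

theorem card_G : Nat.card G + Nat.card M * Nat.card M * Nat.card (Nm(M) ⊓ Cx(z) : Subgroup G) =
    Nat.card Nm(M) + Nat.card M * Nat.card M * Nat.card Cx(z) := by
  have h1 : Nat.card (M × M × ↥((Cx(z) : Set G) \ Nm(M))) = Nat.card ((Nm(M) : Set G)ᶜ : Set G) :=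
    Nat.card_eq_of_bijective (fun p => ⟨p.1 * p.2.2 * p.2.1, fun f => p.2.2.2.2
      ((mul_mem_cancel_left (d.M_le p.1.2)).1 ((mul_mem_cancel_right (d.M_le p.2.1.2)).1 f))⟩)
      ⟨fun ⟨⟨x, hx⟩, ⟨y, hy⟩, c, hc⟩ ⟨⟨x', hx'⟩, ⟨y', hy'⟩, c', hc'⟩ e => by
        simp only [Subtype.mk.injEq] at e
        obtain ⟨e1, e2⟩ := d.inj3 (mul_mem (inv_mem hx) hx') (mul_mem hy' (inv_mem hy)) hc.1 hc'.1 hc'.2 (by
          calc c = x⁻¹ * (x * c * y) * y⁻¹ := by group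
            _ = _ := by rw [e]; group)
        obtain rfl := inv_mul_eq_one.1 e1
        obtain rfl := mul_inv_eq_one.1 e2
        simpa using e, fun ⟨g, hg⟩ => by
        obtain ⟨x, hx, c, hc, hn, y, hy, rfl⟩ := d.surj3 hg
        exact ⟨(⟨x, hx⟩, ⟨y, hy⟩, ⟨c, hc, hn⟩), rfl⟩⟩
  have h3 := Set.ncard_inter_add_ncard_sdiff_eq_ncard (Cx(z) : Set G) (Nm(M) : Set G)
  have h4 := Set.ncard_add_ncard_compl (Nm(M) : Set G)
  rw [Nat.card_prod, Nat.card_prod, Nat.card_coe_set_eq, Nat.card_coe_set_eq] at h1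
  rw [← Nat.card_coe_set_eq, SetLike.coe_sort_coe] at h4
  rw [Set.inter_comm, ← coe_inf, ← Nat.card_coe_set_eq, ← Nat.card_coe_set_eq (Cx(z) : Set G), SetLike.coe_sort_coe,
    SetLike.coe_sort_coe] at h3
  rw [← h3, ← h4, ← h1]
  ring

theorem class_sub : {b | IsConj z b} ⊆ {s : G | s * s = 1 ∧ s ≠ 1} := fun _ h =>
  ⟨CfL.sq_of_isConj h d.z2, CfL.ne_one_of_isConj h d.z1⟩

theorem one_lt : 1 < Nat.card M := (one_lt_card_iff_ne_bot M).2 d.ne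

theorem odd_M : Odd (Nat.card M) := by
  by_contra h
  obtain ⟨x, hx⟩ := exists_prime_orderOf_dvd_card' (G := M) 2 (even_iff_two_dvd.1 (Nat.not_odd_iff_even.1 h))
  have := d.oM x.2
  rw [orderOf_coe, hx] at this
  exact absurd this (by decide)

/-- `M ∩ H ^ c = 1` -/
theorem eq_one_of_conj {c x : G} (hc : c ∈ Cx(z)) (hn : c ∉ Nm(M)) (hx : x ∈ M) (h : c⁻¹ * x * c ∈ Nm(M)) : x = 1 := by
  obtain ⟨y, hy, e, he, e1⟩ := d.fac _ (inv_mem h)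
  refine (d.inj3 (c := c * e⁻¹) hx hy (mul_mem hc (inv_mem he.2)) hc hn ?_).1
  rw [show y = (c⁻¹ * x * c)⁻¹ * e⁻¹ by rw [e1]; simp]; group

end TD

end CfH1
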