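import Cfsg.Agent.H1.TI1
import Cfsg.Agent.H1.Ree5
import Cfsg.Agent.H3.MobConc
import Cfsg.Agent.H3.SL2Basic
import Cfsg.Agent.BS.A3

/-! The doubly transitive case: `PGL₂(q)` and `PSL₂(q)`. -/

set_option autoImplicit false
set_option linter.unusedSectionVars false

namespace CfH1

open Cfsg Subgroup CfH9 CfH7 CfH8 Matrix OnePoint
open scoped Pointwise commutatorElement MatrixGroups

variable {G : Type*} [Group G]

theorem exists_pgl_embed {X F : Type*} [MulAction G X] [Field F] [DecidableEq F] {pt : OnePoint F → X}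
    (hpt : Function.Injective pt) (S : Subgroup (GL (Fin 2) F)) (faith : ∀ g : G, (∀ x, g • pt x = pt x) → g = 1)
    (rep : ∀ g : G, ∃ γ ∈ S, ∀ x, g • pt x = pt (γ • x)) :
    ∃ Φ : G →* PGL(Fin 2, F), Function.Injective Φ ∧ ∀ g, ∃ γ ∈ S, Φ g = ProjGenLinGroup.mk γ := by
  choose γ h1 h2 using rep
  have h3 : ∀ a b x, γ (a * b) • x = (γ a * γ b) • x := fun a b x => hpt (by rw [← h2, mul_smul, mul_smul, h2, h2])
  refine ⟨MonoidHom.mk' (fun g => ProjGenLinGroup.mk (γ g)) fun a b => ?_, (injective_iff_map_eq_one _).2 fun g hg => ?_,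
    fun g => ⟨_, h1 g, rfl⟩⟩
  · rw [← map_mul]
    exact CfH3.pgl_mk_eq_iff.2 (CfH3.eq_smul_of_agree (h3 _ _ _) (h3 _ _ _) (h3 _ _ _))
  · obtain ⟨c, hc⟩ := CfH3.pgl_mk_eq_one_iff.1 hg
    exact faith g fun x => by rw [h2, CfH3.smul_eq_of_eq_smul (g := 1) hc, one_smul]

structure Co (M D : Subgroup G) {F : Type} [Field F] (u : F → G) (κ : D →* Fˣ) : Prop where
  mem : ∀ a, u a ∈ M
  add : ∀ a b, u (a + b) = u a * u b
  inj : Function.Injective u
  surj : ∀ x ∈ M, ∃ a, u a = x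
  act : ∀ (e : D) a, e * u a * (e : G)⁻¹ = u (κ e * a)

theorem exists_co [Finite G] {M D : Subgroup G} (hM : IsMulCommutative M) (hD : IsMulCommutative D) (hn : D ≤ Nm(M))
    (irr : ∀ U, U ≤ M → D ≤ Nm(U) → U = ⊥ ∨ U = M) {x : G} (hx : x ∈ M) (x1 : x ≠ 1) :
    ∃ (F : Type) (_ : Field F) (_ : Fintype F) (u : F → G) (κ : D →* Fˣ), Co M D u κ ∧ u 1 = x := by
  obtain ⟨F, _, _, b, χ, c⟩ := CfH5.BS.exists_sec' (N := ⊥) (bot_lt_iff_ne_bot.2 (ne_bot_of_mem hx x1))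
    (CfFT.ab_iff_comm.1 hM).le hD (CfFT.le_Nm_bot _) hn fun U _ => irr U
  have bs : b x ≠ 0 := fun e => x1 ((c.ker x hx).1 e)
  have inj : ∀ x ∈ M, ∀ y ∈ M, b x = b y → x = y := fun x hx y hy e => inv_mul_eq_one.1 ((c.eq_iff hx hy).1 e)
  choose u h1 h2 using fun a => c.surj (a * b x)
  refine ⟨F, inferInstance, inferInstance, u, c.hom⁻¹, ⟨h1, fun a a' => inj _ (h1 _) _ (mul_mem (h1 _) (h1 _)) ?_,
    fun a a' e => mul_right_cancel₀ bs (by rw [← h2, e, h2]),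
    fun y hy => ⟨b y / b x, inj _ (h1 _) _ hy (by rw [h2, div_mul_cancel₀ _ bs])⟩,
    fun e a => inj _ (conj_mem_of_mem_normalizer (hn e.2) (h1 _)) _ (h1 _) ?_⟩, inj _ (h1 _) _ hx (by rw [h2, one_mul])⟩
  · rw [c.add _ (h1 _) _ (h1 _), h2, h2, h2, add_mul]
  · rw [c.act' e.2 (h1 _), h2, h2, mul_assoc]; rfl

namespace Co
variable {M D : Subgroup G} {F : Type} [Field F] {u : F → G} {κ : D →* Fˣ} (c : Co M D u κ)
include c

theorem zero : u 0 = 1 := by simpa using (c.add 0 0).symm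

theorem neg (a : F) : u (-a) = (u a)⁻¹ := eq_inv_of_mul_eq_one_left (by rw [← c.add, neg_add_cancel, c.zero])

theorem pow (a : F) (n : ℕ) : u a ^ n = u (n * a) := by
  induction n with
  | zero => simp [c.zero]
  | succ n ih => rw [pow_succ, ih, ← c.add]; congr 1; push_cast; ring

theorem card : Nat.card F = Nat.card M :=
  Nat.card_eq_of_bijective (fun a => ⟨u a, c.mem a⟩) ⟨fun _ _ e => c.inj (congrArg Subtype.val e), fun x => by
    obtain ⟨a, e⟩ := c.surj x x.2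
    exact ⟨a, Subtype.ext e⟩⟩

theorem elemAb (p : ℕ) [CharP F p] : IsElementaryAbelian p M := by
  refine ⟨comm_iff.2 fun x hx y hy => ?_, fun x hx => ?_⟩
  · obtain ⟨a, rfl⟩ := c.surj x hx
    obtain ⟨b, rfl⟩ := c.surj y hy
    rw [← c.add, ← c.add, add_comm]
  · obtain ⟨a, rfl⟩ := c.surj x hx
    rw [c.pow, CharP.cast_eq_zero, zero_mul, c.zero]

end Co

/-- the points of the projective line -/
def ptL (H : Subgroup G) {F : Type} (u : F → G) (t : G) (x : OnePoint F) : G ⧸ H :=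
  (x.elim 1 fun a => u a * t : G)

namespace TD
variable [Finite G] {M : Subgroup G} {z t : G} (d : TD M z) (ht : t ∈ Cx(z)) (tn : t ∉ Nm(M))
  (h2 : ∀ c ∈ Cx(z), c ∉ Nm(M) → t * c ∈ Nm(M))
include d ht tn h2

theorem sreg {e x : G} (he : e ∈ Nm(M) ⊓ Cx(z)) (hx : x ∈ M) (x1 : x ≠ 1) (h : e * x = x * e) : e = 1 := by
  obtain ⟨a, ha, c, hc, hn, b, hb, e1⟩ := d.surj3 (g := t⁻¹ * x * t) fun f => x1 (d.eq_one_of_conj ht tn hx f)
  have e2 : e * (t⁻¹ * x * t) * e⁻¹ = t⁻¹ * x * t := by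
    calc _ = t⁻¹ * ((t * e * t⁻¹) * x * (t * e * t⁻¹)⁻¹) * t := by group
      _ = _ := by rw [d.inv_D ht tn he, inv_inv, mul_assoc e⁻¹, ← h, inv_mul_cancel_left]
  have ha' := conj_mem_of_mem_normalizer he.1 ha
  have hb' := conj_mem_of_mem_normalizer he.1 hb
  obtain ⟨f1, f2⟩ := d.inj3 (mul_mem (inv_mem ha') ha) (mul_mem hb (inv_mem hb'))
    (mul_mem (mul_mem he.2 hc) (inv_mem he.2)) hc hn (by
      rw [e1] at e2
      calc _ = (e * a * e⁻¹)⁻¹ * (e * (a * c * b) * e⁻¹) * (e * b * e⁻¹)⁻¹ := by group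
        _ = _ := by rw [e2]; group)
  have e3 : c * e * c⁻¹ = e := by
    rw [e1, ← conj_mul, ← conj_mul, inv_mul_eq_one.1 f1, ← mul_inv_eq_one.1 f2, mul_left_inj, mul_right_inj,
      mul_inv_eq_iff_eq_mul] at e2
    rw [← e2, mul_inv_cancel_right]
  rw [d.inv_D hc hn he, inv_eq_iff_mul_eq_one] at e3
  refine by_contra fun e1 => x1 (d.MD hx (mem_Cx.2 ?_))
  rw [← d.uniq_D he e3 e1, h]

theorem card_C2 : Nat.card Cx(z) = 2 * Nat.card (Nm(M) ⊓ Cx(z) : Subgroup G) := by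
  have hn : t ∈ Nm(Nm(M) ⊓ Cx(z)) := mem_normalizer_of_conj_mem fun e he => by
    rw [d.inv_D ht tn he]; exact inv_mem he
  rw [← card_inv_sup (d.sq_C ht tn) hn fun f => tn f.1]
  congr 3
  refine le_antisymm (fun c hc => (mem_inv_sup (d.sq_C ht tn) hn).2 ?_) (sup_le (zpowers_le.2 ht) inf_le_right)
  by_cases h : c ∈ Nm(M)
  · exact Or.inl ⟨h, hc⟩
  · exact Or.inr ⟨h2 c hc h, mul_mem ht hc⟩

theorem card_G2 : Nat.card G = (Nat.card M + 1) * Nat.card M * Nat.card (Nm(M) ⊓ Cx(z) : Subgroup G) := by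
  have := d.card_G
  rw [d.card_H, d.card_C2 ht tn h2] at this
  nlinarith

theorem two_cases : Nat.card (Nm(M) ⊓ Cx(z) : Subgroup G) + 1 = Nat.card M ∨
    (2 * Nat.card (Nm(M) ⊓ Cx(z) : Subgroup G) + 1 = Nat.card M ∧ IsConj z t) := by
  obtain ⟨k, hk⟩ := card_dvd_of_conj_free (Nm(M) ⊓ Cx(z)) ((M : Set G) \ {1})
    (fun a ha s hs => ⟨conj_mem_of_mem_normalizer ha.1 hs.1, by simpa using hs.2⟩)
    fun a ha s hs e => d.sreg ht tn h2 ha hs.1 hs.2 e
  have h1 := Set.ncard_sdiff_singleton_add_one (show (1 : G) ∈ (M : Set G) from one_mem M)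
  rw [hk, ← Nat.card_coe_set_eq, SetLike.coe_sort_coe] at h1
  have h3 := d.card_I
  have h4 := CfL.ncard_class_mul z
  have h5 := Set.ncard_le_ncard d.class_sub
  have h6 := Set.eq_of_subset_of_ncard_le d.class_sub
  have h7 := d.one_lt
  have h8 : 0 < Nat.card (Nm(M) ⊓ Cx(z) : Subgroup G) := Nat.card_pos
  rw [d.card_G2 ht tn h2, d.card_H] at h3
  rw [d.card_G2 ht tn h2, d.card_C2 ht tn h2] at h4
  generalize Nat.card (Nm(M) ⊓ Cx(z) : Subgroup G) = n at *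
  generalize Nat.card M = m at *
  generalize {s : G | s * s = 1 ∧ s ≠ 1}.ncard = i at h3 h5 h6
  generalize {b | IsConj z b}.ncard = j at h4 h5 h6
  have e1 : i = m + m * n := Nat.eq_of_mul_eq_mul_right (m := m) (by omega) (by nlinarith)
  have e2 : j * 2 = (m + 1) * m := Nat.eq_of_mul_eq_mul_right h8 (by nlinarith)
  have e3 : m + 1 ≤ 2 + 2 * n := Nat.le_of_mul_le_mul_right (c := m) (by nlinarith) (by omega)
  have e4 : k ≤ 2 := Nat.le_of_mul_le_mul_left (show n * k ≤ n * 2 by omega) h8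
  interval_cases k
  · omega
  · omega
  · refine Or.inr ⟨by omega, (h6 (by nlinarith)).ge ⟨d.sq_C ht tn, fun f => tn (f ▸ one_mem _)⟩⟩

theorem irr {U : Subgroup G} (h1 : U ≤ M) (h3 : Nm(M) ⊓ Cx(z) ≤ Nm(U)) : U = ⊥ ∨ U = M := by
  refine or_iff_not_imp_left.2 fun h0 => ?_
  obtain ⟨k, hk⟩ := card_dvd_of_conj_free (Nm(M) ⊓ Cx(z)) ((U : Set G) \ {1})
    (fun a ha s hs => ⟨conj_mem_of_mem_normalizer (h3 ha) hs.1, by simpa using hs.2⟩)
    fun a ha s hs e => d.sreg ht tn h2 ha (h1 hs.1) hs.2 e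
  have h4 := Set.ncard_sdiff_singleton_add_one (show (1 : G) ∈ (U : Set G) from one_mem U)
  rw [hk, ← Nat.card_coe_set_eq, SetLike.coe_sort_coe] at h4
  have h5 := (one_lt_card_iff_ne_bot U).2 h0
  obtain ⟨r, hr⟩ := card_dvd_of_le h1
  have h6 : Nat.card (Nm(M) ⊓ Cx(z) : Subgroup G) + 1 ≤ Nat.card U := by
    rcases k with _ | k
    · omega
    · nlinarith
  have h7 := (d.two_cases ht tn h2).imp_right And.left
  have h8 := d.one_lt
  refine eq_of_le_of_card_ge h1 ?_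
  rcases r with _ | _ | r
  · omega
  · omega
  · have : Nat.card U * 2 ≤ Nat.card M := by nlinarith
    omega

variable {F : Type} [Field F] {u : F → G} {κ : (Nm(M) ⊓ Cx(z) : Subgroup G) →* Fˣ} (c : Co M _ u κ)
include c

omit d ht tn h2 c in
theorem pt_infty {h : G} (hh : h ∈ Nm(M)) : h • ptL Nm(M) u t ∞ = ptL Nm(M) u t ∞ :=
  QuotientGroup.eq.2 (by simpa using hh)

omit d ht tn h2 in
theorem pt_u (a b : F) : u b • ptL Nm(M) u t (a : F) = ptL Nm(M) u t (b + a : F) := by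
  simp [ptL, c.add, mul_assoc]

omit h2 in
theorem pt_e (e : (Nm(M) ⊓ Cx(z) : Subgroup G)) (a : F) :
    (e : G) • ptL Nm(M) u t (a : F) = ptL Nm(M) u t (κ e * a : F) := by
  refine QuotientGroup.eq.2 ?_
  simp only [elim_some, smul_eq_mul, ← c.act]
  rw [show ((e : G) * (u a * t))⁻¹ * (e * u a * (e : G)⁻¹ * t) = t⁻¹ * (e : G)⁻¹ * t⁻¹⁻¹ by group,
    d.inv_D (inv_mem ht) (by simpa using tn) (inv_mem e.2)]
  simpa using e.2.1

omit d ht tn h2 in
theorem pt_t : t • ptL Nm(M) u t ∞ = ptL Nm(M) u t (0 : F) := by simp [ptL, c.zero]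

omit h2 in
theorem pt_t0 : t • ptL Nm(M) u t (0 : F) = ptL Nm(M) u t ∞ := by
  rw [← pt_t c, smul_smul, d.sq_C ht tn, one_smul]

omit h2 in
theorem pt_inj : Function.Injective (ptL Nm(M) u t) := by
  have h1 : ∀ a, u a * t ∉ Nm(M) := fun a f => tn (((Nm(M)).mul_mem_cancel_left (d.M_le (c.mem a))).1 f)
  intro x y e
  have e := QuotientGroup.eq.1 e
  induction x with
  | infty =>
    induction y with
    | infty => rfl
    | coe b => exact absurd (by simpa using e) (h1 _)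
  | coe a =>
    induction y with
    | infty => exact absurd (inv_mem_iff.1 (by simpa only [elim_some, elim_infty, mul_one] using e)) (h1 _)
    | coe b => rw [c.inj (inv_mul_eq_one.1 (d.eq_one_of_conj ht tn (mul_mem (inv_mem (c.mem a)) (c.mem b))
        (by simpa [mul_assoc] using e)))]

theorem pt_surj : Function.Surjective (ptL Nm(M) u t) := fun q => by
  obtain ⟨g, rfl⟩ := QuotientGroup.mk_surjective q
  by_cases hg : g ∈ Nm(M)
  · exact ⟨∞, QuotientGroup.eq.2 (by simpa using hg)⟩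
  · obtain ⟨x, hx, k, hk, hn, y, hy, rfl⟩ := d.surj3 hg
    obtain ⟨a, rfl⟩ := c.surj x hx
    refine ⟨a, QuotientGroup.eq.2 ?_⟩
    simpa [mul_assoc, inv_eq_of_mul_eq_one_right (d.sq_C ht tn)] using mul_mem (h2 k hk hn) (d.M_le hy)

theorem exists_tau {a : F} (ha : a ≠ 0) : ∃ w : F, w ≠ 0 ∧ t • ptL Nm(M) u t a = ptL Nm(M) u t w := by
  obtain ⟨y, hy⟩ := d.pt_surj ht tn h2 c (t • ptL Nm(M) u t a)
  cases y with
  | infty => exact absurd (coe_injective (d.pt_inj ht tn c (smul_left_cancel t (hy.symm.trans (d.pt_t0 ht tn c).symm)))) ha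
  | coe w =>
    refine ⟨w, ?_, hy.symm⟩
    rintro rfl
    exact coe_ne_infty _ (d.pt_inj ht tn c (smul_left_cancel t (hy.symm.trans (pt_t c).symm)))

omit h2 in
theorem tau_mul (e : (Nm(M) ⊓ Cx(z) : Subgroup G)) {a w : F} (h : t • ptL Nm(M) u t a = ptL Nm(M) u t w) :
    t • ptL Nm(M) u t (κ e * a : F) = ptL Nm(M) u t ((κ e : F)⁻¹ * w : F) := by
  rw [← d.pt_e ht tn c, ← Units.val_inv_eq_inv_val, ← map_inv, ← d.pt_e ht tn c, ← h, smul_smul, smul_smul,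
    coe_inv, ← d.inv_D ht tn e.2, inv_mul_cancel_right]

theorem κ_inj : Function.Injective κ := (injective_iff_map_eq_one _).2 fun e he => by
  have := c.act e 1
  rw [he, Units.val_one, one_mul, mul_inv_eq_iff_eq_mul] at this
  exact Subtype.ext (d.sreg ht tn h2 e.2 (c.mem 1) (fun f => one_ne_zero (c.inj (f.trans c.zero.symm))) this)

theorem embed [DecidableEq F] (S : Subgroup (GL (Fin 2) F)) (s1 : ∀ b, CfH3.aff 1 b one_ne_zero ∈ S)
    (s2 : ∀ e, CfH3.aff (κ e : F) 0 (κ e).ne_zero ∈ S) {w : F} (hw : w ≠ 0)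
    (s3 : GeneralLinearGroup.mkOfDetNeZero !![0, w; 1, 0] (by simpa [det_fin_two] using hw) ∈ S)
    (h : ∀ a : F, a ≠ 0 → t • ptL Nm(M) u t a = ptL Nm(M) u t (w / a : F)) :
    ∃ Φ : G →* PGL(Fin 2, F), Function.Injective Φ ∧ ∀ g, ∃ γ ∈ S, Φ g = ProjGenLinGroup.mk γ := by
  refine exists_pgl_embed (d.pt_inj ht tn c) S (fun g hg => ?_) ?_
  · obtain ⟨x, hx, e, he, rfl⟩ := d.fac g (by simpa [ptL] using QuotientGroup.eq.1 (hg ∞))
    obtain ⟨b, rfl⟩ := c.surj x hx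
    have h1 : ∀ a : F, b + κ ⟨e, he⟩ * a = a := fun a => coe_injective (d.pt_inj ht tn c (by
      rw [← pt_u c, ← d.pt_e ht tn c, smul_smul, hg]))
    have h3 : b = 0 := by simpa using h1 0
    have h4 : κ ⟨e, he⟩ = κ 1 := Units.ext (by simpa [h3] using h1 1)
    rw [h3, c.zero, show e = 1 from congrArg Subtype.val (d.κ_inj ht tn h2 c h4), mul_one]
  let R : Subgroup G :=
    { carrier := {g | ∃ γ ∈ S, ∀ x, g • ptL Nm(M) u t x = ptL Nm(M) u t (γ • x)}
      one_mem' := ⟨1, one_mem _, by simp⟩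
      mul_mem' := by
        rintro a b ⟨γ, h1, h2⟩ ⟨δ, h3, h4⟩
        exact ⟨γ * δ, mul_mem h1 h3, fun x => by rw [mul_smul, h4, h2, mul_smul]⟩
      inv_mem' := by
        rintro a ⟨γ, h1, h2⟩
        exact ⟨γ⁻¹, inv_mem h1, fun x => by rw [inv_smul_eq_iff, h2, smul_inv_smul]⟩ }
  have r1 : M ≤ R := fun x hx => by
    obtain ⟨b, rfl⟩ := c.surj x hx
    refine ⟨_, s1 b, fun y => ?_⟩
    cases y
    · rw [CfH3.aff_smul_infty, pt_infty (d.M_le hx)]
    · rw [CfH3.aff_smul_coe, pt_u c, one_mul, add_comm]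
  have r2 : Nm(M) ≤ R := fun g hg => by
    obtain ⟨x, hx, e, he, rfl⟩ := d.fac g hg
    refine mul_mem (r1 hx) ⟨_, s2 ⟨e, he⟩, fun y => ?_⟩
    cases y
    · rw [CfH3.aff_smul_infty, pt_infty he.1]
    · rw [CfH3.aff_smul_coe, add_zero, ← d.pt_e ht tn c]
  have r3 : t ∈ R := ⟨_, s3, fun y => by
    cases y with
    | infty => rw [pt_t c, smul_infty_eq_ite]; simp
    | coe a =>
      rw [smul_some_eq_ite]
      by_cases ha : a = 0
      · simp [ha, d.pt_t0 ht tn c]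
      · simp [ha, h a ha]⟩
  intro g
  change g ∈ R
  by_cases hg : g ∈ Nm(M)
  · exact r2 hg
  · obtain ⟨x, hx, k, hk, hn, y, hy, rfl⟩ := d.surj3 hg
    exact mul_mem (mul_mem (r1 hx) ((R.mul_mem_cancel_left r3).1 (r2 (h2 k hk hn)))) (r1 hy)

omit c in
theorem case_pgl (h : Nat.card (Nm(M) ⊓ Cx(z) : Subgroup G) + 1 = Nat.card M) :
    ∃ (F : Type) (_ : Field F) (_ : Fintype F) (p : ℕ) (_ : Fact p.Prime) (_ : CharP F p),
      Fintype.card F = Nat.card M ∧ IsElementaryAbelian p M ∧ Nonempty (G ≃* PGL(Fin 2, F)) := by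
  classical
  obtain ⟨x, hx, x1⟩ := d.M_ne
  obtain ⟨F, _, _, u, κ, c, -⟩ := exists_co d.comm d.D_comm inf_le_left (fun U => d.irr ht tn h2) hx x1
  obtain ⟨p, hp⟩ := CharP.exists F
  have hF : Fintype.card F = Nat.card M := by rw [← c.card, Nat.card_eq_fintype_card]
  refine ⟨F, _, _, p, ⟨CharP.char_prime_of_ne_zero F (CharP.char_ne_zero_of_finite F p)⟩, hp, hF, c.elemAb p, ?_⟩
  have hs := ((Nat.bijective_iff_injective_and_card κ).2 ⟨d.κ_inj ht tn h2 c, by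
    rw [Nat.card_units, c.card]; omega⟩).2
  obtain ⟨w, hw, e⟩ := d.exists_tau ht tn h2 c one_ne_zero
  obtain ⟨Φ, hΦ, -⟩ := d.embed ht tn h2 c ⊤ (fun _ => trivial) (fun _ => trivial) hw trivial fun a ha => by
    obtain ⟨f, hf⟩ := hs (Units.mk0 a ha)
    have := d.tau_mul ht tn c f e
    rwa [hf, Units.val_mk0, mul_one, ← div_eq_inv_mul] at this
  have := CfH3.finite_PGL (n := Fin 2) (F := F)
  refine ⟨MulEquiv.ofBijective Φ ((Nat.bijective_iff_injective_and_card Φ).2 ⟨hΦ, ?_⟩)⟩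
  rw [CfH3.card_PGL2 hF, d.card_G2 ht tn h2, ← h, mul_comm (_ + 1 + 1), mul_assoc]
  congr 1
  exact (Nat.sub_eq_of_eq_add (by ring)).symm

omit c in
theorem exists_rel (hz : IsConj z t) : ∃ x ∈ M, x ≠ 1 ∧ t * x * t = x * t * z * x := by
  obtain ⟨g, hg⟩ := isConj_iff.1 hz
  have t2 := d.sq_C ht tn
  have ti := inv_eq_of_mul_eq_one_right t2
  have h1 : g⁻¹ * t * g ∈ Nm(M) := by simpa [← hg, mul_assoc] using d.zN
  obtain ⟨x, hx, k, hk, hn, y, hy, rfl⟩ := d.surj3 (g := g) fun f => tn (hg ▸ mul_mem (mul_mem f d.zN) (inv_mem f))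
  have h3 := mul_mem (h2 k hk hn) (d.M_le hy)
  have h4 : t * x⁻¹ * t * x * t ∈ Nm(M) := by
    have := mul_mem (mul_mem h3 h1) (inv_mem h3)
    rwa [show t * k * y * ((x * k * y)⁻¹ * t * (x * k * y)) * (t * k * y)⁻¹ = t * x⁻¹ * t * x * t⁻¹ by group, ti] at this
  have x1 : x ≠ 1 := by rintro rfl; simp [t2, tn] at h4
  obtain ⟨a, ha, e, he, e1⟩ := d.fac _ (inv_mem h4)
  have e2 : t * x * t = x * (t * e⁻¹) * a⁻¹ := by
    calc _ = x * (t * t) * x⁻¹ * (t * x * t) := by rw [t2]; group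
      _ = x * t * (t * x⁻¹ * t * x * t)⁻¹⁻¹ := by group
      _ = _ := by rw [e1]; group
  have zc := fun {c} (hc : c ∈ Cx(z)) => sq_C.mem_Cx_comm' hc
  have e3 : t * x⁻¹ * t = x⁻¹ * (t * e⁻¹) * a := by
    have : z * _ * z⁻¹ = z * _ * z⁻¹ := congrArg (fun g => z * g * z⁻¹) e2
    rwa [← conj_mul, ← conj_mul, zc ht, d.zinv hx, ← conj_mul, ← conj_mul, d.zinv hx, d.zinv (inv_mem ha), inv_inv,
      zc (mul_mem ht (inv_mem he.2))] at this
  have hte : t * e⁻¹ ∉ Nm(M) := fun f => tn (((Nm(M)).mul_mem_cancel_right (inv_mem he.1)).1 f)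
  obtain ⟨f1, -⟩ := d.inj3 (mul_mem hx ha) (mul_mem (inv_mem hx) (inv_mem ha)) (mul_mem ht (inv_mem he.2))
    (inv_mem (mul_mem ht (inv_mem he.2))) (by rwa [inv_mem_iff]) (by
      have : (t * x * t)⁻¹ = t * x⁻¹ * t := by simp only [_root_.mul_inv_rev, ti, mul_assoc]
      calc t * e⁻¹ = x * (t * x * t)⁻¹ * a⁻¹ := by rw [this, e3]; group
        _ = _ := by rw [e2]; group)
  obtain rfl := eq_inv_of_mul_eq_one_right f1
  rw [inv_inv] at e2
  have h6 : x⁻¹ * t * x = t * e⁻¹ * x * t := by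
    calc _ = x⁻¹ * (t * x * t) * t := by simp [mul_assoc, t2]
      _ = _ := by rw [e2]; group
  have h7 : x * e⁻¹ * (x * e⁻¹) = 1 := by
    calc _ = x * e⁻¹ * x * (t * t) * e⁻¹ := by rw [t2]; group
      _ = x * t⁻¹ * (t * e⁻¹ * x * t * (t * e⁻¹ * x * t)) * t⁻¹ * x⁻¹ := by group
      _ = x * (t⁻¹ * x⁻¹ * (t * t) * x * t⁻¹) * x⁻¹ := by rw [← h6]; group
      _ = 1 := by simp [t2, ti]
  have h8 := d.invol_H (mul_mem (d.M_le hx) (inv_mem he.1)) h7 fun f => x1 (d.MD hx (mul_inv_eq_one.1 f ▸ he.2))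
  rw [mul_assoc, M.mul_mem_cancel_left hx] at h8
  obtain rfl := inv_mul_eq_one.1 (d.MD h8 (mul_mem (inv_mem he.2) (mem_Cx.2 rfl)))
  exact ⟨x, hx, x1, by rw [e2, d.zi, mul_assoc x t]⟩

omit c in
theorem case_psl (h : 2 * Nat.card (Nm(M) ⊓ Cx(z) : Subgroup G) + 1 = Nat.card M) (hz : IsConj z t) :
    ∃ (F : Type) (_ : Field F) (_ : Fintype F) (p : ℕ) (_ : Fact p.Prime) (_ : CharP F p),
      Fintype.card F = Nat.card M ∧ IsElementaryAbelian p M ∧ Fintype.card F % 4 = 1 ∧ Nonempty (G ≃* PSL(2, F)) := by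
  classical
  obtain ⟨x, hx, x1, rel⟩ := d.exists_rel ht tn h2 hz
  obtain ⟨F, _, _, u, κ, c, rfl⟩ := exists_co d.comm d.D_comm inf_le_left (fun U => d.irr ht tn h2) hx x1
  obtain ⟨p, hp⟩ := CharP.exists F
  have hF : Fintype.card F = Nat.card M := by rw [← c.card, Nat.card_eq_fintype_card]
  let z' : (Nm(M) ⊓ Cx(z) : Subgroup G) := ⟨z, d.zN, mem_Cx.2 rfl⟩
  have hev : 2 ∣ Nat.card (Nm(M) ⊓ Cx(z) : Subgroup G) := by
    rw [← orderOf_inv2 d.z2 d.z1]; exact (Nm(M) ⊓ Cx(z)).orderOf_dvd_natCard z'.2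
  refine ⟨F, _, _, p, ⟨CharP.char_prime_of_ne_zero F (CharP.char_ne_zero_of_finite F p)⟩, hp, hF, c.elemAb p,
    by omega, ?_⟩
  have h02 : (2 : F) ≠ 0 := CfH3.two_ne_zero_iff_odd.2 (hF ▸ d.odd_M)
  have κz : (κ z' : F) = -1 := by
    have := c.act z' 1
    rw [mul_one, d.zinv hx, ← c.neg] at this
    exact (c.inj this).symm
  have hi : κ.range.index = 2 := by
    have := κ.range.card_mul_index
    rw [← Nat.card_congr (MonoidHom.ofInjective (d.κ_inj ht tn h2 c)).toEquiv, Nat.card_units, c.card, ← h,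
      Nat.add_sub_cancel, mul_comm 2] at this
    exact Nat.eq_of_mul_eq_mul_left Nat.card_pos this
  have hsq : ∀ e, ∃ r : F, r ^ 2 = κ e := fun e => by
    obtain ⟨r, hr⟩ := (FiniteField.isSquare_iff (fun f => h02 (by simpa [f] using ringChar.Nat.cast_ringChar (R := F))) (κ e).ne_zero).2 (by
      rw [hF, ← h, show (2 * Nat.card (Nm(M) ⊓ Cx(z) : Subgroup G) + 1) / 2 = Nat.card (Nm(M) ⊓ Cx(z) : Subgroup G) by omega,
        ← Units.val_pow_eq_pow_val, ← map_pow, pow_card_eq_one', map_one, Units.val_one])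
    exact ⟨r, by rw [hr, pow_two]⟩
  have y1 : t • ptL Nm(M) u t (1 : F) = ptL Nm(M) u t (1 : F) := QuotientGroup.eq.2 (by
    simp only [elim_some, smul_eq_mul, ← mul_assoc, rel]
    simpa [mul_assoc] using mul_mem (inv_mem (d.M_le hx)) (inv_mem d.zN))
  have y2 : ∀ (e) (a : F), t • ptL Nm(M) u t a = ptL Nm(M) u t (1 / a : F) →
      t • ptL Nm(M) u t (κ e * a : F) = ptL Nm(M) u t (1 / (κ e * a) : F) := fun e a h => by
    rw [d.tau_mul ht tn c e h, one_div, one_div, mul_inv]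
  have y3 : ∀ e, (κ e : F) + 1 ≠ 0 → t • ptL Nm(M) u t (κ e + 1 : F) = ptL Nm(M) u t (1 / (κ e + 1) : F) := by
    intro e he
    obtain ⟨w, -, hw⟩ := d.exists_tau ht tn h2 c he
    have a1 := congrArg (· • ptL Nm(M) u t (κ e : F)) rel
    have a2 := d.tau_mul ht tn c e y1
    have a3 := d.tau_mul ht tn c e⁻¹ hw
    have a4 := d.tau_mul ht tn c z' hw
    have a5 := d.pt_e ht tn c z' (κ e + 1)
    simp only [mul_one, map_inv, Units.val_inv_eq_inv_val, inv_inv, mul_add, inv_mul_cancel₀ (κ e).ne_zero] at a2 a3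
    simp only [mul_smul, a2, pt_u c, a3, add_comm 1 (κ e : F), z', a5, a4] at a1
    have a6 := coe_injective (d.pt_inj ht tn c a1)
    rw [hw, eq_div_of_mul_eq he (show w * (κ e + 1) = 1 by rw [κz] at a6; linear_combination (exp := 1) a6 + w * (mul_inv_cancel₀ (show (-1 : F) ≠ 0 by simp)))]
  have y4 : ∀ a : F, a ≠ 0 → t • ptL Nm(M) u t a = ptL Nm(M) u t (1 / a : F) := by
    by_contra hn
    push Not at hn
    obtain ⟨a, a0, ha⟩ := hn
    have b1 : ∀ b : Fˣ, t • ptL Nm(M) u t (b : F) = ptL Nm(M) u t (1 / b : F) → b ∈ κ.range := fun b hb => by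
      by_contra f
      by_cases g : Units.mk0 a a0 ∈ κ.range
      · obtain ⟨e, he⟩ := g
        have := y2 e 1 (by simpa using y1)
        rw [he] at this
        exact ha (by simpa using this)
      · obtain ⟨e, he⟩ := (mul_mem_iff_of_index_two hi (a := Units.mk0 a a0) (b := b⁻¹)).2 (by simp [f, g])
        have := y2 e b hb
        rw [he] at this
        exact ha (by simpa using this)
    have b2 : ∀ a b : Fˣ, a ∈ κ.range → b ∈ κ.range → ∀ s : Fˣ, (s : F) = a + b → s ∈ κ.range := by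
      intro a b ha hb s hs
      obtain ⟨e, he⟩ := mul_mem ha (inv_mem hb)
      have b3 : (κ e : F) + 1 = (s * b⁻¹ : Fˣ) := by simp [he, hs, add_mul]
      have := b1 _ (b3 ▸ y3 e (b3 ▸ Units.ne_zero _))
      exact (κ.range.mul_mem_cancel_right (inv_mem hb)).1 this
    have b4 : ∀ r : F, ∀ h : r ^ 2 ≠ 0, Units.mk0 _ h ∈ κ.range := fun r h => by
      have := sq_mem_of_index_two hi (Units.mk0 r (pow_ne_zero_iff two_ne_zero |>.1 h))
      convert this using 1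
      ext; simp
    refine absurd (hi.symm.trans (index_eq_one.2 (eq_top_iff.2 fun s _ => ?_))) (by norm_num)
    by_cases s1 : ((s + 1) / 2 : F) ^ 2 = 0
    · exact ⟨z', Units.ext (by rw [κz]; symm; simpa [h02, add_eq_zero_iff_eq_neg] using s1)⟩
    by_cases s2 : ((s - 1) / 2 : F) ^ 2 = 0
    · exact ⟨1, Units.ext (by symm; simpa [h02, sub_eq_zero] using s2)⟩
    refine b2 _ _ (b4 _ s1) (mul_mem ⟨z', rfl⟩ (b4 _ s2)) s ?_
    simp only [Units.val_mul, κz, Units.val_mk0]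
    field_simp
    ring
  obtain ⟨Φ, hΦ, hΦ'⟩ := d.embed ht tn h2 c
    ((ProjectiveSpecialLinearGroup.toPGL (n := Fin 2) (R := F)).range.comap ProjGenLinGroup.mk)
    (fun b => CfH3.mk_mem_range_toPGL_iff.2 ⟨1, by simp [CfH3.aff_val, det_fin_two]⟩)
    (fun e => CfH3.mk_mem_range_toPGL_iff.2 (by simpa [CfH3.aff_val, det_fin_two] using hsq e)) one_ne_zero
    (CfH3.mk_mem_range_toPGL_iff.2 (by simpa [det_fin_two, κz] using hsq z')) y4
  have := CfH3.finite_PGL (n := Fin 2) (F := F)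
  have e1 : Φ.range = (ProjectiveSpecialLinearGroup.toPGL (n := Fin 2) (R := F)).range := by
    refine eq_of_le_of_card_ge (by rintro _ ⟨g, rfl⟩; obtain ⟨γ, h1, h2⟩ := hΦ' g; exact h2 ▸ h1) (le_of_eq ?_)
    rw [← Nat.card_congr (MonoidHom.ofInjective hΦ).toEquiv,
      ← Nat.card_congr (MonoidHom.ofInjective ProjectiveSpecialLinearGroup.toPGL_injective).toEquiv]
    have h3 := CfH3.card_PSL2 hF
    rw [CfH3.gcd_two_of_odd d.odd_M, ← h, show (2 * Nat.card (Nm(M) ⊓ Cx(z) : Subgroup G) + 1) ^ 2 - 1 =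
      (2 * Nat.card (Nm(M) ⊓ Cx(z) : Subgroup G) + 2) * Nat.card (Nm(M) ⊓ Cx(z) : Subgroup G) * 2 from
        Nat.sub_eq_of_eq_add (by ring)] at h3
    rw [d.card_G2 ht tn h2, ← h]
    exact Nat.eq_of_mul_eq_mul_right two_pos (by rw [h3]; ring)
  exact ⟨((MonoidHom.ofInjective hΦ).trans (MulEquiv.subgroupCongr e1)).trans
    (MonoidHom.ofInjective ProjectiveSpecialLinearGroup.toPGL_injective).symm⟩

end TD

end CfH1
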