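import Cfsg.Agent.H1.TI2
import Cfsg.Agent.H1.Subnormal
import Cfsg.Agent.H2.IdR
import Cfsg.Agent.H3.PSL2Max
import Cfsg.Agent.H3.SmallGroups
import Cfsg.Agent.FT.BG3c

/-! The case of an elementary abelian centraliser. -/

set_option autoImplicit false
set_option linter.unusedSectionVars false

namespace CfH1

open Cfsg Subgroup CfH9 CfH7 CfH8
open scoped Pointwise commutatorElement MatrixGroups

variable {G : Type*} [Group G]

theorem exists_conj_mem [Finite G] {M : Subgroup G} {p : ℕ} [Fact p.Prime] {y : G} (hy : orderOf y = p)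
    (h : ¬ p ∣ M.index) : ∃ k, k * y * k⁻¹ ∈ M := by
  obtain ⟨k, -, e⟩ := exists_cj_le_of_hall (p := p) (X := M) le_top (by rwa [relIndex_top_right]) (P := zpowers y)
    (IsPGroup.of_card (n := 1) (by rw [Nat.card_zpowers, hy, pow_one])) le_top
  exact ⟨k, e (conj_mem_cj_iff.2 (mem_zpowers y))⟩

theorem comm_of_ea {T : Subgroup G} (ea : ∀ c ∈ T, c * c = 1) {a b : G} (ha : a ∈ T) (hb : b ∈ T) : a * b = b * a := by
  rw [← inv_eq_of_mul_eq_one_right (ea _ (mul_mem ha hb)), mul_inv_rev, inv_eq_of_mul_eq_one_right (ea a ha),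
    inv_eq_of_mul_eq_one_right (ea b hb)]

section SL2
variable [Finite G] {z : G} (z1 : z ≠ 1) (ea : ∀ c ∈ Cx(z), c * c = 1) (all : ∀ s : G, s * s = 1 → s ≠ 1 → IsConj z s)
include z1 ea all

theorem ea_Cx_eq {w : G} (hw : w ∈ Cx(z)) (w1 : w ≠ 1) : Cx(w) = Cx(z) := by
  refine (eq_of_le_of_card_ge (fun c hc => mem_Cx.2 (comm_of_ea ea hc hw)) ?_).symm
  obtain ⟨g, rfl⟩ := isConj_iff.1 (all w (ea w hw) w1)
  rw [← cj_Cx, card_cj]

theorem ea_ti {w g : G} (hw : w ∈ Cx(z)) (w1 : w ≠ 1) (h : g * w * g⁻¹ ∈ Cx(z)) : g ∈ Nm(Cx(z)) := by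
  rw [mem_normalizer_iff_cj]
  nth_rw 1 [← ea_Cx_eq z1 ea all hw w1]
  rw [cj_Cx, ea_Cx_eq z1 ea all h (by simpa using w1)]

theorem ea_inv {s : G} (hs : s ∈ Nm(Cx(z))) (s2 : s * s = 1) : s ∈ Cx(z) := by
  by_cases h : Cx(z) ⊓ Cx(s) = ⊥
  · have := inverts_of_fpf s2 hs h (mem_Cx.2 rfl)
    rwa [inv_eq_of_mul_eq_one_right (ea z (mem_Cx.2 rfl)), ← mem_Cx'] at this
  · obtain ⟨w, hw, w1⟩ := exists_ne_one_of_ne_bot h
    exact ea_Cx_eq z1 ea all hw.1 w1 ▸ mem_Cx.2 (mem_Cx.1 hw.2).symm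

theorem ea_card_B : Nat.card Nm(Cx(z)) + Nat.card Cx(z) = Nat.card Cx(z) * Nat.card Cx(z) := by
  have h1 := CfL.ncard_conj_mul Nm(Cx(z)) z
  have h2 := Set.ncard_sdiff_singleton_add_one (show (1 : G) ∈ (Cx(z) : Set G) from one_mem _)
  rw [inf_eq_right.2 le_normalizer, show {b | ∃ g ∈ Nm(Cx(z)), g * z * g⁻¹ = b} = (Cx(z) : Set G) \ {1} from
    Set.ext fun w => ⟨by
      rintro ⟨g, hg, rfl⟩
      exact ⟨conj_mem_of_mem_normalizer hg (mem_Cx.2 rfl), by simpa using z1⟩, fun hw => by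
      obtain ⟨g, rfl⟩ := isConj_iff.1 (all w (ea w hw.1) hw.2)
      exact ⟨g, ea_ti z1 ea all (mem_Cx.2 rfl) z1 hw.1, rfl⟩⟩] at h1
  rw [← Nat.card_coe_set_eq (Cx(z) : Set G), SetLike.coe_sort_coe] at h2
  rw [← h1]
  nth_rw 3 [← h2]
  ring

open CfH5 BS in
theorem sl2_of_ea (h2 : 2 < Nat.card Cx(z)) (hG : Nat.card G = Nat.card Cx(z) * (Nat.card Cx(z) ^ 2 - 1)) :
    ∃ (F : Type) (_ : Field F) (_ : Fintype F), Fintype.card F = Nat.card Cx(z) ∧ Nonempty (G ≃* PSL(2, F)) := by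
  have hB := ea_card_B z1 ea all
  have zT : z ∈ Cx(z) := mem_Cx.2 rfl
  set T := Cx(z)
  set B := Nm(T)
  have hc : Nat.card B * Nat.card T + Nat.card B = Nat.card G := by
    rw [hG]
    zify [show 1 ≤ Nat.card T ^ 2 by nlinarith] at hB ⊢
    rw [eq_sub_of_add_eq hB]
    ring
  obtain ⟨g, hg⟩ : ∃ g, g ∉ B := by
    by_contra! h
    rw [(eq_top_iff' B).2 h, card_top] at hc
    have : 0 < Nat.card G := Nat.card_pos
    nlinarith
  have tB : g * z * g⁻¹ ∉ B := fun h => hg (ea_ti z1 ea all zT z1 (ea_inv z1 ea all h (by rw [conj_mul, ea z zT]; simp)))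
  have t2 : g * z * g⁻¹ * (g * z * g⁻¹) = 1 := by rw [conj_mul, ea z zT]; simp
  generalize g * z * g⁻¹ = t at tB t2
  have ti := inv_eq_of_mul_eq_one_right t2
  have key : ∀ x ∈ T, t * x * t ∈ B → x = 1 := fun x hx h => by_contra fun x1 => tB (ea_ti z1 ea all hx x1
    (ea_inv z1 ea all (by rwa [ti]) (by rw [conj_mul, ea x hx]; simp)))
  have two : ∀ g, g ∉ B → ∃ h ∈ B, ∃ x ∈ T, g = h * t * x := fun g hg => by
    have h4 := Set.ncard_add_ncard_compl (B : Set G)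
    rw [← Nat.card_coe_set_eq, SetLike.coe_sort_coe, ← Nat.card_coe_set_eq] at h4
    obtain ⟨⟨⟨h, hh⟩, x, hx⟩, e⟩ := ((Nat.bijective_iff_injective_and_card (fun p : B × T => (⟨p.1 * t * p.2, fun f =>
      tB ((mul_mem_cancel_left p.1.2).1 ((mul_mem_cancel_right (le_normalizer p.2.2)).1 f))⟩ : ((B : Set G)ᶜ : Set G)))).2
      ⟨fun ⟨⟨h, hh⟩, x, hx⟩ ⟨⟨h', hh'⟩, x', hx'⟩ e => by
        simp only [Subtype.mk.injEq] at e
        obtain rfl := mul_inv_eq_one.1 (key _ (mul_mem hx (inv_mem hx')) (by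
          rw [show t * (x * x'⁻¹) * t = h⁻¹ * (h * t * x) * x'⁻¹ * t by group, e]
          simpa [mul_assoc, t2] using mul_mem (inv_mem hh) hh'))
        simpa using e, by rw [Nat.card_prod]; exact Nat.add_right_cancel (hc.trans (h4.symm.trans (add_comm _ _)))⟩).2 ⟨g, hg⟩
    exact ⟨h, hh, x, hx, (congrArg Subtype.val e).symm⟩
  have mD : ∀ x, x ∈ B ⊓ cj t B ↔ x ∈ B ∧ t * x * t ∈ B := fun x => by rw [mem_inf, mem_cj, ti]
  have h : Hyp ⊤ B T (B ⊓ cj t B) t := ⟨le_top, mem_top t, t2, tB, mD, Nat.not_even_iff_odd.1 fun h => by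
      obtain ⟨s, hs, hi⟩ := exists_inv_of_even h
      exact hi.ne (key s (ea_inv z1 ea all hs.1 hi.sq) ((mD s).1 hs).2), le_normalizer, le_rfl,
    fun x hx h => key x hx ((mD x).1 h).2, fun h hh => by
      obtain ⟨h', hh', x, hx, e⟩ := two (t * h) fun f => tB ((mul_mem_cancel_right hh).1 f)
      have h1 := mul_mem hh (inv_mem (le_normalizer hx))
      refine ⟨_, conj_mem_of_mem_normalizer h1 hx, h * x⁻¹, (mD _).2 ⟨h1, ?_⟩, by group⟩
      rwa [show t * (h * x⁻¹) * t = t * h * x⁻¹ * t by group, e, mul_inv_cancel_right, mul_assoc, t2, mul_one], fun g _ => two g, (BS.Inv.mk (ea z zT) z1).even_card zT⟩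
  have hr : Rk2 T := by
    obtain ⟨c, hc, cn⟩ := SetLike.exists_of_lt (show zpowers z < T from lt_of_le_of_ne (zpowers_le.2 zT) fun e => by
      rw [← e, Nat.card_zpowers, (BS.Inv.mk (ea z zT) z1).orderOf_eq] at h2; omega)
    exact ⟨z, zT, c, hc, ⟨ea z zT, z1⟩, ⟨ea c hc, fun e => cn (e ▸ one_mem _)⟩, fun e => cn (e ▸ mem_zpowers z)⟩
  have hO : omegaOne 2 T = T := le_antisymm Om_le fun x hx => mem_Om_of_sq hx (ea x hx)
  obtain ⟨s, hs, hi, es⟩ := h.exists_dist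
  obtain ⟨F, _, _, _, e, κ, c⟩ := h.exists_FC hr hs hi
  obtain ⟨Φ, -, -, -, b⟩ := CfH2.exists_SL h c hr es (CfH2.f_s_of_mem h c hr es (hO.ge (h.f_mem hs hi.ne)))
  have hF : Fintype.card F = Nat.card T := by rw [← Nat.card_eq_fintype_card, ← c.card, hO]
  have h5 := CfH3.card_PSL2 hF
  rw [CfH3.gcd_two_of_even h.even_Q (by omega), mul_one, ← CfH3.card_SL2 hF] at h5
  exact ⟨F, _, _, hF, ⟨(MulEquiv.ofBijective Φ ((Nat.bijective_iff_injective_and_card _).2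
    ⟨b, by rw [CfH3.card_SL2 hF, hG]⟩)).symm.trans (MulEquiv.ofBijective (QuotientGroup.mk' _)
    ((Nat.bijective_iff_surjective_and_card _).2 ⟨QuotientGroup.mk'_surjective _, h5.symm⟩))⟩⟩

end SL2

namespace TD
variable [Finite G] {M : Subgroup G} {z : G} (d : TD M z)
include d

theorem ea_of {t c : G} (ht : t ∈ Cx(z)) (tn : t ∉ Nm(M)) (hc : c ∈ Cx(z)) (cn : c ∉ Nm(M)) (h : t * c ∉ Nm(M)) :
    ∀ e ∈ Cx(z), e * e = 1 := fun e he => by
  by_cases hn : e ∈ Nm(M)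
  · have h1 := d.inv_D (mul_mem ht hc) h ⟨hn, he⟩
    rw [show t * c * e * (t * c)⁻¹ = t * (c * e * c⁻¹) * t⁻¹ by group, d.inv_D hc cn ⟨hn, he⟩,
      d.inv_D ht tn (inv_mem ⟨hn, he⟩), inv_inv] at h1
    exact mul_eq_one_iff_eq_inv.2 h1
  · exact d.sq_C he hn

theorem oz : orderOf z = 2 := orderOf_eq_prime (by rw [pow_two, d.z2]) d.z1

theorem zC : z ∈ Cx(z) := mem_Cx.2 rfl

variable (ea : ∀ c ∈ Cx(z), c * c = 1)
include ea

theorem D_eq : Nm(M) ⊓ Cx(z) = zpowers z := le_antisymm (fun e he => by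
  by_cases h : e = 1
  · exact h ▸ one_mem _
  · exact d.uniq_D he (ea e he.2) h ▸ mem_zpowers e) (zpowers_le.2 ⟨d.zN, d.zC⟩)

theorem card_H2 : Nat.card Nm(M) = 2 * Nat.card M := by
  rw [d.card_H, d.D_eq ea, Nat.card_zpowers, d.oz, mul_comm]

omit d in
theorem pg : IsPGroup 2 Cx(z) := fun g => ⟨1, Subtype.ext (by simpa [pow_two] using ea g g.2)⟩

theorem nums : ∃ e, 1 ≤ e ∧ Nat.card Cx(z) = 2 * 2 ^ e ∧
    {s : G | s * s = 1 ∧ s ≠ 1}.ncard + Nat.card M = Nat.card M * (2 * 2 ^ e) ∧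
    (Nat.card M = 2 * 2 ^ e + 1 ∧ Nat.card G = 2 * 2 ^ e * ((2 * 2 ^ e) ^ 2 - 1) ∨
      Nat.card M = 2 ^ e + 1 ∧ Nat.card G = (2 ^ e) ^ 2 * (2 * Nat.card M)) := by
  obtain ⟨k, hk⟩ := IsPGroup.iff_card.1 (pg ea)
  obtain ⟨c, hc, cn⟩ := d.exists_c
  have h0 : 2 < Nat.card Cx(z) := by
    rw [← d.oz, ← Nat.card_zpowers, ← d.D_eq ea]
    exact card_lt_of_lt (lt_of_le_of_ne inf_le_right fun e => cn (e.ge hc).1)
  obtain ⟨e, rfl⟩ : ∃ e, k = e + 1 := ⟨k - 1, by rcases k with _ | k <;> simp_all⟩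
  have h1 : 1 ≤ e := by rcases e with _ | e <;> simp_all
  have h3 := d.card_I
  have h4 := CfL.ncard_class_mul z
  have h5 := Set.ncard_le_ncard d.class_sub
  have h6 := d.card_G
  have h7 := d.one_lt
  have h8 := d.odd_M
  rw [pow_succ'] at hk
  rw [d.D_eq ea, Nat.card_zpowers, d.oz] at h6
  rw [d.card_H2 ea] at h3 h6
  rw [hk] at h0 h4 h6
  have h9 : Nat.Coprime (2 ^ e) (Nat.card M) := Nat.Coprime.pow_left _ (Nat.coprime_two_left.2 h8)
  refine ⟨e, h1, hk, ?_⟩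
  generalize Nat.card M = m at *
  generalize Nat.card G = g at *
  generalize {s : G | s * s = 1 ∧ s ≠ 1}.ncard = i at *
  generalize {b | IsConj z b}.ncard = j at *
  generalize 2 ^ e = f at *
  obtain ⟨f, rfl⟩ : ∃ f', f = f' + 2 := ⟨f - 2, by omega⟩
  obtain ⟨m, rfl⟩ : ∃ m', m = m' + 1 := ⟨m - 1, by omega⟩
  have e1 : i + (m + 1) = (m + 1) * (2 * (f + 2)) :=
    Nat.eq_of_mul_eq_mul_right (m := m + 1) (by omega) (by nlinarith)
  have e2 : f + 2 ∣ m := by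
    refine h9.dvd_of_dvd_mul_left ⟨(m + 1) * (m + 1) - j, ?_⟩
    have : j ≤ (m + 1) * (m + 1) := Nat.le_of_mul_le_mul_right (c := f + 2) (by nlinarith) (by omega)
    zify [this] at *
    nlinarith
  have e3 : m ≤ 2 * (f + 2) := by
    have : j * (2 * (f + 2)) ≤ i * (2 * (f + 2)) := Nat.mul_le_mul_right _ h5
    have h : 2 + (m + 1) * (2 * f + 2) ≤ (2 * f + 3) * (2 * f + 4) :=
      Nat.le_of_mul_le_mul_left (c := m + 1) (by nlinarith) (by omega)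
    exact Nat.le_of_mul_le_mul_right (c := 2 * f + 2) (by nlinarith) (by omega)
  obtain ⟨r, rfl⟩ := e2
  have e4 : r ≤ 2 := Nat.le_of_mul_le_mul_left (c := f + 2) (by omega) (by omega)
  refine ⟨e1, ?_⟩
  interval_cases r
  · omega
  · exact Or.inr ⟨by omega, by nlinarith⟩
  · refine Or.inl ⟨by omega, ?_⟩
    rw [show (2 * (f + 2)) ^ 2 - 1 = 4 * f * f + 16 * f + 15 from Nat.sub_eq_of_eq_add (by ring)]
    nlinarith

theorem mem_H {h : G} (hh : h ∈ Nm(M)) (hn : h ∉ M) : h * h = 1 := by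
  obtain ⟨x, hx, e, he, rfl⟩ := d.fac h hh
  by_cases e1 : e = 1
  · exact absurd (by simpa [e1] using hx) hn
  · exact d.uniq_D he (ea e he.2) e1 ▸ (d.xz hx).1

theorem case_sl {e : ℕ} (h1 : 1 ≤ e) (hC : Nat.card Cx(z) = 2 * 2 ^ e)
    (hI : {s : G | s * s = 1 ∧ s ≠ 1}.ncard + Nat.card M = Nat.card M * (2 * 2 ^ e))
    (hM : Nat.card M = 2 * 2 ^ e + 1) (hG : Nat.card G = 2 * 2 ^ e * ((2 * 2 ^ e) ^ 2 - 1)) :
    ∃ (F : Type) (_ : Field F) (_ : Fintype F) (e : ℕ), 1 < e ∧ Fintype.card F = 2 ^ e ∧ IsCyclic M ∧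
      Nat.card M = 2 ^ e + 1 ∧ Nonempty (G ≃* PSL(2, F)) := by
  have h2 : 2 ≤ 2 ^ e := Nat.le_self_pow (by omega) 2
  have h3 : 1 ≤ (2 * 2 ^ e) ^ 2 := by nlinarith
  have h4 := CfL.ncard_class_mul z
  rw [hC, hG, mul_comm] at h4
  have h5 := Set.eq_of_subset_of_ncard_le d.class_sub (by
    rw [Nat.eq_of_mul_eq_mul_left (by omega) h4]
    rw [hM] at hI
    zify [h3] at hI ⊢
    nlinarith)
  obtain ⟨F, _, _, hF, ⟨φ⟩⟩ := sl2_of_ea d.z1 ea (fun s s2 s1 => h5.ge ⟨s2, s1⟩) (by omega) (by rwa [hC])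
  rw [hC] at hF
  refine ⟨F, _, _, e + 1, by omega, by rw [hF, pow_succ'], ?_, by rw [hM, pow_succ'], ⟨φ⟩⟩
  obtain ⟨c, -, hc, -⟩ := CfH3.exists_torus hF (Or.inl rfl) (by omega)
  rw [CfH3.gcd_two_of_even (even_two_mul _) (by omega), Nat.div_one, ← hM, ← φ.symm.orderOf_eq] at hc
  generalize φ.symm c = c at hc
  obtain ⟨p, hp, hd⟩ := Nat.exists_prime_and_dvd d.one_lt.ne'
  have := Fact.mk hp
  have h6 := orderOf_pow_orderOf_div (x := c) (orderOf_pos c).ne' (hc ▸ hd)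
  obtain ⟨k, hk⟩ := exists_conj_mem (M := M) h6 fun h => by
    have h7 : M.index = 2 * 2 ^ e * (2 * 2 ^ e - 1) := Nat.eq_of_mul_eq_mul_left (Nat.card_pos (α := M)) (by
      rw [card_mul_index, hG, hM]
      zify [h3, show 1 ≤ 2 * 2 ^ e by omega]
      ring)
    have h8 : ¬ p ∣ 2 := fun f => Nat.not_even_iff_odd.2 (d.odd_M.of_dvd_nat hd)
      ((Nat.prime_dvd_prime_iff_eq hp Nat.prime_two).1 f ▸ even_two)
    rcases hp.dvd_mul.1 (h7 ▸ h) with f | f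
    · exact h8 (hp.dvd_of_dvd_pow (pow_succ' 2 e ▸ f))
    · exact h8 ((Nat.dvd_add_right f).1 (by rwa [show 2 * 2 ^ e - 1 + 2 = Nat.card M by omega]))
  have h9 : orderOf (k * c * k⁻¹) = Nat.card M := by rw [← hc]; exact (MulAut.conj k).orderOf_eq c
  have hN : k * c * k⁻¹ ∈ Nm(M) := d.ti _ hk (fun f => hp.one_lt.ne' (by
    rw [← h6, conj_eq_one_iff.1 f, orderOf_one])) _ (by
    rwa [← conj_pow, ((Commute.refl (k * c * k⁻¹)).pow_right _).eq, mul_inv_cancel_right, conj_pow])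
  have hcM : k * c * k⁻¹ ∈ M := by_contra fun f => d.one_lt.ne' (by
    rw [← h9, eq_one_of_sq_of_odd (d.mem_H ea hN f) (h9 ▸ d.odd_M), orderOf_one])
  rw [← eq_of_le_of_card_ge (zpowers_le.2 hcM) (by rw [Nat.card_zpowers, h9])]
  infer_instance

theorem case_aff {e : ℕ} (h1 : 1 ≤ e) (hC : Nat.card Cx(z) = 2 * 2 ^ e)
    (hI : {s : G | s * s = 1 ∧ s ≠ 1}.ncard + Nat.card M = Nat.card M * (2 * 2 ^ e))
    (hM : Nat.card M = 2 ^ e + 1) (hG : Nat.card G = (2 ^ e) ^ 2 * (2 * Nat.card M)) :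
    ∃ (k : ℕ) (E : Subgroup G), 1 ≤ k ∧ E.Normal ∧ IsElementaryAbelian 2 E ∧ Nat.card E = 2 ^ (2 * k) ∧
      E ⊓ Nm(M) = ⊥ ∧ E ⊔ Nm(M) = ⊤ ∧ Nonempty (Nm(M) ≃* DihedralGroup (2 ^ k + 1)) := by
  have h2 : 2 ≤ 2 ^ e := Nat.le_self_pow (by omega) 2
  set X := {s : G | s * s = 1 ∧ s ≠ 1} \ {b | IsConj z b}
  have h3 : (insert 1 X).ncard = (2 ^ e) ^ 2 := by
    have h4 := CfL.ncard_class_mul z
    have h5 := Set.ncard_sdiff_add_ncard_of_subset d.class_sub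
    rw [hC, hG] at h4
    have : {b | IsConj z b}.ncard = 2 ^ e * Nat.card M := Nat.eq_of_mul_eq_mul_right (m := 2 * 2 ^ e) (by omega) (by
      rw [h4]; ring)
    rw [Set.ncard_insert_of_notMem fun f => f.1.2 rfl]
    rw [← h5, this, hM] at hI
    nlinarith
  have hH : ∀ s ∈ X, ∀ k, k * s * k⁻¹ ∉ Nm(M) := fun s hs k f => by
    obtain ⟨y, -, e1⟩ := d.conj_z f (by rw [conj_mul, hs.1.1]; simp) (by simpa using hs.1.2)
    exact hs.2 (isConj_iff.2 ⟨k⁻¹ * y, by rw [← e1]; group⟩)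
  have hO : insert 1 X ⊆ pCore 2 G := by
    rintro s (rfl | hs)
    · exact one_mem _
    refine baer_suzuki fun g => ?_
    have g2 : g * s * g⁻¹ * (g * s * g⁻¹) = 1 := by rw [conj_mul, hs.1.1]; simp
    generalize g * s * g⁻¹ = r at g2
    have h6 : IsPGroup 2 (zpowers (s * r)) := by
      by_contra h
      obtain ⟨p, hp, p2, y, hy, oy⟩ : ∃ p : ℕ, p.Prime ∧ p ≠ 2 ∧ ∃ y ∈ zpowers (s * r), orderOf y = p := by
        rw [IsPGroup.iff_card, Nat.card_zpowers] at h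
        obtain ⟨p, hp, hd, p2⟩ : ∃ p : ℕ, p.Prime ∧ p ∣ orderOf (s * r) ∧ p ≠ 2 := by
          by_contra! f
          exact h ⟨_, Nat.eq_prime_pow_of_unique_prime_dvd (orderOf_pos _).ne' fun {p} hp hd => f p hp hd⟩
        exact ⟨p, hp, p2, _, pow_mem (mem_zpowers _) _, orderOf_pow_orderOf_div (orderOf_pos _).ne' hd⟩
      have := Fact.mk hp
      obtain ⟨k, hk⟩ := exists_conj_mem (M := M) oy fun h => by
        rw [show M.index = 2 ^ (2 * e + 1) from Nat.eq_of_mul_eq_mul_left (Nat.card_pos (α := M)) (by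
          rw [card_mul_index, hG]; ring)] at h
        exact p2 ((Nat.prime_dvd_prime_iff_eq hp Nat.prime_two).1 (hp.dvd_of_dvd_pow h))
      refine hH s hs k (d.ti _ hk (fun f => hp.one_lt.ne' (by rw [← oy, conj_eq_one_iff.1 f, orderOf_one])) _ ?_)
      rw [conj_inv, conj_mul, conj_mul, (CfL.inv_conj_mul hs.1.1 g2 hy).1, ← conj_inv]
      exact inv_mem hk
    refine (isPGroup_sup (isPGroup_zpowers (k := 1) (x := s) (by rw [pow_one, pow_two, hs.1.1])) h6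
      (zpowers_le.2 (mem_normalizer_of_conj_mem fun y hy => ?_))).to_le ((closure_le _).2 ?_)
    · rw [(CfL.inv_conj_mul hs.1.1 g2 hy).1]; exact inv_mem hy
    · rintro _ (rfl | rfl)
      · exact mem_sup_left (mem_zpowers _)
      · exact (mul_mem_cancel_left (mem_sup_left (mem_zpowers s))).1 (mem_sup_right (mem_zpowers _))
  have pO : IsPGroup 2 (pCore 2 G) := isPGroup_pCore 2 G
  have nO : (pCore 2 G).Normal := inferInstance
  generalize pCore 2 G = O at hO pO nO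
  have OM : ∀ x ∈ M, x ∈ O → x = 1 := fun x hx h => by
    obtain ⟨k, hk⟩ := isPGroup_iff_mem.1 pO x h
    exact orderOf_eq_one_iff.1 (Nat.eq_one_of_dvd_coprimes ((Nat.coprime_two_left.2 (d.oM hx)).pow_left k)
      (orderOf_dvd_of_pow_eq_one hk) dvd_rfl)
  have zO : z ∉ O := fun h => by
    obtain ⟨x, hx, x1⟩ := d.M_ne
    refine x1 (d.sq hx (OM _ (mul_mem hx hx) ?_))
    have := mul_mem (nO.conj_mem z h x) (inv_mem h)
    rwa [mul_assoc, mul_assoc, ← mul_assoc z, d.zinv (inv_mem hx), inv_inv] at this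
  have h7 : Nat.card O ≤ (2 ^ e) ^ 2 := by
    obtain ⟨n, hn⟩ := IsPGroup.iff_card.1 pO
    have := card_subgroup_dvd_card (zpowers z ⊔ O)
    rw [card_inv_sup d.z2 (mem_Nm_of_normal z O) zO, hG, mul_left_comm, Nat.mul_dvd_mul_iff_left two_pos] at this
    exact Nat.le_of_dvd (by positivity) (Nat.Coprime.dvd_of_dvd_mul_right
      (hn ▸ (Nat.coprime_two_left.2 d.odd_M).pow_left n) this)
  have h8 := Set.eq_of_subset_of_ncard_le hO (by rwa [h3, ← Nat.card_coe_set_eq])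
  have h9 : Nat.card O = (2 ^ e) ^ 2 := by rw [← h3, h8, ← Nat.card_coe_set_eq]; rfl
  have eO : ∀ s ∈ O, s * s = 1 := fun s hs => (h8.ge hs).elim (fun f => by simp [f]) fun f => f.1.1
  have OH : O ⊓ Nm(M) = ⊥ := eq_bot_iff.2 fun s hs => (h8.ge hs.1).resolve_right fun f => hH s f 1 (by simpa using hs.2)
  have hcyc : IsCyclic M := CfFT.SReg.cyc_of_ab (H := O) (fun x hx x1 => eq_bot_iff.2 fun s hs =>
    eq_one_of_sq_of_odd (eO s hs.1) (d.odd x hx x1 s (mem_Cx.1 hs.2))) (fun x _ => mem_Nm_of_normal x O)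
    (fun f => by rw [f, card_bot] at h9; nlinarith) d.comm
  refine ⟨e, O, h1, nO, ⟨comm_iff.2 fun a ha b hb => comm_of_ea eO ha hb, fun a ha => by rw [pow_two, eO a ha]⟩,
    by rw [h9]; ring, OH, eq_top_of_card_eq _ ?_, ?_⟩
  · have := CfH9.card_sup_mul_card_inf (A := Nm(M)) (B := O) fun x _ => mem_Nm_of_normal x O
    rw [inf_comm, OH, card_bot, mul_one, sup_comm, d.card_H2 ea, h9] at this
    rw [this, hG, mul_comm]
  · have h10 := Nat.card_congr (subgroupOfEquivOfLe d.M_le).toEquiv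
    rw [← hM, ← h10]
    refine CfH3.equiv_dihedral _ (isCyclic_subgroupOf _ hcyc) (Nat.eq_of_mul_eq_mul_left (Nat.card_pos (α := M)) ?_)
      fun g hg => Subtype.ext (d.mem_H ea g.2 hg)
    rw [← h10, card_mul_index, d.card_H2 ea, h10, mul_comm]

end TD

end CfH1
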