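import Cfsg.Agent.H1.Zs6
import Cfsg.Agent.H8.W0
import Cfsg.Agent.H6.WTr
import Cfsg.Agent.S1829

/-! Glue for S1832: the pieces `P0`–`P6` give the theorem in the solvable case. -/

set_option autoImplicit false
set_option linter.unusedSectionVars false

namespace CfH1.W

open Cfsg Subgroup CfH9 CfH7 CfH8 CfH8.W
open scoped commutatorElement

universe u
variable {G : Type u} [Group G] [Finite G]

theorem le_of_two {T K K₂ H : Subgroup G} (g : GH T) (two : Two T) (o : Orb T K K₂) (ne : K ≠ K₂)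
    (nJ : Nm(JJ 2 T) ≤ T) (a : K ⊔ K₂ ⊔ T ≤ H) (b : pCoreOf 2 H ≠ ⊥) : H ≤ K ⊔ K₂ ⊔ T := by
  have hT : T ≤ H := le_sup_right.trans a
  refine CfH8.W.le_of_comps (g.ll hT b o.jc (o.le₁.trans a)) (fun L hL LH => ?_)
    (inf_le_right.trans (nJ.trans le_sup_right))
  rcases two H K K₂ L hT b o.jc o.jc₂ hL (o.le₁.trans a) (o.le₂.trans a) LH with e | e | e
  · exact absurd e ne
  · exact e ▸ o.le₁
  · exact e ▸ o.le₂

theorem maxLoc {T K K₂ : Subgroup G} (g : GH T) (two : Two T) (o : Orb T K K₂) (ne : K ≠ K₂)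
    (nJ : Nm(JJ 2 T) ≤ T) : K ⊔ K₂ ⊔ T ∈ maxTwoLocalsContaining T := by
  have k : ∀ R : Subgroup G, IsPGroup 2 R → R ≠ ⊥ → K ⊔ K₂ ⊔ T ≤ Nm(R) → Nm(R) = K ⊔ K₂ ⊔ T :=
    fun R a b c => le_antisymm (le_of_two g two o ne nJ c fun e =>
      b (eq_bot_iff.2 (e ▸ le_pCoreOf le_normalizer le_rfl a))) c
  refine ⟨⟨⟨_, isPGroup_pCoreOf _, o.loc,
    (k _ (isPGroup_pCoreOf _) o.loc (le_normalizer_pCoreOf _)).symm⟩, ?_⟩, le_sup_right⟩
  rintro N ⟨R, a, b, rfl⟩ c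
  exact k R a b c

theorem glue (p0 : P0.{u}) (p1 : P1.{u}) (p2 : P2.{u}) (p3 : P3.{u}) (p4 : P4.{u}) (p5 : P5.{u})
    (p6 : P6.{u}) [IsSimpleGroup G] (hG : ¬ IsMulCommutative G) (hQ : Cfsg.IsQTKE G) (T : Sylow 2 G)
    (n : Cfsg.calL (T : Subgroup G) = ∅)
    (hZ : ∃ M₁ M₂ : Subgroup G,
      M₁ ∈ Cfsg.maxTwoLocalsContaining (Subgroup.centralizer ((Cfsg.omegaOne 2 ((T : Subgroup G) ⊓ Subgroup.centralizer ((T : Subgroup G) : Set G))) : Set G)) ∧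
      M₂ ∈ Cfsg.maxTwoLocalsContaining (Subgroup.centralizer ((Cfsg.omegaOne 2 ((T : Subgroup G) ⊓ Subgroup.centralizer ((T : Subgroup G) : Set G))) : Set G)) ∧ M₁ ≠ M₂) :
    (∃ (F : Type) (_ : Field F) (_ : Fintype F), Fintype.card F = 2 ∧
        Nonempty (G ≃* Matrix.ProjectiveSpecialLinearGroup (Fin 3) F)) ∨
      Nonempty (G ≃* ↥(alternatingGroup (Fin 6))) := by
  have cz := CfH1.Zs.finL hG hQ T n hZ
  obtain ⟨M₁, M₂, a, b, c⟩ := hZ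
  rw [cz] at a b
  have hT := sylIn_top T
  have hpar : IsOfParabolicCharacteristic 2 G := fun R hR hR1 hS => hQ.2.2 _ ⟨R, hR, hR1, rfl⟩ hS
  have g : GH (T : Subgroup G) := ⟨hT, cz.le, fun H h1 h2 =>
    ⟨CfH2.Uq.sol T n H ⟨fun e => h2 (pCoreOf_eq_bot_iff.2 e), h1⟩,
      parabolicChar_Cz_pCoreOf_le hpar hT h1 h2⟩⟩
  have two := p1 hQ.1 _ g
  obtain ⟨K, K₂, L, L₂, cf⟩ := p2 _ g (p0 hG hQ T g) two M₁ M₂ a.1 b.1 a.2 b.2 c
  have hp : commutator G = ⊤ := by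
    refine (IsSimpleGroup.eq_bot_or_eq_top_of_normal (commutator G) inferInstance).resolve_left
      fun e => hG ⟨⟨fun x y => ?_⟩⟩
    have : ⁅x, y⁆ ∈ commutator G := commutator_mem_commutator (mem_top x) (mem_top y)
    rw [e, mem_bot] at this
    exact commutatorElement_eq_one_iff_mul_comm.1 this
  have tr : OZ 2 (JJ 2 (T : Subgroup G)) ≤ ⁅(T : Subgroup G), (T : Subgroup G)⁆ := fun v hv =>
    CfH6.WTr.tr hp T (J_le _) (fun x hx => cf.nJ (mem_normalizer_iff_cj.2 (cj_J_eq_of_le hx)))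
      (J_le _ (OZ_le _ hv)) (OZ_le_Cz _ hv) ((sq v).symm.trans (mem_OZ.1 hv).2)
  have key : ∀ {K K₂ L L₂ : Subgroup G}, Cf (T : Subgroup G) K K₂ L L₂ → pCoreOf 2 K = wOf K →
      (∃ (F : Type) (_ : Field F) (_ : Fintype F), Fintype.card F = 2 ∧
        Nonempty (G ≃* Matrix.ProjectiveSpecialLinearGroup (Fin 3) F)) ∨
      Nonempty (G ≃* ↥(alternatingGroup (Fin 6))) := fun {K K₂ L L₂} cf w => by
    have z := p4 cf w tr
    by_cases e : K = K₂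
    · subst e
      exact p5 hG g cf.oK w (by rwa [sup_idem] at z)
    · exact (Cfsg.Agent.S1829.result hG hQ T _ (maxLoc g two cf.oK e cf.nJ)
        (p6 g cf.oK e w z)).elim
  exact (p3 cf).elim (key cf) (key cf.symm)

/-- S1832 from the pieces and the conclusion of S1821. -/
theorem glue' (p0 : P0.{u}) (p1 : P1.{u}) (p2 : P2.{u}) (p3 : P3.{u}) (p4 : P4.{u}) (p5 : P5.{u})
    (p6 : P6.{u}) [IsSimpleGroup G] (hG : ¬ IsMulCommutative G) (hQ : Cfsg.IsQTKE G) (T : Sylow 2 G)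
    (h21 : ∀ L ∈ Cfsg.calLMax (T : Subgroup G),
      (∀ H ∈ Cfsg.calHOver (L ⊔ (T : Subgroup G)), L.subgroupOf H ∈ Cfsg.calC ↥H) ∧
      Cfsg.generalizedFittingSubgroup ↥L = Cfsg.pCore 2 ↥L ∧
      Cfsg.maxTwoLocalsContaining (L ⊔ (T : Subgroup G)) =
        {Subgroup.normalizer (Cfsg.conjClosure L (T : Subgroup G) : Set G)})
    (hE : Cfsg.calLf (T : Subgroup G) = ∅)
    (hZ : ∃ M₁ M₂ : Subgroup G,
      M₁ ∈ Cfsg.maxTwoLocalsContaining (Subgroup.centralizer ((Cfsg.omegaOne 2 ((T : Subgroup G) ⊓ Subgroup.centralizer ((T : Subgroup G) : Set G))) : Set G)) ∧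
      M₂ ∈ Cfsg.maxTwoLocalsContaining (Subgroup.centralizer ((Cfsg.omegaOne 2 ((T : Subgroup G) ⊓ Subgroup.centralizer ((T : Subgroup G) : Set G))) : Set G)) ∧ M₁ ≠ M₂) :
    (∃ (F : Type) (_ : Field F) (_ : Fintype F), Fintype.card F = 2 ∧
        Nonempty (G ≃* Matrix.ProjectiveSpecialLinearGroup (Fin 3) F)) ∨
      Nonempty (G ≃* ↥(alternatingGroup (Fin 6))) :=
  glue p0 p1 p2 p3 p4 p5 p6 hG hQ T
    (CfH2.Uq.noL hQ.2.2 T (fun L hL => ⟨(h21 L hL).2.1, _, (h21 L hL).2.2⟩) hE hZ) hZ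

end CfH1.W
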