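import Cfsg.Agent.H1.Zs4
import Cfsg.Agent.H1.Zs5
import Cfsg.Agent.H9.Zs1
import Cfsg.Agent.H9.Zs2
import Cfsg.Agent.H2.Uq2

/-! Glue for S1833: all pieces, with the uniqueness theorem S1821 as a hypothesis. -/

set_option autoImplicit false
open Cfsg

namespace CfH1.Zs

universe u

/-- The solvable case: no members of `calL T`. -/
theorem finL {G : Type u} [Group G] [Finite G] [IsSimpleGroup G]
    (hG : ¬ IsMulCommutative G) (hQ : Cfsg.IsQTKE G) (T : Sylow 2 G)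
    (n : Cfsg.calL (T : Subgroup G) = ∅)
    (hZ : ∃ M₁ M₂ : Subgroup G,
      M₁ ∈ Cfsg.maxTwoLocalsContaining (Subgroup.centralizer ((Cfsg.omegaOne 2 ((T : Subgroup G) ⊓ Subgroup.centralizer ((T : Subgroup G) : Set G))) : Set G)) ∧
      M₂ ∈ Cfsg.maxTwoLocalsContaining (Subgroup.centralizer ((Cfsg.omegaOne 2 ((T : Subgroup G) ⊓ Subgroup.centralizer ((T : Subgroup G) : Set G))) : Set G)) ∧ M₁ ≠ M₂) :
    Subgroup.centralizer ((Cfsg.omegaOne 2 ((T : Subgroup G) ⊓ Subgroup.centralizer ((T : Subgroup G) : Set G))) : Set G) = (T : Subgroup G) := by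
  obtain ⟨M₁, M₂, a, b, c⟩ := hZ
  exact CfH1.Zs.main4 CfH9.Zs.p1 CfH9.Zs.p2 CfH9.Zs.p3 CfH1.Zs.p4 hG hQ T n (CfH2.Uq.sol T n) a b c

/-- S1833 from the conclusion of S1821. -/
theorem fin {G : Type u} [Group G] [Finite G] [IsSimpleGroup G]
    (hG : ¬ IsMulCommutative G) (hQ : Cfsg.IsQTKE G) (T : Sylow 2 G)
    (h21 : ∀ L ∈ Cfsg.calLMax (T : Subgroup G),
      (∀ H ∈ Cfsg.calHOver (L ⊔ (T : Subgroup G)), L.subgroupOf H ∈ Cfsg.calC ↥H) ∧
      Cfsg.generalizedFittingSubgroup ↥L = Cfsg.pCore 2 ↥L ∧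
      Cfsg.maxTwoLocalsContaining (L ⊔ (T : Subgroup G)) =
        {Subgroup.normalizer (Cfsg.conjClosure L (T : Subgroup G) : Set G)})
    (hE : Cfsg.calLf (T : Subgroup G) = ∅)
    (hZ : ∃ M₁ M₂ : Subgroup G,
      M₁ ∈ Cfsg.maxTwoLocalsContaining (Subgroup.centralizer ((Cfsg.omegaOne 2 ((T : Subgroup G) ⊓ Subgroup.centralizer ((T : Subgroup G) : Set G))) : Set G)) ∧
      M₂ ∈ Cfsg.maxTwoLocalsContaining (Subgroup.centralizer ((Cfsg.omegaOne 2 ((T : Subgroup G) ⊓ Subgroup.centralizer ((T : Subgroup G) : Set G))) : Set G)) ∧ M₁ ≠ M₂) :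
    Subgroup.centralizer ((Cfsg.omegaOne 2 ((T : Subgroup G) ⊓ Subgroup.centralizer ((T : Subgroup G) : Set G))) : Set G) = (T : Subgroup G) :=
  finL hG hQ T (CfH2.Uq.noL hQ.2.2 T (fun L hL => ⟨(h21 L hL).2.1, _, (h21 L hL).2.2⟩) hE hZ) hZ

end CfH1.Zs
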